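/- AH tower: centralisers of order at most six in the top module. -/
import Cfsg.Agent.H91.AHSpec

set_option autoImplicit false

namespace H73.AHK6

open H33.Solv Subgroup MulAction H91.AH

theorem n5 : (2 : ZMod 5) ≠ 0 ∧ ∀ n ≤ 6, 0 < n → (2 : ZMod 5) ^ n = 1 → ¬ n * n.totient ≤ 6 := by
  decide

theorem n7 : (3 : ZMod 7) ≠ 0 ∧ ∀ n ≤ 6, 0 < n → (3 : ZMod 7) ^ n = 1 → ¬ n * n.totient ≤ 6 := by
  decide

section
variable {p : ℕ} [Fact p.Prime] {H V : Type} [Group H] [Finite H] [AddCommGroup V] [Finite V]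
  [Module (ZMod p) V] [DistribMulAction H V]

omit [Finite H] [Finite V] in
theorem central (rv : RV p H V) {t : H} (ht : t * t = 1) (hf : fix V t = ⊥) : t ∈ center H := by
  have hn : ∀ w : V, t • w = -w := fun w => by
    have : w + t • w ∈ fix V t := by
      rw [mem_fix, smul_add, smul_smul, ht, one_smul, add_comm]
    rw [hf, AddSubgroup.mem_bot] at this
    exact eq_neg_of_add_eq_zero_right this
  rw [mem_center_iff]
  intro g
  have := rv.faith (g * t * (t * g)⁻¹) fun w => by
    rw [mul_inv_rev, mul_smul, mul_smul, mul_smul, hn, smul_neg, smul_inv_smul, ← hn, smul_inv_smul]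
  exact mul_inv_eq_one.1 this

omit [Finite V] in
theorem big (hRD : JobRD) (rv : RV p H V) (hp : p = 5 ∨ p = 7) : 6 < Nat.card H := by
  by_contra hle
  have := rv.nt
  obtain ⟨v, hv⟩ := exists_ne (0 : V)
  have key : ∀ a : ZMod p, a ≠ 0 → ∃ n : ℕ, 0 < n ∧ a ^ n = 1 ∧ n * n.totient ≤ 6 ∧ n ≤ 6 := by
    intro a ha
    obtain ⟨g, hg, -⟩ := rv.ep (one_smul H v) ha
    refine ⟨orderOf g, orderOf_pos g, ?_, (Nat.le_of_dvd Nat.card_pos (hRD H rv.ratH g)).trans
      (by omega), (Nat.le_of_dvd Nat.card_pos (orderOf_dvd_natCard g)).trans (by omega)⟩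
    have h1 := pow_smul_eig hg (orderOf g)
    rw [pow_orderOf_eq_one, one_smul] at h1
    have h2 : (a ^ orderOf g - 1) • v = 0 := by rw [sub_smul, ← h1, one_smul, sub_self]
    exact sub_eq_zero.1 ((smul_eq_zero.1 h2).resolve_right hv)
  rcases hp with rfl | rfl
  · obtain ⟨n, h0, h1, h2, h3⟩ := key 2 n5.1
    exact n5.2 n h3 h0 h1 h2
  · obtain ⟨n, h0, h1, h2, h3⟩ := key 3 n7.1
    exact n7.2 n h3 h0 h1 h2

theorem pair (hCCQ : JobCCQ) (hRD : JobRD) (hFRB : JobFRB) (hK3 : K3) (hKA : JobKA) (hKB : JobKB)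
    (hKC : JobKC) (hKE : JobKE) (hKD : JobKD) (rv : RV p H V) (hp : p = 5 ∨ p = 7) {z t : H}
    (hz : orderOf z = 3) (ht : orderOf t = 2) (hc : Commute z t)
    (h6 : Nat.card (centralizer ({z} : Set H) ⊓ centralizer ({t} : Set H) : Subgroup H) ≤ 6) :
    False := by
  have hfz : fix V z = ⊥ := hKA hCCQ p H V rv hp z t hz ht hc h6
  have hs := rv.sol
  by_cases hft : fix V t = ⊥
  · have hcen : t ∈ center H := central rv (by rw [← pow_two, ← ht, pow_orderOf_eq_one]) hft
    have hcc : cc z ≤ 6 := by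
      have : centralizer ({z} : Set H) ⊓ centralizer ({t} : Set H) = centralizer ({z} : Set H) :=
        inf_eq_left.2 fun g _ => mem_cent.2 (mem_center_iff.1 hcen g)
      rwa [this] at h6
    have hFR : FR z := hFRB H V rv.coprime rv.faith z (by rw [hz]; norm_num) hfz
    rcases hKC hCCQ hKB H hs z t hz ht hcen hcc hFR with hn | ⟨M, h1, h2, h3, h4, h5⟩
    · exact hKD hRD p H V rv hp z hz hcc hn
    · exact hKE hRD H z t M rv.ratH hz ht hcen h1 h2 h3 h4 h5
  · obtain ⟨v, hv, hv0⟩ := (AddSubgroup.bot_or_exists_ne_zero _).resolve_left hft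
    let E : Subgroup H := centralizer ({t} : Set H)
    have hinv : Inv E (fix V t) := fun g w hw => by
      rw [mem_fix] at hw ⊢
      show t • (g : H) • w = (g : H) • w
      rw [smul_smul, ← (mem_cent.1 g.2).eq, mul_smul, hw]
    letI : DistribMulAction E (fix V t) := subAct _ hinv
    letI : Module (ZMod p) (fix V t) := (AddSubgroup.toZModSubmodule p (fix V t)).module
    let t' : E := ⟨t, mem_cent.2 (Commute.refl t)⟩
    let z' : E := ⟨z, mem_cent.2 hc⟩
    have hZ : Nat.card (zpowers t') = 2 := by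
      rw [Nat.card_zpowers, ← ht]; exact (orderOf_coe t').symm
    refine hK3 p E (fix V t) inferInstance hp
      (fun h => rv.cop (h.trans (card_subgroup_dvd_card E))) (zpowers t') z' ⟨v, hv⟩ ?_ ?_ ?_ ?_ ?_ ?_
      (fun h => hv0 (congrArg Subtype.val h)) fun a ha => ?_
    · rw [zpowers_le, mem_center_iff]
      intro g
      exact Subtype.ext (mem_cent.1 g.2).eq
    · intro c hc w
      exact fix_zpow (g := t') (v := w) (Subtype.ext w.2) hc
    · rw [hZ]; norm_num
    · rw [← hz]; exact (orderOf_coe z').symm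
    · rw [hZ]
      refine le_trans (Nat.card_le_card_of_injective
        (fun g : centralizer ({z'} : Set E) =>
          (⟨g.1.1, mem_cent.2 (congrArg Subtype.val (mem_cent.1 g.2).eq), g.1.2⟩ :
            (centralizer ({z} : Set H) ⊓ centralizer ({t} : Set H) : Subgroup H))) ?_) h6
      intro a b h
      have h' := Subtype.ext_iff.1 h
      exact Subtype.ext (Subtype.ext h')
    · rw [eq_bot_iff]
      intro w hw
      have : (w : V) ∈ fix V z := congrArg Subtype.val (mem_fix.1 hw)
      rw [hfz, AddSubgroup.mem_bot] at this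
      exact AddSubgroup.mem_bot.2 (Subtype.ext this)
    · obtain ⟨g, h1, h2⟩ := rv.ep (mem_fix.1 hv) ha
      exact ⟨⟨g, mem_cent.2 h2⟩, Subtype.ext h1⟩

end

theorem jobK6 : JobK6 := by
  intro hCCQ hRD hFRB hV5 hK3 hKA hKB hKC hKE hKD p _ H V _ _ _ _ _ _ rv hp h v hv h6
  by_contra hle
  rw [not_lt, lk] at hle
  have hpos : 0 < Nat.card (centralizer ({h} : Set H) ⊓ stabilizer H v : Subgroup H) := Nat.card_pos
  have := rv.nt
  by_cases hf : fix V h = ⊥
  · have hv0 : v = 0 := by
      have : v ∈ fix V h := hv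
      rwa [hf, AddSubgroup.mem_bot] at this
    have hcc : cc h ≤ 6 := by
      have e : centralizer ({h} : Set H) ⊓ stabilizer H v = centralizer ({h} : Set H) :=
        inf_eq_left.2 fun g _ => by rw [mem_stabilizer_iff, hv0, smul_zero]
      rwa [hf, AddSubgroup.card_bot, one_mul, e] at hle
    obtain ⟨w, hw⟩ := exists_ne (0 : V)
    have h1 : orderOf h ≠ 1 := fun e => hw (by
      have : w ∈ fix V h := by rw [orderOf_eq_one_iff.1 e]; exact one_smul H w
      rwa [hf, AddSubgroup.mem_bot] at this)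
    have hd : orderOf h ∣ 6 := orderOf_dvd_of_pow_eq_one h6
    have ho : orderOf h = 2 ∨ orderOf h = 3 ∨ orderOf h = 6 := by
      have hl := Nat.le_of_dvd (by norm_num) hd
      generalize orderOf h = n at h1 hd hl
      interval_cases n <;> omega
    rcases ho with ho | ho | ho
    · have hcen : h ∈ center H := central rv (by rw [← pow_two, ← ho, pow_orderOf_eq_one]) hf
      have e : cc h = cc (1 : H) := cc_congr fun g =>
        ⟨fun _ => Commute.one_right g, fun _ => mem_center_iff.1 hcen g⟩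
      have := big hRD rv hp
      rw [e, cc_one] at hcc
      omega
    · by_cases h3 : cc h ≤ 3
      · refine hK3 p H V rv.sol hp rv.cop ⊥ h w bot_le (fun c hc u => ?_) (by simp) ho
          (by simpa using h3) hf hw fun a ha => ?_
        · rw [mem_bot.1 hc, one_smul]
        · obtain ⟨g, hg, -⟩ := rv.ep (one_smul H w) ha
          exact ⟨g, hg⟩
      · have hd3 : 3 ∣ cc h := ho ▸ orderOf_dvd_cc (Commute.refl h)
        have h2 : 2 ∣ Nat.card (centralizer ({h} : Set H)) := by
          show 2 ∣ cc h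
          omega
        haveI : Fact (Nat.Prime 2) := ⟨Nat.prime_two⟩
        obtain ⟨t, ht⟩ := exists_prime_orderOf_dvd_card' 2 h2
        refine pair hCCQ hRD hFRB hK3 hKA hKB hKC hKE hKD rv hp ho ((orderOf_coe t).trans ht)
          (mem_cent.1 t.2).symm (le_trans (card_le_of_le inf_le_left) hcc)
    · refine pair hCCQ hRD hFRB hK3 hKA hKB hKC hKE hKD rv hp (z := h ^ 2) (t := h ^ 3)
        (by rw [orderOf_pow' h (by norm_num), ho]; rfl) (by rw [orderOf_pow' h (by norm_num), ho]; rfl)
        ((Commute.refl h).pow_pow 2 3) (le_trans (card_le_of_le fun g hg => mem_cent.2 ?_) hcc)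
      have e : h = h ^ 3 * (h ^ 2)⁻¹ := by group
      rw [e]
      exact (mem_cent.1 hg.2).mul_right (mem_cent.1 hg.1).inv_right
  · obtain ⟨n, hn⟩ := card_pow (p := p) (fix V h)
    have hn0 : n ≠ 0 := fun e => hf (by
      rw [e, pow_zero] at hn; exact AddSubgroup.card_eq_one.1 hn)
    have hge : p ≤ Nat.card (fix V h) := by
      rw [hn]; exact Nat.le_self_pow hn0 p
    have hc1 : Nat.card (centralizer ({h} : Set H) ⊓ stabilizer H v : Subgroup H) = 1 := by
      by_contra hne
      have h2 : 2 ≤ Nat.card (centralizer ({h} : Set H) ⊓ stabilizer H v : Subgroup H) := by omega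
      have := Nat.mul_le_mul hge h2
      omega
    have hh : h = 1 := by
      have : h ∈ centralizer ({h} : Set H) ⊓ stabilizer H v := ⟨mem_cent.2 (Commute.refl h), hv⟩
      rwa [card_eq_one.1 hc1, mem_bot] at this
    rw [hc1, mul_one] at hle
    have hp5 : p = 5 := by omega
    refine hV5 p H V rv hp5 h (Or.inl hh) ?_
    have hd : p ∣ Nat.card (fix V h) := by rw [hn]; exact dvd_pow_self p hn0
    rw [hp5] at hd hge
    omega

end H73.AHK6
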