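import Cfsg.Agent.H20.C3Spec

/-! The elements of order four in the automizers of `E₁`, `E₂`, `E₃`. -/

set_option autoImplicit false

namespace H73.C3G
open Subgroup H90.RF H20.C3

/-- `y` acts on the coordinates `p`, `q` of `P` by a matrix. -/
def Ac (P : Subgroup Co) (p q : Co → F3) (y : Co → Co) (m n r s : F3) : Prop :=
  ∀ u ∈ P, p (y u) = m * p u + n * q u ∧ q (y u) = r * p u + s * q u

set_option synthInstance.maxSize 8192 in
set_option synthInstance.maxHeartbeats 400000 in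
theorem alg : ∀ m n r s m' n' r' s' σ : F3, m * m' + n * r' = 1 → m * n' + n * s' = 0 →
    r * m' + s * r' = 0 → r * n' + s * s' = 1 → n ≠ 0 → σ ≠ 0 → ∃ i j k : F3,
    ((m + n * j) * m' + n * r') + ((m + n * j) * n' + n * s') * k = 0 ∧
    (m + n * j) * n' + n * s' = σ ∧
    (i * ((m + n * j) * m' + n * r') + ((r + s * j) * m' + s * r')) +
      (i * ((m + n * j) * n' + n * s') + ((r + s * j) * n' + s * s')) * k = -σ ∧
    i * ((m + n * j) * n' + n * s') + ((r + s * j) * n' + s * s') = 0 := by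
  decide +kernel

theorem core {Y : Subgroup (Equiv.Perm Co)} {P : Subgroup Co} {p q : Co → F3}
    (Tv : Equiv.Perm Co → Prop) (hP : ∀ y ∈ Y, Pr y P) (hA : ∀ y ∈ Y, ∃ m n r s, Ac P p q y m n r s)
    (hm : ∀ y ∈ Y, ∀ y' ∈ Y, Tv y → Tv y' → Tv (y * y'))
    (hc : ∀ α ∈ Y, ∀ y ∈ Y, Tv y → Tv (α * y * α⁻¹))
    (hx : ∀ t, ∃ y ∈ Y, Ac P p q y 1 0 t 1 ∧ Tv y) {u1 u2 : Co} (h1 : u1 ∈ P ∧ p u1 = 1 ∧ q u1 = 0)
    (h2 : u2 ∈ P ∧ p u2 = 0 ∧ q u2 = 1) {α : Equiv.Perm Co} (hα : α ∈ Y)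
    (hn : ¬ ∀ u ∈ P, p u = 0 → p (α u) = 0) {σ : F3} (hσ : σ ≠ 0) :
    ∃ w ∈ Y, (∀ u ∈ P, p (w u) = σ * q u ∧ q (w u) = -σ * p u) ∧ Tv w := by
  obtain ⟨m, n, r, s, a⟩ := hA α hα
  obtain ⟨m', n', r', s', a'⟩ := hA _ (Y.inv_mem hα)
  have n0 : n ≠ 0 := fun e => hn fun u hu h => by rw [(a u hu).1, h, e]; ring
  have key : ∀ u ∈ P, p u = (m * m' + n * r') * p u + (m * n' + n * s') * q u ∧
      q u = (r * m' + s * r') * p u + (r * n' + s * s') * q u := fun u hu => by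
    have b := a _ (hP _ (Y.inv_mem hα) u hu)
    rw [show α (α⁻¹ u) = u from α.apply_symm_apply u, (a' u hu).1, (a' u hu).2] at b
    exact ⟨by linear_combination b.1, by linear_combination b.2⟩
  have k1 := key u1 h1.1
  have k2 := key u2 h2.1
  rw [h1.2.1, h1.2.2] at k1
  rw [h2.2.1, h2.2.2] at k2
  obtain ⟨i, j, k, e1, e2, e3, e4⟩ := alg m n r s m' n' r' s' σ (by linear_combination -k1.1)
    (by linear_combination -k2.1) (by linear_combination -k1.2) (by linear_combination -k2.2) n0 hσ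
  obtain ⟨x, xY, ax, tx⟩ := hx i
  obtain ⟨y, yY, ay, ty⟩ := hx j
  obtain ⟨z, zY, az, tz⟩ := hx k
  have cY := Y.mul_mem (Y.mul_mem hα yY) (Y.inv_mem hα)
  refine ⟨x * (α * y * α⁻¹) * z, Y.mul_mem (Y.mul_mem xY cY) zY, fun u hu => ?_,
    hm _ (Y.mul_mem xY cY) _ zY (hm _ xY _ cY tx (hc α hα y yY ty)) tz⟩
  have m1 := hP z zY u hu
  have m2 := hP _ (Y.inv_mem hα) _ m1
  have m3 := hP y yY _ m2
  have m4 := hP α hα _ m3
  show p (x (α (y (α⁻¹ (z u))))) = _ ∧ q (x (α (y (α⁻¹ (z u))))) = _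
  rw [(ax _ m4).1, (ax _ m4).2, (a _ m3).1, (a _ m3).2, (ay _ m2).1, (ay _ m2).2, (a' _ m1).1,
    (a' _ m1).2, (az u hu).1, (az u hu).2]
  exact ⟨by linear_combination p u * e1 + q u * e2, by linear_combination p u * e3 + q u * e4⟩

theorem tvm {Y : Subgroup (Equiv.Perm Co)} {T : Subgroup Co} {c : Co → F3} (hT : ∀ y ∈ Y, Pr y T) :
    ∀ y ∈ Y, ∀ y' ∈ Y, (∀ u ∈ T, c (y u) = c u) → (∀ u ∈ T, c (y' u) = c u) →
      ∀ u ∈ T, c ((y * y') u) = c u :=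
  fun _ _ y' hy' h h' u hu => (h _ (hT y' hy' u hu)).trans (h' u hu)

theorem tvc {Y : Subgroup (Equiv.Perm Co)} {T : Subgroup Co} {c : Co → F3} (hT : ∀ y ∈ Y, Pr y T)
    (hμ : ∀ y ∈ Y, ∃ μ, ∀ u ∈ T, c (y u) = μ * c u) :
    ∀ α ∈ Y, ∀ y ∈ Y, (∀ u ∈ T, c (y u) = c u) → ∀ u ∈ T, c ((α * y * α⁻¹) u) = c u := by
  intro α hα y hy h u hu
  obtain ⟨μ, e⟩ := hμ α hα
  have m := hT _ (Y.inv_mem hα) u hu
  show c (α (y (α⁻¹ u))) = _
  rw [e _ (hT y hy _ m), h _ m, ← e _ m, show α (α⁻¹ u) = u from α.apply_symm_apply u]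

theorem jobG : JobG := by
  intro a1 a2 a3 Y0 Y1 Y2 Y3 YA T
  refine ⟨?_, ?_, ?_⟩
  · rintro ⟨α, hα, hn⟩
    have A := fun (y : Equiv.Perm Co) (hy : y ∈ Y1) => a1 y (T.l1.au y hy)
    obtain ⟨w, hw, e, t⟩ := core (Y := Y1) (P := sE1) (p := Co.b) (q := Co.d)
      (fun y => ∀ u ∈ sA, (y u).c = u.c) (fun y hy => (T.l1.au y hy).mem)
      (fun y hy => let ⟨m, n, r, s, _, h, _⟩ := (A y hy).2.2.2.2; ⟨m, n, r, s, h⟩)
      (tvm fun y hy => (A y hy).1)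
      (tvc (fun y hy => (A y hy).1) fun y hy => let ⟨_, _, _, _, μ, _, h⟩ := (A y hy).2.2.2.2; ⟨μ, h⟩)
      (fun t => by
        obtain ⟨y0, h0, e0⟩ := T.inn (xa t)
        obtain ⟨y, hy, e⟩ := T.res1 y0 h0
        refine ⟨y, hy, fun u hu => ?_, fun u hu => ?_⟩
        · rw [e u hu, e0 u trivial]
          constructor <;> simp [cj, xa] <;> ring
        · rw [e u hu.1, e0 u trivial]
          simp [cj, xa])
      (u1 := xb 1) (u2 := xd 1) ⟨rfl, rfl, rfl⟩ ⟨rfl, rfl, rfl⟩ hα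
      (fun h => hn fun u hu => ⟨(T.l1.au α hα).mem u hu.1, h u hu.1 hu.2⟩) (σ := -1) (by decide)
    exact ⟨w, hw, fun u hu => by simpa using e u hu, t⟩
  · rintro ⟨α, hα, hn⟩
    have A := fun (y : Equiv.Perm Co) (hy : y ∈ Y2) => a2 y (T.l2.au y hy)
    obtain ⟨w, hw, e, t⟩ := core (Y := Y2) (P := sE2) (p := Co.a) (q := Co.d)
      (fun y => ∀ u ∈ sZ, y u = u) (fun y hy => (T.l2.au y hy).mem)
      (fun y hy => (A y hy).2.2.2.2.1)
      (fun y _ y' _ h h' u hu => by rw [Equiv.Perm.mul_apply, h' u hu, h u hu])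
      (fun β hβ y _ h u hu => by
        show β (y (β⁻¹ u)) = u
        rw [h _ ((A _ (Y2.inv_mem hβ)).2.2.1 u hu), show β (β⁻¹ u) = u from β.apply_symm_apply u])
      (fun t => by
        obtain ⟨y0, h0, e0⟩ := T.inn (xb (-t))
        obtain ⟨y, hy, e⟩ := T.res2 y0 h0
        refine ⟨y, hy, fun u hu => ?_, fun u hu => ?_⟩
        · rw [e u hu, e0 u trivial]
          constructor <;> simp [cj, xb] <;> ring
        · rw [e u hu.2.1, e0 u trivial]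
          obtain ⟨h1, h2, h3, h4, h5, h6, h7, h8⟩ := hu
          ext <;> simp [cj, xb, *])
      (u1 := xa 1) (u2 := xd 1) ⟨rfl, rfl, rfl⟩ ⟨rfl, rfl, rfl⟩ hα
      (fun h => hn fun u hu => ⟨h u hu.2 hu.1, (T.l2.au α hα).mem u hu.2⟩) (σ := 1) (by decide)
    exact ⟨w, hw, fun u hu => by simpa using e u hu,
      t _ ⟨rfl, rfl, rfl, rfl, rfl, rfl, rfl, rfl⟩⟩
  · rintro ⟨α, hα, hn⟩
    have A := fun (y : Equiv.Perm Co) (hy : y ∈ Y3) => a3 y (T.l3.au y hy)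
    obtain ⟨w, hw, e, t⟩ := core (Y := Y3) (P := sR) (p := Co.b) (q := Co.e)
      (fun y => ∀ u ∈ sE3, (y u).a = u.a) (fun y hy => (A y hy).1)
      (fun y hy => let ⟨m, n, r, s, _, h, _⟩ := (A y hy).2.2.2.2.2.2; ⟨m, n, r, s, h⟩)
      (tvm fun y hy => (T.l3.au y hy).mem)
      (tvc (fun y hy => (T.l3.au y hy).mem) fun y hy =>
        let ⟨_, _, _, _, μ, _, h⟩ := (A y hy).2.2.2.2.2.2; ⟨μ, h⟩)
      (fun t => by
        obtain ⟨y0, h0, e0⟩ := T.inn (xc (-t))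
        obtain ⟨y, hy, e⟩ := T.res3 y0 h0
        refine ⟨y, hy, fun u hu => ?_, fun u hu => ?_⟩
        · rw [e u hu.2, e0 u trivial]
          constructor <;> simp [cj, xc] <;> ring
        · rw [e u hu, e0 u trivial]
          simp [cj, xc])
      (u1 := xb 1) (u2 := xe 1) ⟨⟨rfl, rfl⟩, rfl, rfl⟩ ⟨⟨rfl, rfl⟩, rfl, rfl⟩ hα
      (fun h => hn fun u hu => ⟨((A α hα).1 u ⟨hu.1, hu.2.2⟩).1, h u ⟨hu.1, hu.2.2⟩ hu.2.1,
        ((A α hα).1 u ⟨hu.1, hu.2.2⟩).2⟩) (σ := 1) (by decide)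
    exact ⟨w, hw, fun u hu => by simpa using e u hu, t⟩

end H73.C3G
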