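/- DP1 tower, slot A27: the automorphisms of `L₂(7)`. -/
import Cfsg.Agent.H48.DP1Spec
import Cfsg.Agent.S2690

set_option autoImplicit false

namespace H73.DpA27
open Cfsg H48.DP Matrix

universe u

theorem Aut3.congr {L K : Type*} [Group L] [Group K] (e : L ≃* K) (h : Aut3 K) : Aut3 L := by
  intro β
  rcases h (MulAut.congr e β) with ⟨l, hl⟩ | ⟨x, l, h1, h2, h3⟩
  · refine .inl ⟨e.symm l, MulEquiv.ext fun y => e.injective ?_⟩
    simpa using DFunLike.congr_fun hl (e y)
  · refine .inr ⟨e.symm x, e.symm l, by rwa [MulEquiv.orderOf_eq], by rwa [MulEquiv.orderOf_eq],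
      e.injective ?_⟩
    simpa using h3

abbrev S : Type := SpecialLinearGroup (Fin 2) (ZMod 7)
abbrev M : Type := Matrix (Fin 2) (Fin 2) (ZMod 7)
abbrev P : Type := ProjectiveSpecialLinearGroup (Fin 2) (ZMod 7)

def x : S := ⟨!![1, 1; 0, 1], by decide⟩
def j : S := ⟨!![0, 1; -1, 0], by decide⟩
def d : M := !![-1, 0; 0, 1]

instance : Fact (Nat.Prime 7) := ⟨by norm_num⟩

theorem ord_x : orderOf (x : P) = 7 := by
  refine orderOf_eq_prime ?_ fun h => ?_
  · rw [← QuotientGroup.mk_pow, show x ^ 7 = 1 from Subtype.ext (by decide), QuotientGroup.mk_one]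
  · exact absurd (congrArg Subtype.val
      (Subgroup.mem_center_iff.1 ((QuotientGroup.eq_one_iff _).1 h) j)) (by decide)

theorem gam {γ : MulAut P} (h : γ = 1 ∨ IsInverseTransposeAutPSL γ) : ∃ l, γ = MulAut.conj l := by
  rcases h with rfl | h
  · exact ⟨1, by simp⟩
  refine ⟨j, MulEquiv.ext fun y => ?_⟩
  induction y using QuotientGroup.induction_on with | H s =>
  refine h s (j * s * j⁻¹) ?_
  rw [Matrix.SpecialLinearGroup.coe_mul, Matrix.SpecialLinearGroup.coe_mul, Matrix.SpecialLinearGroup.coe_inv s,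
    adjugate_fin_two, show ((j⁻¹ : S) : M) = !![0, -1; 1, 0] by decide,
    show (j : M) = !![0, 1; -1, 0] from rfl]
  ext a b
  fin_cases a <;> fin_cases b <;> simp [Matrix.mul_apply, Fin.sum_univ_two, vecMul, dotProduct]

theorem conj_mul (l s : S) : ((l * s * l⁻¹ : S) : M) * l = l * s := by
  rw [← Matrix.SpecialLinearGroup.coe_mul, inv_mul_cancel_right, Matrix.SpecialLinearGroup.coe_mul]

theorem del {δ : MulAut P} (h : IsInnerDiagonalAutPSL δ) :
    (∃ l, δ = MulAut.conj l) ∨ ∃ l : P, δ x = l * (x : P)⁻¹ * l⁻¹ := by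
  obtain ⟨g, hg⟩ := h
  have key : ∀ s s' : S, (s' : M) * g = g * s → δ s = s' := fun s s' h =>
    hg s s' (by rw [← h, mul_assoc, Units.mul_inv, mul_one])
  have h0 : (g : M).det ≠ 0 := g.det_ne_zero
  obtain ⟨a, a0, ha | ha⟩ : ∃ a : ZMod 7, a ≠ 0 ∧
      (a ^ 2 * (g : M).det = 1 ∨ a ^ 2 * ((g : M).det * -1) = 1) := by
    revert h0
    generalize (g : M).det = c
    revert c
    decide
  · obtain ⟨l, hl⟩ : ∃ l : S, (g : M) = a⁻¹ • (l : M) :=
      ⟨⟨a • (g : M), by simpa using ha⟩, (inv_smul_smul₀ a0 _).symm⟩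
    refine .inl ⟨l, MulEquiv.ext fun y => ?_⟩
    induction y using QuotientGroup.induction_on with | H s =>
    refine key s (l * s * l⁻¹) ?_
    rw [hl, mul_smul_comm, smul_mul_assoc, conj_mul]
  · obtain ⟨l, hl⟩ : ∃ l : S, (g : M) * d = a⁻¹ • (l : M) :=
      ⟨⟨a • ((g : M) * d), by
        rw [det_smul, det_mul, show d.det = -1 by decide]
        simpa using ha⟩, (inv_smul_smul₀ a0 _).symm⟩
    replace hl : (g : M) = a⁻¹ • (l : M) * d := by
      rw [← hl, mul_assoc, show d * d = 1 by decide, mul_one]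
    refine .inr ⟨l, key x (l * x⁻¹ * l⁻¹) ?_⟩
    rw [hl, ← mul_assoc, mul_smul_comm, conj_mul, smul_mul_assoc, smul_mul_assoc, smul_mul_assoc,
      mul_assoc, mul_assoc, show ((x⁻¹ : S) : M) * d = d * x by decide]

theorem aut : Aut3 P := by
  intro β
  obtain ⟨δ, φ, γ, σ, h1, h2, h3, rfl⟩ := Cfsg.Agent.S2690.result (p := 7) (f := 1) (by simp) le_rfl
    le_rfl (fun _ => by simp) β
  obtain rfl : φ = 1 := MulEquiv.ext fun y => by
    induction y using QuotientGroup.induction_on with | H s =>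
    exact h2 s s (by rw [Subsingleton.elim σ (RingEquiv.refl _)]; rfl)
  obtain ⟨m, rfl⟩ := gam h3
  rcases del h1 with ⟨l, rfl⟩ | ⟨l, hl⟩
  · exact .inl ⟨l * m, by simp⟩
  · have : orderOf (m⁻¹ * x * m) = 7 := by
      rw [← MulEquiv.orderOf_eq (MulAut.conj m)]
      simpa [mul_assoc] using ord_x
    refine .inr ⟨m⁻¹ * x * m, l * m, by rw [this]; norm_num, by rw [this]; norm_num, ?_⟩
    rw [mul_one, MulAut.mul_apply, MulAut.conj_apply, show m * (m⁻¹ * x * m) * m⁻¹ = x by group, hl]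
    group

theorem jobA27 : JobA27.{u} := fun _ _ _ ⟨e⟩ => Aut3.congr e aut

end H73.DpA27
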