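/- DP1 tower, slot AU: the automorphisms of `U₃(3)`. -/
import Cfsg.Agent.H73.DpA27
import Cfsg.Agent.S2692
import Cfsg.Agent.H55.Transport
import Cfsg.Agent.H55.SL2Link

set_option autoImplicit false

namespace H73.DpAU
open Cfsg H48.DP Matrix H55

universe u

abbrev M : Type := Matrix (Fin 3) (Fin 3) F9
abbrev S : Type := SU 3 F9 3
abbrev P : Type := PSU 3 F9 3

/-- The conjugation of the field with nine elements. -/
def fr : F9 →+* F9 := starRingEnd F9

theorem fr_eq : ∀ z : F9, fr z = z ^ 3 := by decide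

def xm : M := !![⟨0, 1⟩, ⟨0, 1⟩, ⟨1, 2⟩; ⟨0, 1⟩, ⟨1, 1⟩, ⟨1, 0⟩; ⟨1, 2⟩, ⟨1, 0⟩, ⟨0, 2⟩]
def x : S := ⟨⟨xm, by rw [det_fin_three]; decide⟩,
  (mem_SU_iff_transpose_mul fr fr_eq _).2 (show xmᵀ * xm.map fr = 1 by decide +kernel)⟩
def ym : M := !![0, 0, 1; 1, 0, 0; 0, 1, 0]
def y : S := ⟨⟨ym, by rw [det_fin_three]; decide⟩,
  (mem_SU_iff_transpose_mul fr fr_eq _).2 (show ymᵀ * ym.map fr = 1 by decide +kernel)⟩

theorem xm7 : xm ^ 7 = 1 := by
  simp only [pow_succ, pow_zero, one_mul]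
  decide +kernel

theorem ord_x : orderOf (x : P) = 7 := by
  refine orderOf_eq_prime ?_ fun h => ?_
  · have : x ^ 7 = 1 := by
      refine Subtype.ext (Subtype.ext ?_)
      rw [Subgroup.coe_pow, Matrix.SpecialLinearGroup.coe_pow]
      exact xm7
    rw [← QuotientGroup.mk_pow, this, QuotientGroup.mk_one]
  · exact absurd (show ym * xm = xm * ym from congrArg (fun s : S => s.1.1)
      (Subgroup.mem_center_iff.1 ((QuotientGroup.eq_one_iff _).1 h) y)) (by decide +kernel)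

theorem sig (σ : F9 ≃+* F9) : (∀ z, σ z = z) ∨ ∀ z, σ z = fr z := by
  have h1 : ∀ z : F9, z = (z.re.val : F9) + (z.im.val : F9) * ⟨0, 1⟩ := by decide
  have h2 : ∀ w : F9, w * w = -1 → w = ⟨0, 1⟩ ∨ w = fr ⟨0, 1⟩ := by decide
  refine (h2 (σ ⟨0, 1⟩) ?_).imp (fun h z => ?_) fun h z => ?_
  · rw [← map_mul, show (⟨0, 1⟩ * ⟨0, 1⟩ : F9) = -1 by decide, map_neg, map_one]
  · rw [h1 z, map_add, map_mul, map_natCast, map_natCast, h]
  · rw [h1 z, map_add, map_mul, map_natCast, map_natCast, h, map_add, map_mul, map_natCast,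
      map_natCast]

theorem gu {g : GL (Fin 3) F9} (hg : g ∈ GU 3 F9 3) : (g : M)ᵀ * (g : M).map fr = 1 := by
  ext i j : 1
  have := hg (Pi.single i 1) (Pi.single j 1)
  fin_cases i <;> fin_cases j <;>
    simpa [hermForm, Matrix.mul_apply, fr_eq, Fin.sum_univ_three] using this

theorem del {δ : MulAut P} (h : IsInnerDiagonalAutPSU δ) : ∃ l, δ = MulAut.conj l := by
  obtain ⟨g, hg, h⟩ := h
  have h1 := gu hg
  have h2 : (g : M).det ^ 3 * (g : M).det = 1 := by
    have := congrArg det h1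
    rwa [det_mul, det_transpose, det_one, ← RingHom.mapMatrix_apply, ← RingHom.map_det, fr_eq,
      mul_comm] at this
  have a0 : (g : M).det ≠ 0 := g.det_ne_zero
  obtain ⟨l, hl⟩ : ∃ l : S, (g : M) = (g : M).det⁻¹ • (l.1 : M) :=
    ⟨⟨⟨(g : M).det • (g : M), by simpa using h2⟩, (mem_SU_iff_transpose_mul fr fr_eq _).2 (by
      show ((g : M).det • (g : M))ᵀ * ((g : M).det • (g : M)).map fr = 1
      rw [show ((g : M).det • (g : M)).map fr = fr (g : M).det • (g : M).map fr from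
        Matrix.ext fun i j => map_mul fr _ _, transpose_smul, smul_mul_smul_comm, h1, fr_eq,
        mul_comm, h2, one_smul])⟩, (inv_smul_smul₀ a0 _).symm⟩
  refine ⟨l, MulEquiv.ext fun y => ?_⟩
  induction y using QuotientGroup.induction_on with | H s =>
  refine h s (l * s * l⁻¹) ?_
  have : ((l * s * l⁻¹ : S).1 : M) * g = g * (s.1 : M) := by
    generalize (g : M).det⁻¹ = c at hl
    rw [hl, mul_smul_comm, smul_mul_assoc, ← Matrix.SpecialLinearGroup.coe_mul, ← Subgroup.coe_mul,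
      inv_mul_cancel_right, Subgroup.coe_mul, Matrix.SpecialLinearGroup.coe_mul]
  rw [← this, Matrix.mul_assoc, Units.mul_inv, mul_one]

theorem aut : Aut3 P := by
  intro β
  obtain ⟨δ, φ, σ, h1, h2, rfl⟩ := Cfsg.Agent.S2692.result (p := 3) (f := 1) (q := 3) rfl le_rfl
    card_F9 le_rfl (by simp) β
  obtain ⟨l, rfl⟩ := del h1
  rcases sig σ with h | h
  · obtain rfl : φ = 1 := MulEquiv.ext fun y => by
      induction y using QuotientGroup.induction_on with | H s =>
      exact h2 s s (Matrix.ext fun i j => (h _).symm)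
    exact .inl ⟨l, mul_one _⟩
  · refine .inr ⟨x, l, by rw [ord_x]; norm_num, by rw [ord_x]; norm_num, ?_⟩
    rw [MulAut.mul_apply, h2 x x⁻¹, MulAut.conj_apply, QuotientGroup.mk_inv]
    rw [show (σ : F9 → F9) = fr from funext h]
    show xm.adjugate = xm.map fr
    rw [adjugate_fin_three]
    decide +kernel

theorem jobAU : JobAU.{u} := fun _ _ _ ⟨_, _, _, hF, ⟨e⟩⟩ =>
  DpA27.Aut3.congr (e.trans (psuCongr (FiniteField.ringEquivOfCardEq (hF.trans card_F9.symm)) 3 3))
    aut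

end H73.DpAU
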