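/- Tower E82, slot Fac: composition series of `SL₂(2 ^ f)`-modules. -/
import Cfsg.Agent.H40.E82Spec

set_option autoImplicit false
set_option linter.unusedSectionVars false

namespace H73.E82Fac

open Matrix Module H40.E82 H40.E8F H56.SL2M
open scoped MatrixGroups

universe u

variable {F : Type u} [Field F] [Fintype F] {k V U Q : Type} [Field k] [AddCommGroup V] [Module k V]
  [AddCommGroup U] [Module k U] [AddCommGroup Q] [Module k Q]

theorem A_map (ι : F →+* k) {ρ : Representation k SL(2, F) U} {σ : Representation k SL(2, F) Q}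
    {f : U →ₗ[k] Q} (h : ∀ g v, f (ρ g v) = σ g (f v)) (r : ℕ) (v : U) :
    f (A ι ρ r v) = A ι σ r (f v) := by
  unfold A
  split_ifs
  · rfl
  · simp [LinearMap.sum_apply, h]
  · simp

theorem eig_map {T : End k U} {S : End k Q} {p : U →ₗ[k] Q} (hp : Function.Surjective p)
    (h : ∀ v, p (T v) = S (p v)) {n : ℕ} (hn : (n : k) ≠ 0) (hT : T ^ n = 1) {c : k}
    (hc : c ^ n = 1) : (T.eigenspace c).map p = S.eigenspace c := by
  refine le_antisymm ?_ fun q hq => ?_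
  · rintro _ ⟨v, hv, rfl⟩
    exact End.mem_eigenspace_iff.2 (by rw [← h, End.mem_eigenspace_iff.1 hv, map_smul])
  obtain ⟨v, rfl⟩ := hp q
  have c0 : c ≠ 0 := by
    rintro rfl
    rw [zero_pow (by rintro rfl; simp at hn)] at hc
    exact zero_ne_one hc
  have h1 : ∀ i : ℕ, p (((c⁻¹ • T) ^ i) v) = p v := fun i => by
    induction i with
    | zero => rfl
    | succ i ih =>
      rw [pow_succ', End.mul_apply, LinearMap.smul_apply, map_smul, h, ih,
        End.mem_eigenspace_iff.1 hq, inv_smul_smul₀ c0]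
  have h2 := DFunLike.congr_fun (mul_geom_sum (c⁻¹ • T) n) v
  rw [smul_pow, hT, inv_pow, hc, inv_one, one_smul, sub_self, End.mul_apply, LinearMap.sub_apply,
    LinearMap.zero_apply, sub_eq_zero, LinearMap.smul_apply, End.one_apply,
    inv_smul_eq_iff₀ c0] at h2
  refine ⟨(n : k)⁻¹ • (∑ i ∈ Finset.range n, (c⁻¹ • T) ^ i) v,
    Submodule.smul_mem _ _ (End.mem_eigenspace_iff.2 h2), ?_⟩
  rw [map_smul, LinearMap.sum_apply, map_sum, Finset.sum_congr rfl fun i _ => h1 i,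
    Finset.sum_const, Finset.card_range, ← Nat.cast_smul_eq_nsmul k, inv_smul_smul₀ hn]

theorem rank_add [FiniteDimensional k U] (p : U →ₗ[k] Q) (X : Submodule k U) :
    finrank k X = finrank k ↥(LinearMap.ker p ⊓ X) + finrank k (X.map p) := by
  rw [← (p.domRestrict X).finrank_range_add_finrank_ker, LinearMap.range_domRestrict,
    LinearMap.ker_domRestrict, ← Submodule.finrank_map_subtype_eq, Submodule.map_comap_subtype,
    add_comm, inf_comm]

theorem step_lift [CharP k 2] [FiniteDimensional k V] {ι : F →+* k}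
    {ρ : Representation k SL(2, F) V} {W₀ W : Submodule k V} (hl : W₀ ≤ W) (h0 : Inv ρ W₀)
    (hW : Inv ρ W) {τ : Representation k SL(2, F) W} {σ : Representation k SL(2, F) Q}
    {p : W →ₗ[k] Q} (hτ : ∀ g v, W.subtype (τ g v) = ρ g (W.subtype v))
    (hσ : ∀ g v, p (τ g v) = σ g (p v)) (hp : Function.Surjective p)
    (hk : ∀ v, p v = 0 ↔ W.subtype v ∈ W₀) {j : ℕ} (h : Step ι σ ⊥ ⊤ j) : Step ι ρ W₀ W j := by
  obtain ⟨hj, -, -, -, z, -, h1, h2, h3, h4, h5, h6⟩ := h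
  obtain ⟨z, rfl⟩ := hp z
  simp only [Submodule.mem_bot, ← A_map ι hσ, ← hσ, ← map_smul, ← map_sum, ← map_sub,
    hk] at h1 h2 h3 h4 h5
  simp only [map_sub, map_sum, map_smul, A_map ι hτ, hτ] at h1 h2 h3 h4 h5
  refine ⟨hj, hl, h0, hW, z, z.2, fun v hv => ?_, h2, h3, h4, h5, fun y μ n e1 e2 e3 e4 m => ?_⟩
  · obtain ⟨c, hc⟩ := h1 (p ⟨v, hv⟩) trivial
    refine ⟨c, ?_⟩
    have := (hk (⟨v, hv⟩ - ∑ r ∈ sb j, c r • A ι τ r z)).1 (by
      simpa only [map_sub, map_sum, map_smul] using hc)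
    simp only [map_sub, map_sum, map_smul, A_map ι hτ] at this
    exact this
  have k1 := h6 y μ n e1 e2 e3 e4 m
  rw [top_inf_eq, bot_inf_eq, finrank_bot, zero_add] at k1
  have k2 : (n : k) ≠ 0 := fun h => e3.not_two_dvd_nat ((CharP.cast_eq_zero_iff k 2 n).1 h)
  have k3 := rank_add p (End.eigenspace (τ y) ((μ : k) ^ m))
  have k4 : ∀ v, v ∈ End.eigenspace (τ y) ((μ : k) ^ m) ↔
      W.subtype v ∈ End.eigenspace (ρ y) ((μ : k) ^ m) := fun v => by
    rw [End.mem_eigenspace_iff, End.mem_eigenspace_iff, ← hτ, ← map_smul,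
      W.injective_subtype.eq_iff]
  rw [eig_map hp (hσ y) k2 (by rw [← map_pow, e4, map_one]) (by
    rw [← pow_mul, mul_comm, pow_mul, ← Units.val_pow_eq_pow_val, ← e2, pow_orderOf_eq_one,
      Units.val_one, one_pow]), k1, ← Submodule.finrank_map_subtype_eq,
    ← Submodule.finrank_map_subtype_eq W (_ ⊓ _)] at k3
  have k5 : W ⊓ End.eigenspace (ρ y) ((μ : k) ^ m) =
      (End.eigenspace (τ y) ((μ : k) ^ m)).map W.subtype := by
    ext v
    exact ⟨fun h => ⟨⟨v, h.1⟩, (k4 _).2 h.2, rfl⟩, fun ⟨w, hw, e⟩ => e ▸ ⟨w.2, (k4 w).1 hw⟩⟩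
  have k6 : W₀ ⊓ End.eigenspace (ρ y) ((μ : k) ^ m) =
      (LinearMap.ker p ⊓ End.eigenspace (τ y) ((μ : k) ^ m)).map W.subtype := by
    ext v
    exact ⟨fun h => ⟨⟨v, hl h.1⟩, ⟨(hk _).2 h.1, (k4 _).2 h.2⟩, rfl⟩,
      fun ⟨w, hw, e⟩ => e ▸ ⟨(hk w).1 hw.1, (k4 w).1 hw.2⟩⟩
  rwa [k5, k6]

theorem jobFac (_ : JobA.{u}) (s : JobSim.{u}) : JobFac.{u} := by
  intro F _ _ k V _ _ _ _ _ ι ρ hF W
  induction W using WellFoundedLT.induction with | ind W ih =>
  intro hW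
  rcases eq_or_ne W ⊥ with rfl | hne
  · exact ⟨0, .bot⟩
  obtain ⟨W₀, ⟨h0, hl⟩, hm⟩ := WellFounded.has_min wellFounded_gt
    {U : Submodule k V | Inv ρ U ∧ U < W}
    ⟨⊥, fun g v hv => by simp [(Submodule.mem_bot k).1 hv], hne.bot_lt⟩
  obtain ⟨J, hJ⟩ := ih W₀ hl h0
  let τ := ρ.subrepresentation W fun g v hv => hW g v hv
  let σ := τ.quotient (W₀.comap W.subtype) fun g v hv => h0 g v hv
  have hk : ∀ v, (W₀.comap W.subtype).mkQ v = 0 ↔ W.subtype v ∈ W₀ := fun v =>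
    Submodule.Quotient.mk_eq_zero _
  have : Nontrivial (W ⧸ W₀.comap W.subtype) := by
    obtain ⟨v, h1, h2⟩ := SetLike.exists_of_lt hl
    exact nontrivial_of_ne _ _ fun h => h2 ((hk ⟨v, h1⟩).1 h)
  obtain ⟨j, hj⟩ := s ι σ hF fun X hX => by
    by_cases h : (X.comap (W₀.comap W.subtype).mkQ).map W.subtype < W
    · refine .inl (eq_bot_iff.2 fun q hq => ?_)
      obtain ⟨v, rfl⟩ := Submodule.mkQ_surjective _ q
      by_contra hv
      refine hm _ ⟨?_, h⟩ (SetLike.lt_iff_le_and_exists.2 ⟨fun w hw => ⟨⟨w, hl.le hw⟩, ?_, rfl⟩,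
        (v : V), Submodule.mem_map_of_mem hq, fun k => hv ((hk v).2 k)⟩)
      · rintro g _ ⟨w, hw, rfl⟩
        exact ⟨τ g w, hX g _ hw, rfl⟩
      · exact Submodule.mem_comap.2 ((hk ⟨w, hl.le hw⟩).2 hw ▸ X.zero_mem)
    · refine .inr (eq_top_iff.2 fun q _ => ?_)
      obtain ⟨v, rfl⟩ := Submodule.mkQ_surjective _ q
      obtain ⟨w, hw, e⟩ := ((Submodule.map_subtype_le W _).eq_of_not_lt h).ge v.2
      exact Subtype.ext e ▸ hw
  exact ⟨_, hJ.step (step_lift (τ := τ) hl.le h0 hW (fun _ _ => rfl) (fun _ _ => rfl)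
    (Submodule.mkQ_surjective _) hk hj)⟩

end H73.E82Fac
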