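import Cfsg.Agent.H40.E8FSpec

/-! Fixed spaces of `S₄`, `7` and `2²` on a module for `L₂(7)` in characteristic three. -/

set_option autoImplicit false

namespace H73.E8B7
open H40.E8F Module

/-- the letters -/
def gen : Fin 4 → S7 := ![gx, ga, gb, gt]
/-- a matrix of determinant one -/
def mk (a b c d : ZMod 7) : S7 :=
  if h : a * d - b * c = 1 then ⟨!![a, b; c, d], by rwa [Matrix.det_fin_two_of]⟩ else 1
/-- powers of `x` -/
def xp (i : Fin 7) : S7 := mk 1 i 0 1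
/-- representatives of the cosets of `x` -/
def R : Fin 24 → S7 :=
  ![mk 1 0 0 1, mk 0 1 6 0, mk 0 2 3 0, mk 0 3 2 0, mk 1 0 1 1, mk 1 0 2 1, mk 1 0 3 1, mk 1 0 4 1,
    mk 1 0 5 1, mk 1 0 6 1, mk 2 0 0 4, mk 2 0 1 4, mk 2 0 2 4, mk 2 0 3 4, mk 2 0 4 4, mk 2 0 5 4,
    mk 2 0 6 4, mk 3 0 0 5, mk 3 0 1 5, mk 3 0 2 5, mk 3 0 3 5, mk 3 0 4 5, mk 3 0 5 5, mk 3 0 6 5]
/-- the action on seven points -/
def p7 : Fin 4 → Fin 7 → Fin 7 :=
  ![![1, 2, 3, 4, 5, 6, 0], ![0, 1, 6, 3, 5, 4, 2], ![0, 3, 2, 1, 5, 4, 6], ![0, 6, 4, 2, 3, 1, 5]]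
/-- the action on 24 points -/
def p24 : Fin 4 → Fin 24 → Fin 24 :=
  ![![0, 4, 20, 12, 11, 19, 21, 13, 5, 1, 10, 18, 22, 14, 6, 3, 9, 17, 23, 15, 7, 2, 8, 16],
    ![1, 0, 17, 10, 9, 16, 23, 18, 11, 4, 3, 8, 15, 22, 19, 12, 5, 2, 7, 14, 21, 20, 13, 6],
    ![13, 22, 11, 7, 16, 9, 20, 3, 17, 5, 18, 2, 19, 0, 15, 14, 4, 8, 10, 12, 6, 23, 1, 21],
    ![11, 2, 3, 1, 15, 12, 16, 13, 10, 14, 22, 18, 21, 17, 20, 23, 19, 7, 0, 6, 9, 5, 8, 4]]

theorem c7 : ∀ l i, ∃ (a b : Fin 2) (c : Fin 3) (d : Fin 2),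
    gen l * xp i = xp (p7 l i) * (ga ^ a.1 * gb ^ b.1 * (gt ^ c.1 * gs ^ d.1)) ∨
      gen l * xp i = xp (p7 l i) * (ga ^ a.1 * gb ^ b.1 * (gt ^ c.1 * gs ^ d.1)) * -1 := by decide +kernel
theorem c24 : ∀ l i, ∃ j : Fin 7, gen l * R i = R (p24 l i) * xp j ∨ gen l * R i = R (p24 l i) * xp j * -1 := by
  decide +kernel
theorem xp_eq : ∀ j : Fin 7, xp j = gx ^ j.1 := by decide +kernel

/-- words -/
abbrev Wd : Type := List (Fin 4)
/-- the action of a word on points -/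
def act {n : ℕ} (π : Fin 4 → Fin n → Fin n) (w : Wd) (i : Fin n) : Fin n := w.foldr π i
/-- the action of a sum of words on a sum of points -/
def star {n : ℕ} (π : Fin 4 → Fin n → Fin n) (A : List Wd) (L : List (Fin n)) : List (Fin n) :=
  A.flatMap fun w => L.map (act π w)
/-- equal modulo three and the sum of all points -/
def Eqv {n : ℕ} (L L' : List (Fin n)) : Prop := ∃ c : Fin 3, ∀ i, (L.count i + c) % 3 = L'.count i % 3
instance {n : ℕ} (L L' : List (Fin n)) : Decidable (Eqv L L') := by unfold Eqv; infer_instance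
/-- product of sums of words -/
def mulA (A B : List Wd) : List Wd := A.flatMap fun w => B.map (w ++ ·)

variable {k V : Type} [Field k] [AddCommGroup V] [Module k V] (ρ : S7 →* End k V)

/-- the operator of a word -/
def op (w : Wd) : End k V := (w.map fun l => ρ (gen l)).prod
/-- the operator of a sum of words -/
def opA (A : List Wd) : End k V := (A.map (op ρ)).sum

/-- an image of a permutation module -/
structure PM {n : ℕ} (π : Fin 4 → Fin n → Fin n) (f : Fin n → V) : Prop where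
  ap : ∀ l i, ρ (gen l) (f i) = f (π l i)
  sum : ∑ i, f i = 0

variable {ρ} {n : ℕ} {π : Fin 4 → Fin n → Fin n} {f : Fin n → V}

theorem PM.of (h0 : ∀ v, ρ gx v = v → ρ ga v = v → v = 0) (ap : ∀ l i, ρ (gen l) (f i) = f (π l i))
    (b : ∀ l, Function.Injective (π l)) : PM ρ π f :=
  have k : ∀ l, ρ (gen l) (∑ i, f i) = ∑ i, f i := fun l => by
    rw [map_sum, Finset.sum_congr rfl fun i _ => ap l i]
    exact (Finite.injective_iff_bijective.1 (b l)).sum_comp f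
  ⟨ap, h0 _ (k 0) (k 1)⟩

theorem PM.op (h : PM ρ π f) (w : Wd) (i : Fin n) : op ρ w (f i) = f (act π w i) := by
  induction w with
  | nil => rfl
  | cons l w ih => exact (congrArg (ρ (gen l)) ih).trans (h.ap l _)

theorem PM.opL (h : PM ρ π f) (w : Wd) (L : List (Fin n)) :
    E8B7.op ρ w (L.map f).sum = ((L.map (act π w)).map f).sum := by
  induction L with
  | nil => simp
  | cons i L ih => simp only [List.map_cons, List.sum_cons, map_add, ih, h.op]

theorem PM.opA (h : PM ρ π f) (A : List Wd) (L : List (Fin n)) :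
    opA ρ A (L.map f).sum = ((star π A L).map f).sum := by
  induction A with
  | nil => rfl
  | cons w A ih =>
    rw [star, List.flatMap_cons, List.map_append, List.sum_append, ← h.opL, ← star, ← ih]; rfl

theorem sum_count (f : Fin n → V) (L : List (Fin n)) : (L.map f).sum = ∑ i, L.count i • f i := by
  induction L with
  | nil => simp
  | cons j L ih =>
    simp only [List.map_cons, List.sum_cons, ih, List.count_cons, add_smul, Finset.sum_add_distrib,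
      beq_iff_eq, ite_smul, one_smul, zero_smul, Finset.sum_ite_eq, Finset.mem_univ, if_true]
    exact add_comm _ _

theorem PM.eqv [CharP k 3] (h : PM ρ π f) {L L' : List (Fin n)} (e : Eqv L L') :
    (L.map f).sum = (L'.map f).sum := by
  obtain ⟨c, e⟩ := e
  have k3 : ∀ (m : ℕ) (v : V), m • v = (m % 3) • v := fun m v => by
    rw [← Nat.cast_smul_eq_nsmul k, ← Nat.cast_smul_eq_nsmul k, CharP.cast_eq_mod k 3 m]
  rw [sum_count, sum_count, ← add_zero (∑ i, _), ← smul_zero (c : ℕ), ← h.sum, Finset.smul_sum,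
    ← Finset.sum_add_distrib]
  exact Finset.sum_congr rfl fun i _ => by rw [← add_smul, k3, e, ← k3]

theorem PM.key [CharP k 3] [NeZero n] (h : PM ρ π f) (T A : List Wd) (L : List (Fin n))
    (e : Eqv (star π T (star π A [0])) L) : E8B7.opA ρ T (E8B7.opA ρ A (f 0)) = (L.map f).sum := by
  have := h.opA A [0]
  rw [List.map_singleton, List.sum_singleton] at this
  rw [this, h.opA, h.eqv e]

theorem PM.fix [CharP k 3] [NeZero n] (h : PM ρ π f) (l : Fin 4) (A : List Wd)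
    (e : Eqv (star π [[l]] (star π A [0])) (star π A [0])) : E8B7.opA ρ A (f 0) ∈ fx (ρ (gen l)) := by
  have := h.key [[l]] A _ e
  rw [← h.opA, List.map_singleton, List.sum_singleton] at this
  rw [End.mem_eigenspace_iff, one_smul]
  rwa [show E8B7.opA ρ [[l]] = ρ (gen l) by simp [E8B7.opA, E8B7.op]] at this

theorem pw {g : S7} {v : V} (h : ρ g v = v) (m : ℕ) : ρ (g ^ m) v = v := by
  induction m with
  | zero => simp
  | succ m ih => rw [pow_succ, map_mul, End.mul_apply, h, ih]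

theorem fx_iff {g : End k V} {v : V} : v ∈ fx g ↔ g v = v := by rw [End.mem_eigenspace_iff, one_smul]

theorem pm7 (h1 : ρ (-1) = 1) (h0 : ∀ v, ρ gx v = v → ρ ga v = v → v = 0) {v : V}
    (h : v ∈ fx (ρ ga) ⊓ fx (ρ gb) ⊓ fx (ρ gs) ⊓ fx (ρ gt)) : ∃ f, f 0 = v ∧ PM ρ p7 f := by
  refine ⟨fun i => ρ (xp i) v, by simp [xp_eq], PM.of h0 (fun l i => ?_) (by decide)⟩
  obtain ⟨a, b, c, d, e⟩ := c7 l i
  rw [← End.mul_apply, ← map_mul]
  rcases e with e | e <;>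
    simp only [e, map_mul, h1, End.mul_apply, End.one_apply, pw (fx_iff.1 h.1.1.1), pw (fx_iff.1 h.1.1.2),
      pw (fx_iff.1 h.1.2), pw (fx_iff.1 h.2)]

theorem pm24 (h1 : ρ (-1) = 1) (h0 : ∀ v, ρ gx v = v → ρ ga v = v → v = 0) {v : V}
    (h : v ∈ fx (ρ gx)) : ∃ f, f 0 = v ∧ PM ρ p24 f := by
  refine ⟨fun i => ρ (R i) v, by simp [show R 0 = 1 by decide], PM.of h0 (fun l i => ?_) (by decide)⟩
  obtain ⟨j, e⟩ := c24 l i
  rw [← End.mul_apply, ← map_mul]
  rcases e with e | e <;>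
    simp only [e, map_mul, h1, End.mul_apply, End.one_apply, xp_eq, pw (fx_iff.1 h)]

/-- the four components of the embedding -/
def A : Fin 4 → List Wd := ![[[]], [[0], [0, 0, 0]], [[0, 0], [0, 0, 0, 0, 0, 0]], [[], [1], [2], [1, 2]]]
/-- the four projections -/
def T : Fin 4 → List Wd :=
  ![mulA (mulA [[], [3], [3, 3]] (A 3)) [[], [], [0, 0, 0]],
    mulA (mulA [[], [3], [3, 3]] (A 3)) [[0, 0, 0], [0, 0, 0, 0, 0, 0], [0, 0, 0, 0, 0, 0]],
    mulA (mulA [[], [3], [3, 3]] (A 3)) [[], [], [0, 0, 0], [0, 0, 0], [0, 0, 0, 0, 0, 0]],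
    mulA ((List.range 7).map (List.replicate · 0))
      [[], [1, 0], [1, 0], [1, 0, 0, 0], [1, 0, 0, 0], [1, 0, 0, 0, 1, 0], [1, 0, 0, 0, 1, 0]]]

theorem k7 : ∀ i j : Fin 4, j ≠ 3 → Eqv (star p7 (T i) (star p7 (A j) [0])) (if i = j then [0] else []) := by
  decide +kernel
theorem k24 : Eqv (star p24 (T 3) (star p24 (A 3) [0])) [0] := by decide +kernel
theorem f7 : ∀ l j : Fin 4, l = 1 ∨ l = 2 → j ≠ 3 →
    Eqv (star p7 [[l]] (star p7 (A j) [0])) (star p7 (A j) [0]) := by decide +kernel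
theorem f24 : ∀ l : Fin 4, l = 1 ∨ l = 2 →
    Eqv (star p24 [[l]] (star p24 (A 3) [0])) (star p24 (A 3) [0]) := by decide +kernel

theorem jobB7 : JobB7 := by
  intro k V _ _ _ _ _ ρ h1 h0
  set Z := fx (ρ ga) ⊓ fx (ρ gb) ⊓ fx (ρ gs) ⊓ fx (ρ gt)
  set W := fx (ρ gx)
  have a7 : ∀ i j : Fin 4, j ≠ 3 → ∀ v : Z, opA ρ (T i) (opA ρ (A j) v) = if i = j then v.1 else 0 :=
    fun i j hj v => by
      obtain ⟨f, e, h⟩ := pm7 h1 h0 v.2
      rw [← e, h.key _ _ _ (k7 i j hj)]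
      split_ifs <;> simp
  have a24 : ∀ v : W, opA ρ (T 3) (opA ρ (A 3) v) = v := fun v => by
    obtain ⟨f, e, h⟩ := pm24 h1 h0 v.2
    rw [← e, h.key _ _ _ k24]; simp
  have m7 : ∀ j : Fin 4, j ≠ 3 → ∀ v : Z, opA ρ (A j) v ∈ fx (ρ ga) ⊓ fx (ρ gb) := fun j hj v => by
    obtain ⟨f, e, h⟩ := pm7 h1 h0 v.2
    rw [← e]
    exact ⟨h.fix 1 _ (f7 1 j (.inl rfl) hj), h.fix 2 _ (f7 2 j (.inr rfl) hj)⟩
  have m24 : ∀ v : W, opA ρ (A 3) v ∈ fx (ρ ga) ⊓ fx (ρ gb) := fun v => by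
    obtain ⟨f, e, h⟩ := pm24 h1 h0 v.2
    rw [← e]
    exact ⟨h.fix 1 _ (f24 1 (.inl rfl)), h.fix 2 _ (f24 2 (.inr rfl))⟩
  let Φ : (Z × Z × Z × W) →ₗ[k] V := (opA ρ (A 0) ∘ₗ Z.subtype).coprod ((opA ρ (A 1) ∘ₗ Z.subtype).coprod
    ((opA ρ (A 2) ∘ₗ Z.subtype).coprod (opA ρ (A 3) ∘ₗ W.subtype)))
  have e : ∀ x, Φ x = opA ρ (A 0) x.1 + (opA ρ (A 1) x.2.1 + (opA ρ (A 2) x.2.2.1 + opA ρ (A 3) x.2.2.2)) :=
    fun _ => rfl
  have := LinearMap.finrank_le_finrank_of_injective (f := Φ.codRestrict (fx (ρ ga) ⊓ fx (ρ gb)) fun x =>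
    add_mem (m7 0 (by decide) _) (add_mem (m7 1 (by decide) _) (add_mem (m7 2 (by decide) _) (m24 _))))
    ((injective_iff_map_eq_zero _).2 fun ⟨v1, v2, v3, w⟩ hx => by
      have hx : Φ (v1, v2, v3, w) = 0 := congrArg Subtype.val hx
      rw [e] at hx
      have t := fun i => congrArg (opA ρ (T i)) hx
      simp only [map_add, map_zero, a7 _ 0 (by decide), a7 _ 1 (by decide), a7 _ 2 (by decide)] at t
      have hw : w = 0 := Subtype.ext (by simpa [a24] using t 3)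
      subst hw
      have t0 := t 0
      have t1 := t 1
      have t2 := t 2
      simp at t0 t1 t2
      rw [t0, t1, t2]; rfl)
  simp only [finrank_prod] at this
  omega

end H73.E8B7
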