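/- Tower E8G: the Hecke operators of `SL₂(13)` in characteristic three. -/
import Cfsg.Agent.H40.E8GSpec

set_option autoImplicit false

namespace H73.E8Hk

open Matrix Module H40.E8F H40.E8G
open scoped MatrixGroups

/-- The upper unitriangular matrices. -/
def U (a : ZMod 13) : S13 := ⟨!![1, a; 0, 1], by simp [Matrix.det_fin_two]⟩

theorem U_add : ∀ a b : ZMod 13, U a * U b = U (a + b) := by decide +kernel

theorem U_zero : U 0 = 1 := by decide +kernel

theorem eu_pow (i : ℕ) : eu ^ i = U i := by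
  induction i with
  | zero => rw [pow_zero, Nat.cast_zero, U_zero]
  | succ i ih => rw [pow_succ, ih, Nat.cast_succ, ← U_add]; rfl

theorem tU : ∀ a : ZMod 13, et * U a = U (9 * a) * et := by decide +kernel
theorem Ut : ∀ a : ZMod 13, U a * et = et * U (3 * a) := by decide +kernel
theorem zU : ∀ a : ZMod 13, ez * U a = U (-a) * ez := by decide +kernel
theorem Uz : ∀ a : ZMod 13, U a * ez = ez * U (-a) := by decide +kernel
theorem tw : et * ew = ew * (et * et) := by decide +kernel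
theorem wt : ew * et = et * (et * ew) := by decide +kernel
theorem zw : ez * ew = ew * (-1 * ez) := by decide +kernel
theorem ttt : et * (et * et) = 1 := by decide +kernel
theorem tz : et * ez = ez * et := by decide +kernel
theorem ww : ew * ew = -1 := by decide +kernel

/-- The class of the torus part modulo the element of order four. -/
def nn (j : ZMod 13) : Fin 3 := if j ^ 8 = 1 then 0 else if j ^ 8 = 3 then 1 else 2

theorem wUw : ∀ j : ZMod 13, j ≠ 0 → ∃ m : Fin 4,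
    ew * (U j * ew) = U (-j ^ 11) * (et ^ (nn j : ℕ) * (ew * (ez ^ (m : ℕ) * U (-j ^ 11)))) := by
  decide +kernel

theorem nn_card : ∀ n : Fin 3,
    ((Finset.univ.erase (0 : ZMod 13)).filter fun j => nn j = n).card = 4 := by decide +kernel

theorem diag : ∀ c : ZMod 13, c ≠ 0 → c * c ^ 11 = 1 ∧ ∃ i : Fin 3, ∃ j : Fin 4,
    (et ^ (i : ℕ) * ez ^ (j : ℕ)).1 = !![c, 0; 0, c ^ 11] := by decide +kernel

theorem bruhat (g : S13) : ∃ a b : ZMod 13, ∃ i j : ℕ,
    g = U a * ((et ^ i * ez ^ j) * U b) ∨ g = U a * (ew * ((et ^ i * ez ^ j) * U b)) := by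
  have hd : g.1 0 0 * g.1 1 1 - g.1 0 1 * g.1 1 0 = 1 := by
    have := g.2; rwa [Matrix.det_fin_two] at this
  by_cases hc : g.1 1 0 = 0
  · have ha : g.1 0 0 ≠ 0 := by
      intro h; rw [h, hc] at hd; simp at hd; exact absurd hd (by decide)
    obtain ⟨h1, i, j, h2⟩ := diag _ ha
    refine ⟨g.1 0 1 * g.1 0 0, 0, i, j, Or.inl (Subtype.ext ?_)⟩
    rw [U_zero, mul_one, Matrix.SpecialLinearGroup.coe_mul]
    show g.1 = (U _).1 * (et ^ (i : ℕ) * ez ^ (j : ℕ)).1
    rw [h2]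
    generalize g.1 0 0 ^ 11 = a' at h1
    rw [hc] at hd
    ext p q
    fin_cases p <;> fin_cases q <;> simp [U, Matrix.mul_apply, Fin.sum_univ_two]
    · linear_combination (-g.1 0 1) * h1
    · exact hc
    · linear_combination a' * hd - g.1 1 1 * h1
  · obtain ⟨h1, i, j, h2⟩ := diag _ hc
    refine ⟨g.1 0 0 * g.1 1 0 ^ 11, g.1 1 1 * g.1 1 0 ^ 11, i, j, Or.inr (Subtype.ext ?_)⟩
    show g.1 = (U _).1 * (ew.1 * ((et ^ (i : ℕ) * ez ^ (j : ℕ)).1 * (U _).1))
    rw [h2]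
    generalize g.1 1 0 ^ 11 = c' at h1
    have h13 : (13 : ZMod 13) = 0 := by decide
    ext p q
    fin_cases p <;> fin_cases q <;> simp [U, ew, Matrix.mul_apply, Fin.sum_univ_two]
    · linear_combination (-g.1 0 0) * h1
    · linear_combination (-c') * hd - (g.1 0 1 + g.1 0 0 * g.1 1 1 * c') * h1 - c' * h13
    · linear_combination (-g.1 1 1) * h1

section
variable {k V : Type} [Field k] [AddCommGroup V] [Module k V] (ρ : S13 →* End k V)

theorem act (g h : S13) (x : V) : ρ g (ρ h x) = ρ (g * h) x := by rw [map_mul]; rfl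

theorem pow_fix {g : S13} {x : V} (h : ρ g x = x) (n : ℕ) : ρ (g ^ n) x = x := by
  induction n with
  | zero => rw [pow_zero, map_one]; rfl
  | succ n ih => rw [pow_succ, ← act, h, ih]

theorem U_fix {x : V} (h : ρ eu x = x) (a : ZMod 13) : ρ (U a) x = x := by
  rw [← ZMod.natCast_zmod_val a, ← eu_pow]; exact pow_fix ρ h _

theorem t3 (x : V) : ρ et (ρ et (ρ et x)) = x := by
  rw [act ρ et et x, act, ttt, map_one]; rfl

/-- The sum over the unipotent subgroup. -/
noncomputable def e : End k V := ∑ a : ZMod 13, ρ (U a)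

theorem e_apply (x : V) : e ρ x = ∑ a : ZMod 13, ρ (U a) x := by
  rw [e, LinearMap.sum_apply]

theorem e_U (b : ZMod 13) (x : V) : e ρ (ρ (U b) x) = e ρ x := by
  rw [e_apply, e_apply]
  simp only [act, U_add]
  exact Equiv.sum_comp (Equiv.addRight b) (fun a => ρ (U a) x)

theorem U_e (b : ZMod 13) (x : V) : ρ (U b) (e ρ x) = e ρ x := by
  rw [e_apply, map_sum]
  simp only [act, U_add]
  exact Equiv.sum_comp (Equiv.addLeft b) (fun a => ρ (U a) x)

theorem t_e (x : V) : ρ et (e ρ x) = e ρ (ρ et x) := by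
  rw [e_apply, e_apply, map_sum]
  simp only [act, tU]
  exact (show Function.Bijective (fun a : ZMod 13 => 9 * a) by decide +kernel).sum_comp
    (fun a => ρ (U a * et) x)

theorem z_e (x : V) : ρ ez (e ρ x) = e ρ (ρ ez x) := by
  rw [e_apply, e_apply, map_sum]
  simp only [act, zU]
  exact Equiv.sum_comp (Equiv.neg (ZMod 13)) (fun a => ρ (U a * ez) x)

theorem tpow_e (n : ℕ) (x : V) : ρ (et ^ n) (e ρ x) = e ρ (ρ (et ^ n) x) := by
  induction n generalizing x with
  | zero => rw [pow_zero, map_one]; rfl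
  | succ n ih => rw [pow_succ, ← act, ← act, t_e, ih]

theorem hk_apply (x : V) : hk ρ x = e ρ (ρ ew x) + (x + ρ et x + ρ et (ρ et x)) := by
  rw [hk, LinearMap.add_apply, LinearMap.sum_apply, e_apply, Finset.sum_range]
  congr 1
  refine Finset.sum_congr rfl fun i _ => ?_
  rw [eu_pow, act]
  exact congrArg (fun a => ρ (U a * ew) x) (ZMod.natCast_zmod_val (n := 13) i)

theorem t_fixU {x : V} (h : ρ eu x = x) : ρ eu (ρ et x) = ρ et x := by
  have : eu * et = et * U 3 := by decide +kernel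
  rw [act, this, ← act, U_fix ρ h]

theorem t_fixz {x : V} (h : ρ ez x = x) : ρ ez (ρ et x) = ρ et x := by
  rw [act, ← tz, ← act, h]

theorem T_fixU (x : V) : ρ eu (e ρ x) = e ρ x := U_e ρ 1 x

theorem T_fixz (hm : ρ (-1) = 1) {x : V} (h : ρ ez x = x) :
    ρ ez (e ρ (ρ ew x)) = e ρ (ρ ew x) := by
  rw [z_e, act, zw, ← act, ← act, h, hm]; rfl

theorem T_t (x : V) : e ρ (ρ ew (ρ et x)) = ρ et (ρ et (e ρ (ρ ew x))) := by
  rw [act, wt, ← act, ← act, t_e, t_e]

theorem w_U_w {x : V} (hu : ρ eu x = x) (hz : ρ ez x = x) {j : ZMod 13} (hj : j ≠ 0) :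
    ρ ew (ρ (U j) (ρ ew x)) = ρ (U (-j ^ 11)) (ρ (et ^ (nn j : ℕ)) (ρ ew x)) := by
  obtain ⟨m, hm⟩ := wUw j hj
  rw [act ρ (U j), act, hm, ← act, ← act, ← act, ← act, U_fix ρ hu, pow_fix ρ hz]

theorem w_w (hm : ρ (-1) = 1) (x : V) : ρ ew (ρ ew x) = x := by
  rw [act, ww, hm]; rfl

variable [CharP k 3]

omit ρ in
include k in
theorem three (x : V) : x + x + x = 0 := by
  have h : ((3 : ℕ) : k) • x = 0 := by rw [CharP.cast_eq_zero k 3, zero_smul]
  rw [Nat.cast_smul_eq_nsmul] at h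
  rw [← h]; abel

omit ρ in
include k in
theorem thirteen (x : V) : ∑ _a : ZMod 13, x = x := by
  rw [Finset.sum_const, Finset.card_univ, ZMod.card]
  have h := three (k := k) x
  calc 13 • x = x + 4 • (x + x + x) := by abel
    _ = x := by rw [h, smul_zero, add_zero]

theorem e_fix {x : V} (h : ρ eu x = x) : e ρ x = x := by
  rw [e_apply]; simp only [U_fix ρ h]; exact thirteen (k := k) x

theorem T_T (hm : ρ (-1) = 1) {x : V} (hu : ρ eu x = x) (hz : ρ ez x = x) :
    e ρ (ρ ew (e ρ (ρ ew x))) =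
      x + (e ρ (ρ ew x) + ρ et (e ρ (ρ ew x)) + ρ et (ρ et (e ρ (ρ ew x)))) := by
  conv_lhs => rw [e_apply ρ (ρ ew x), map_sum, map_sum,
    ← Finset.add_sum_erase _ _ (Finset.mem_univ (0 : ZMod 13))]
  rw [U_zero, map_one, Module.End.one_apply, w_w ρ hm, e_fix ρ hu]
  congr 1
  rw [Finset.sum_congr rfl (g := fun j => ρ (et ^ (nn j : ℕ)) (e ρ (ρ ew x))) fun j hj => by
    rw [w_U_w ρ hu hz (Finset.ne_of_mem_erase hj), e_U, tpow_e]]
  rw [← Finset.sum_fiberwise' _ nn (fun n : Fin 3 => ρ (et ^ (n : ℕ)) (e ρ (ρ ew x)))]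
  simp only [Finset.sum_const, nn_card, Fin.sum_univ_three]
  generalize e ρ (ρ ew x) = y
  have h0 : ρ (et ^ ((0 : Fin 3) : ℕ)) y = y := by
    show ρ (et ^ 0) y = y
    rw [pow_zero, map_one]; rfl
  have h1 : ρ (et ^ ((1 : Fin 3) : ℕ)) y = ρ et y := by
    show ρ (et ^ 1) y = _
    rw [pow_one]
  have h2 : ρ (et ^ ((2 : Fin 3) : ℕ)) y = ρ et (ρ et y) := by
    show ρ (et ^ 2) y = _
    rw [pow_two, act]
  rw [h0, h1, h2]
  have h := three (k := k) (y + ρ et y + ρ et (ρ et y))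
  calc _ = (y + ρ et y + ρ et (ρ et y)) + ((y + ρ et y + ρ et (ρ et y)) +
        (y + ρ et y + ρ et (ρ et y)) + (y + ρ et y + ρ et (ρ et y))) := by abel
    _ = _ := by rw [h, add_zero]

theorem hk_hk (hm : ρ (-1) = 1) {x : V} (hu : ρ eu x = x) (hz : ρ ez x = x) :
    hk ρ (hk ρ x) = x := by
  rw [hk_apply, hk_apply]
  simp only [map_add]
  rw [T_T ρ hm hu hz]
  simp only [T_t, t3]
  generalize e ρ (ρ ew x) = y
  have h := three (k := k) (y + ρ et y + ρ et (ρ et y) + (x + ρ et x + ρ et (ρ et x)))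
  rw [← sub_eq_zero, ← h]
  abel

theorem fix_all (hm : ρ (-1) = 1) {x : V} (hu : ρ eu x = x) (hz : ρ ez x = x)
    (ht : ρ et x = x) (hh : hk ρ x = x) (g : S13) : ρ g x = x := by
  have hT : e ρ (ρ ew x) = x := by
    rw [hk_apply, ht, ht, three (k := k), add_zero] at hh; exact hh
  have hw : ρ ew x = x := by
    have htw : ρ et (ρ ew x) = ρ ew x := by rw [act, tw, ← act, ← act, ht, ht]
    have h1 : ρ ew x = x + ∑ j ∈ Finset.univ.erase (0 : ZMod 13), ρ (U (-j ^ 11)) (ρ ew x) := by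
      conv_lhs => rw [← hT, e_apply ρ (ρ ew x), map_sum,
        ← Finset.add_sum_erase _ _ (Finset.mem_univ (0 : ZMod 13))]
      rw [U_zero, map_one, Module.End.one_apply, w_w ρ hm]
      congr 1
      exact Finset.sum_congr rfl fun j hj => by
        rw [w_U_w ρ hu hz (Finset.ne_of_mem_erase hj), pow_fix ρ htw]
    have h2 : x = ρ ew x + ∑ j ∈ Finset.univ.erase (0 : ZMod 13), ρ (U (-j ^ 11)) (ρ ew x) := by
      conv_lhs => rw [← hT, e_apply ρ (ρ ew x),
        ← (show Function.Bijective (fun a : ZMod 13 => -a ^ 11) by decide +kernel).sum_comp,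
        ← Finset.add_sum_erase _ _ (Finset.mem_univ (0 : ZMod 13))]
      rw [show -(0 : ZMod 13) ^ 11 = 0 by decide +kernel, U_zero, map_one, Module.End.one_apply]
    generalize ∑ j ∈ Finset.univ.erase (0 : ZMod 13), ρ (U (-j ^ 11)) (ρ ew x) = s at h1 h2
    generalize ρ ew x = y at h1 h2
    have h3 := three (k := k) (x - y)
    have h4 : (x - y) + (x - y) = 0 := by
      have a1 : s = y - x := by rw [h1]; abel
      have a2 : s = x - y := by rw [h2]; abel
      nth_rewrite 1 [← a2]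
      rw [a1]; abel
    rw [h4, zero_add, sub_eq_zero] at h3
    exact h3.symm
  obtain ⟨a, b, i, j, h | h⟩ := bruhat g
  · rw [h, ← act, ← act, ← act, U_fix ρ hu, pow_fix ρ hz, pow_fix ρ ht, U_fix ρ hu]
  · rw [h, ← act, ← act, ← act, ← act, U_fix ρ hu, pow_fix ρ hz, pow_fix ρ ht, hw, U_fix ρ hu]

theorem hk_adj (hm : ρ (-1) = 1) (β : V →ₗ[k] V →ₗ[k] k)
    (hβ : ∀ g a b, β (ρ g a) (ρ g b) = β a b) {x y : V} (hx : ρ eu x = x) (hy : ρ eu y = y) :
    β (hk ρ x) y = β x (hk ρ y) := by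
  have h1 : β (e ρ (ρ ew x)) y = β (ρ ew x) y := by
    rw [e_apply, map_sum, LinearMap.sum_apply]
    rw [Finset.sum_congr rfl (g := fun _ => β (ρ ew x) y) fun a _ => by
      rw [← hβ (U a) (ρ ew x) y, U_fix ρ hy]]
    exact thirteen (k := k) _
  have h2 : β x (e ρ (ρ ew y)) = β (ρ ew x) y := by
    rw [e_apply, map_sum]
    rw [Finset.sum_congr rfl (g := fun _ => β (ρ ew x) y) fun a _ => by
      calc β x (ρ (U a) (ρ ew y)) = β (ρ (U a) x) (ρ (U a) (ρ ew y)) := by rw [U_fix ρ hx]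
        _ = β (ρ ew x) (ρ ew (ρ ew y)) := by rw [hβ, hβ]
        _ = _ := by rw [w_w ρ hm]]
    exact thirteen (k := k) _
  have h3 : β (ρ et x) y = β x (ρ et (ρ et y)) := by rw [← hβ et x, t3]
  have h4 : β (ρ et (ρ et x)) y = β x (ρ et y) := by rw [← hβ et _ y, t3]
  rw [hk_apply, hk_apply]
  simp only [map_add, LinearMap.add_apply]
  rw [h1, h2, h3, h4]
  ring

end

theorem jobHk : JobHk := by
  intro k V _ _ _ _ ρ hm v hv
  have hW : ∀ x, x ∈ fx (ρ eu) ⊓ fx (ρ ez) ↔ ρ eu x = x ∧ ρ ez x = x := fun x => by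
    rw [Submodule.mem_inf, mem_fx, mem_fx]
  have hhk : ∀ x, ρ eu x = x → ρ ez x = x → ρ eu (hk ρ x) = hk ρ x ∧ ρ ez (hk ρ x) = hk ρ x := by
    intro x hu hz
    rw [hk_apply]
    simp only [map_add]
    rw [T_fixU, T_fixz ρ hm hz, hu, hz, t_fixU ρ hu, t_fixz ρ hz, t_fixU ρ (t_fixU ρ hu),
      t_fixz ρ (t_fixz ρ hz)]
    exact ⟨rfl, rfl⟩
  obtain ⟨hu, hz⟩ := (hW v).1 hv
  refine ⟨(hW _).2 ⟨t_fixU ρ hu, t_fixz ρ hz⟩, (hW _).2 (hhk v hu hz), hk_hk ρ hm hu hz, ?_,
    fix_all ρ hm hu hz, fun β hβ w hw => ?_⟩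
  · rw [hk_apply, hk_apply, T_t]
    simp only [map_add, t3]
    abel
  · obtain ⟨hu', hz'⟩ := (hW w).1 hw
    rw [hk_adj ρ hm β hβ hu (hhk w hu' hz').1, hk_hk ρ hm hu' hz']

theorem jobSim : JobSim := by
  intro k V _ _ _ _ ρ hs v hv
  by_contra hne
  -- a nonzero vector fixed by `u` and `t`
  obtain ⟨x, hx0, hxu, hxt⟩ : ∃ x : V, x ≠ 0 ∧ ρ eu x = x ∧ ρ et x = x := by
    by_cases h2 : ρ et (ρ et v - v) = ρ et v - v
    · exact ⟨ρ et v - v, sub_ne_zero.2 hne, by rw [map_sub, t_fixU ρ hv, hv], h2⟩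
    · refine ⟨ρ et (ρ et v - v) - (ρ et v - v), sub_ne_zero.2 h2, ?_, ?_⟩
      · simp only [map_sub]
        rw [t_fixU ρ (t_fixU ρ hv), t_fixU ρ hv, hv]
      · simp only [map_sub, t3]
        have h := three (k := k) (ρ et v - ρ et (ρ et v))
        rw [← sub_eq_zero, ← h]
        abel
  have htop : Submodule.span k (Set.range fun g => ρ g x) = ⊤ := by
    refine (hs _ fun g y hy => ?_).resolve_left fun h => hx0 ?_
    · have : (Submodule.span k (Set.range fun g => ρ g x)).map (ρ g) ≤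
          Submodule.span k (Set.range fun g => ρ g x) := by
        rw [Submodule.map_span_le]
        rintro _ ⟨g', rfl⟩
        exact Submodule.subset_span ⟨g * g', (act ρ g g' x).symm⟩
      exact this ⟨y, hy, rfl⟩
    · have : x ∈ Submodule.span k (Set.range fun g => ρ g x) :=
        Submodule.subset_span ⟨1, show ρ 1 x = x by rw [map_one]; rfl⟩
      rwa [h, Submodule.mem_bot] at this
  have hle : Submodule.span k (Set.range fun g => ρ g x) ≤ (fx (ρ et)).comap (e ρ) := by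
    rw [Submodule.span_le]
    rintro _ ⟨g, rfl⟩
    show e ρ (ρ g x) ∈ fx (ρ et)
    rw [mem_fx]
    obtain ⟨a, b, i, j, h⟩ := bruhat g
    have hh : ρ et (ρ (et ^ i * ez ^ j * U b) x) = ρ (et ^ i * ez ^ j * U b) x := by
      have hc : et * (et ^ i * ez ^ j) = et ^ i * ez ^ j * et :=
        (((Commute.refl et).pow_right i).mul_right ((show Commute et ez from tz).pow_right j)).eq
      rw [← act ρ _ (U b), U_fix ρ hxu, act, hc, ← act, hxt]
    rcases h with h | h
    · rw [h, ← act ρ (U a), e_U, t_e, hh]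
    · rw [h, ← act ρ (U a), e_U, t_e, ← act ρ ew, act ρ et ew, tw, ← act, ← act, hh, hh]
  have := hle (htop ▸ Submodule.mem_top : v ∈ _)
  rw [Submodule.mem_comap, mem_fx, e_fix ρ hv] at this
  exact hne this

end H73.E8Hk
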