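import Cfsg.Agent.H73.F23C
/-! The maximal subgroup `N(3B)` of `Fi₂₃` is solvable of derived length at least `10`. -/
set_option maxRecDepth 100000
namespace H73.F23
open H71 Cfsg.Spor

local notation "ρ" => H71.Fi23.ρ
local notation "z" => H71.Fi23.z

theorem old (l : ℕ) (h : l ∈ [6, 7, 8, 9, 10, 11, 12, 13, 14, 15]) : π l = FiH.π (l - 4) := by
  simp only [List.mem_cons, List.not_mem_nil, or_false] at h
  rcases h with rfl | rfl | rfl | rfl | rfl | rfl | rfl | rfl | rfl | rfl <;> rfl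

theorem rg_old (l : ℕ) (h : l ∈ [6, 7, 8, 9, 10, 11, 12, 13, 14, 15]) : π l ∈ (ρ).range :=
  ⟨_, (H71.Fi23.hρ _).trans (old l h).symm⟩

theorem rg_new {l : ℕ} {w L : List ℕ} (h : isId A 15 32768 (l :: w) = true)
    (hL : ∀ x ∈ L, π x ∈ (ρ).range) (hw : ∀ x ∈ w, x ∈ L) :
    π l ∈ (ρ).range ∧ π (linv 6 l) ∈ (ρ).range := by
  have e := env.eq_one_of_isId FiH.hN h
  rw [evw_cons, mul_eq_one_iff_eq_inv] at e
  have : π l ∈ (ρ).range := e ▸ inv_mem (evw_mem fun x hx => hL x (hw x hx))
  exact ⟨this, pinv l ▸ inv_mem this⟩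

theorem rg (l : ℕ) : π l ∈ (ρ).range := by
  have h1 := rg_new k1 rg_old (by decide)
  have h2 := rg_new k2 rg_old (by decide)
  have h3 := rg_new (L := 1 :: 0 :: 3 :: 2 :: [6, 7, 8, 9, 10, 11, 12, 13, 14, 15]) k3 (by
    intro x hx
    rcases List.mem_cons.1 hx with rfl | hx
    · exact h1.1
    rcases List.mem_cons.1 hx with rfl | hx
    · exact h1.2
    rcases List.mem_cons.1 hx with rfl | hx
    · exact h2.1
    rcases List.mem_cons.1 hx with rfl | hx
    · exact h2.2
    exact rg_old x hx) (by decide)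
  refine mkVal_mem (gens := [n1, n2, n3].map Net.perm) (invs := FiH.invsN.map Net.perm)
    (B := (ρ).range) (fun g hg => ?_) (fun g hg => ?_) l
  · simp only [List.map, List.mem_cons, List.not_mem_nil, or_false] at hg
    rcases hg with rfl | rfl | rfl
    exacts [h1.2, h2.2, h3.2]
  · simp only [FiH.invsN, List.map, List.mem_cons, List.not_mem_nil, or_false] at hg
    rcases hg with rfl | rfl | rfl | rfl | rfl | rfl | rfl | rfl | rfl | rfl | rfl | rfl
    exacts [rg_old 6 (by decide), rg_old 7 (by decide), rg_old 8 (by decide), rg_old 9 (by decide),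
      rg_old 10 (by decide), rg_old 11 (by decide), rg_old 12 (by decide), rg_old 13 (by decide),
      rg_old 14 (by decide), rg_old 15 (by decide), one_mem _, one_mem _]

noncomputable def val (l : ℕ) : Fi23 := (rg l).choose

theorem hρ (l : ℕ) : ρ (val l) = π l := (rg l).choose_spec

theorem hv (l : ℕ) : val (linv 6 l) = (val l)⁻¹ :=
  H71.Fi23.inj (by rw [map_inv, hρ, hρ, pinv])

theorem val_old (l : ℕ) (h : l ∈ [6, 7, 8, 9, 10, 11, 12, 13, 14, 15]) :
    val l = H71.Fi23.val (l - 4) := H71.Fi23.inj (by rw [hρ, H71.Fi23.hρ, old l h])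

theorem top : gen val (P.map Prod.snd) = ⊤ := by
  rw [eq_top_iff, ← H71.Fi23.top]
  refine gen_le fun l hl => ?_
  have h := (by decide : ∀ l ∈ FiH.S, l + 4 ∈ [6, 7, 8, 9, 10, 11, 12, 13, 14, 15] ∧
    l + 4 ∈ P.map Prod.snd) l hl
  have := val_old _ h.1
  rw [Nat.add_sub_cancel] at this
  exact this ▸ mem_gen val h.2

theorem ev (w : List ℕ) : ρ (evw val w) = evw π w := by rw [map_evw]; simp only [hρ]

theorem idw {w : List ℕ} (h : isId A 15 32768 w = true) : evw val w = 1 :=
  evw_eq_one_of_inj H71.Fi23.inj hρ (env.eq_one_of_isId FiH.hN h)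

theorem sq {l : ℕ} (h : 6 ≤ l) : val l * val l = 1 := by
  have := hv l
  rw [linv_eq, if_pos h] at this
  exact mul_eq_one_iff_eq_inv.2 this

theorem trj : Tr ρ 0 z 9689 (val 15) := by
  have j0 : ρ (H71.Fi23.val 11) 0 = 3511 := by
    have h1 : evw FiH.π [11] 0 = 3511 := FiH.env.of_maps (by decide +kernel)
    rwa [← H71.Fi23.ρ_evw, evw_cons, evw_nil, mul_one] at h1
  refine ⟨z * H71.Fi23.val 11, ?_, ?_⟩
  · rw [map_mul, Equiv.Perm.mul_apply, j0, H71.Fi23.z, H71.Fi23.ρ_evw, H71.Fi23.z_maps]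
  · have h1 := H71.Fi23.zj
    have h2 := sq (l := 15) (by omega)
    rw [val_old 15 (by decide)] at h2 ⊢
    have h3 : (H71.Fi23.val (15 - 4))⁻¹ = H71.Fi23.val 11 := (mul_eq_one_iff_eq_inv.1 h2).symm
    have h4 : z⁻¹ = z := (mul_eq_one_iff_eq_inv.1 H71.Fi23.z_sq).symm
    rw [mul_inv_rev, h3, h4, ← h3, eq_comm, ← mul_eq_one_iff_eq_inv, h3, ← h1]
    simp only [pow_succ, pow_zero, one_mul, mul_assoc]

theorem trP : ∀ p ∈ P, Tr ρ 0 z p.1 (val p.2) := by
  intro p hp
  have h := of_allL c3 p hp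
  rw [Bool.and_eq_true] at h
  have t := trj.conj (evw val (nth U [] (p.2 - 6)))
  have e := idw h.2
  rw [evw_cons, evw_append, evw_cons, evw_winv hv, ← sq ((by decide : ∀ p ∈ P, 6 ≤ p.2) p hp),
    mul_right_inj, ← mul_assoc] at e
  rwa [e, ev, env.of_maps h.1] at t

/-- The subgroup. -/
noncomputable def H : Subgroup Fi23 := setStab ρ D

theorem hD : gen val (15 :: S) ≤ H ∧ ∀ x, D.testBit x = true → ∃ g ∈ H, Tr ρ 0 z x g :=
  hD_of env hρ c1 c2 trj

theorem hS : ∀ l ∈ 15 :: S, val l ∈ H := fun _ hl => hD.1 (mem_gen val hl)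

theorem coatom : IsCoatom H := by
  refine coatom_setStab hD.2 (fun e => ?_) fun M hM x g hx t hg => ?_
  · obtain ⟨g, -, hg⟩ := (show 1 ∈ orb ρ ⊤ 0 by rw [H71.Fi23.orb0]; simp)
    have := (e.ge (Subgroup.mem_top g)) 0
    rw [hg] at this
    exact absurd this (by decide +kernel)
  · have hx' : x < 31671 := by
      obtain ⟨u, hu, -⟩ := t
      have : x ∈ orb ρ ⊤ 0 := ⟨u, trivial, hu⟩
      rw [H71.Fi23.orb0] at this
      exact this.2
    have hS' : ∀ l ∈ S, val l ∈ H := fun l hl => hS l (List.mem_cons_of_mem _ hl)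
    obtain ⟨k, hk, e⟩ := cover_two (val := val) env hρ c4 hx' hx
    have hkM : k ∈ M := hM (gen_le hS' hk)
    have key : ∀ p ∈ P, ρ k p.1 = x → val p.2 ∈ M := fun p hp e => by
      have := Tr.uniq H71.Fi23.comm_z (e ▸ (trP p hp).conj k) t
      rw [← this] at hg
      simpa [mul_assoc] using mul_mem (mul_mem (inv_mem hkM) hg) hkM
    rcases e with e | e
    · exact top_of_letter env hρ H71.Fi23.comm_z hD.2 hS' trP top c5_0 hM
        (key (1828, 14) (by decide) e)
    · exact top_of_letter env hρ H71.Fi23.comm_z hD.2 hS' trP top c5_1 hM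
        (key (1825, 13) (by decide) e)

theorem ncomm : ¬ H71.Fi23.val 11 * z = z * H71.Fi23.val 11 := fun h => by
  have h1 : H71.Fi23.val 11 ∈ Subgroup.centralizer {z} := by
    rw [Subgroup.mem_centralizer_singleton_iff]; exact h
  rw [H71.Fi23.centralizer_z, H71.Fi23.stab0, mem_stab] at h1
  have h2 : evw FiH.π [11] 0 = 3511 := FiH.env.of_maps (by decide +kernel)
  rw [← H71.Fi23.ρ_evw, evw_cons, evw_nil, mul_one, h1] at h2
  omega

theorem center_bot : Subgroup.center Fi23 = ⊥ :=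
  (H71.Fi23.simple.eq_bot_or_eq_top_of_normal _ inferInstance).resolve_right fun e =>
    ncomm (Subgroup.mem_center_iff.1 (e.ge (Subgroup.mem_top z)) _)

theorem solv : Group.IsSolvable H := by
  refine solvable_of_no_prime fun p hp h5 g hg => Subtype.ext ?_
  have hC : stab ρ 0 ≤ setStab ρ (ival 0 3511) := by
    rw [← H71.Fi23.stab0]
    exact invChk_sound FiH.env ρ (fun l _ => H71.Fi23.hρ l) (by decide +kernel)
  refine chn_sound env hρ hC hS (fun g h => ?_) hp h5 st c6 (fun g hg _ _ m hm => ?_) g g.2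
    (congrArg Subtype.val hg) (by simp)
  · rw [← Subgroup.mem_bot, ← center_bot, Subgroup.mem_center_iff]
    intro k
    have : gen val (P.map Prod.snd) ≤ Subgroup.centralizer {g} := gen_le fun l hl => by
      obtain ⟨q, hq, rfl⟩ := List.mem_map.1 hl
      obtain ⟨x, hx, e⟩ := (by decide : ∀ q ∈ P, ∃ x ∈ P2, x.1 = q.1) q hq
      rw [Subgroup.mem_centralizer_singleton_iff]
      exact ((trP q hq).comm H71.Fi23.comm_z (e ▸ h x hx)).symm
    exact Subgroup.mem_centralizer_singleton_iff.1 (this (top.ge (Subgroup.mem_top k)))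
  · simp only [List.mem_cons, List.not_mem_nil, or_false] at hm
    rcases hm with rfl | rfl
    · exact hg
    · intro i
      rw [Bool.eq_iff_iff, testBit_ival, testBit_ival]
      simp only [Nat.zero_le, true_and]
      rw [← not_iff_not, not_lt, not_lt]
      refine ⟨fun h => ?_, fun h => by rwa [H71.Fi23.fix g i h]⟩
      have := H71.Fi23.fix g _ h
      rwa [(ρ g).injective this] at h

theorem der9 : derivedSeries H 9 ≠ ⊥ := by
  have a0 : evw val u0 ∈ (derivedSeries H 0).map H.subtype :=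
    ⟨⟨_, evw_mem fun l hl => hS l ((by decide : ∀ l ∈ u0, l ∈ 15 :: S) l hl)⟩, trivial, rfl⟩
  have a1 := der_word hv hS (by decide) (idw d0) a0
  have a2 := der_word hv hS (by decide) (idw d1) a1
  have a3 := der_word hv hS (by decide) (idw d2) a2
  have a4 := der_word hv hS (by decide) (idw d3) a3
  have a5 := der_word hv hS (by decide) (idw d4) a4
  have a6 := der_word hv hS (by decide) (idw d5) a5
  have a7 := der_word hv hS (by decide) (idw d6) a6
  have a8 := der_word hv hS (by decide) (idw d7) a7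
  have a9 := der_word hv hS (by decide) (idw d8) a8
  intro e
  rw [show 0 + 1 + 1 + 1 + 1 + 1 + 1 + 1 + 1 + 1 = 9 from rfl, e, Subgroup.map_bot,
    Subgroup.mem_bot] at a9
  have := env.of_maps c7
  rw [← ev, a9] at this
  simp at this

end H73.F23
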