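import Cfsg.Agent.H11.FBSpec

/-! FB-P4: the fixed points of `P` outside three points form a block. -/

set_option autoImplicit false

namespace H73.FbP
open MulAction Subgroup H11.FB

universe u v

theorem jobP4 : JobP4.{u, v} := by
  intro G Ω _ _ _ _ _ _ a b c d K H P hy pd
  classical
  obtain ⟨ab, ac, ad, bc, bd, cd⟩ := hy.ne
  let R : Finset Ω := Finset.univ \ {a, b, c}
  have mR : ∀ w, w ∈ R ↔ w ≠ a ∧ w ≠ b ∧ w ≠ c := fun w => by simp [R]
  have ex : ∀ w, ∃ g : G, w ∈ R → g • a = a ∧ g • b = b ∧ g • c = c ∧ g • d = w := fun w => by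
    by_cases h : w ∈ R
    · obtain ⟨h1, h2, h3⟩ := (mR w).1 h
      obtain ⟨g, hg⟩ := hy.exists_smul hy.ne ⟨ab, ac, h1.symm, bc, h2.symm, h3.symm⟩
      exact ⟨g, fun _ => hg⟩
    · exact ⟨1, fun m => (h m).elim⟩
  choose g hg using ex
  let Q : Ω → Subgroup G := fun w => cj (g w) P
  have hPL : P ≤ L4 G a b c d := pd.le.trans hy.fr.Kle
  have eL : ∀ w ∈ R, cj (g w) (L4 G a b c d) = L4 G a b c w := fun w hw => by
    obtain ⟨h1, h2, h3, h4⟩ := hg w hw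
    rw [← L4_smul, h1, h2, h3, h4]
  have QL : ∀ w ∈ R, Q w ≤ L4 G a b c w := fun w hw => eL w hw ▸ map_mono hPL
  have key : ∀ w ∈ R, ∀ w' ∈ R, Q w' = Q w ↔ (g w)⁻¹ • w' ∈ fixedPoints P Ω := by
    intro w hw w' hw'
    refine ⟨fun e x => ?_, fun h => (eq_of_le_of_card_ge (fun x hx => ?_) ?_).symm⟩
    · have := (mem_L4.1 (QL w' hw' (e ▸ conj_mem_cj x.2 : g w * x * (g w)⁻¹ ∈ Q w'))).2.2.2
      rw [mul_smul, mul_smul] at this
      exact eq_inv_smul_iff.2 this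
    · obtain ⟨k, e⟩ := (pd.cj (g w)).pg ⟨x, hx⟩
      obtain ⟨h1, h2, h3, -⟩ := mem_L4.1 (QL w hw hx)
      refine (pd.cj (g w')).all x ?_ k (congrArg Subtype.val e)
      rw [eL w' hw']
      refine mem_L4.2 ⟨h1, h2, h3, ?_⟩
      have : ((g w)⁻¹ * x * g w) • (g w)⁻¹ • w' = (g w)⁻¹ • w' := h ⟨_, mem_cj.1 hx⟩
      rwa [conj_smul_iff, smul_inv_smul] at this
    · rw [card_cj, card_cj]
  have c3 : ({a, b, c} : Finset Ω).card = 3 := Finset.card_eq_three.2 ⟨a, b, c, ab, ac, bc, rfl⟩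
  have cR : R.card = Fintype.card Ω - 3 := by
    rw [Finset.card_sdiff_of_subset (Finset.subset_univ _), c3, Finset.card_univ]
  let F : Finset Ω := (fixedPoints P Ω).toFinset \ {a, b, c}
  have mF : ∀ w, w ∈ F ↔ w ∈ fixedPoints P Ω ∧ w ∈ R := fun w => by simp [F, R]
  have cF : F.card = (fixedPoints P Ω).ncard - 3 := by
    rw [Finset.card_sdiff_of_subset, c3, Set.ncard_eq_toFinset_card']
    intro w hw
    rw [Set.mem_toFinset]
    intro x
    obtain ⟨h1, h2, h3, -⟩ := mem_L4.1 (hPL x.2)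
    simp only [Finset.mem_insert, Finset.mem_singleton] at hw
    rcases hw with rfl | rfl | rfl
    exacts [h1, h2, h3]
  have sR : ∀ w ∈ R, ∀ x, g w • x ∈ R ↔ x ∈ R := fun w hw x => by
    obtain ⟨h1, h2, h3, -⟩ := hg w hw
    rw [mR, mR]
    nth_rewrite 1 [← h1, ← h2, ← h3]
    simp only [ne_eq, smul_left_cancel_iff]
  rw [← cR, Finset.card_eq_sum_card_image Q R, ← cF]
  refine Finset.dvd_sum fun S hS => ?_
  obtain ⟨w, hw, rfl⟩ := Finset.mem_image.1 hS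
  refine dvd_of_eq (Finset.card_bij (fun x _ => g w • x) (fun x hx => ?_)
    (fun x _ y _ e => MulAction.injective _ e) fun y hy => ⟨(g w)⁻¹ • y, ?_, smul_inv_smul _ _⟩)
  · obtain ⟨h1, h2⟩ := (mF x).1 hx
    have h3 := (sR w hw x).2 h2
    exact Finset.mem_filter.2 ⟨h3, (key w hw _ h3).2 (by rwa [inv_smul_smul])⟩
  · obtain ⟨h1, h2⟩ := Finset.mem_filter.1 hy
    exact (mF _).2 ⟨(key w hw y h1).1 h2, (sR w hw _).1 (by rwa [smul_inv_smul])⟩

end H73.FbP
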