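import Cfsg.Agent.H73.PMax
import Cfsg.Agent.H95.G24
import Cfsg.Agent.H4.Ico5
/-! The action of `G₂(4)` on the 416 cosets of the Hall–Janko group. -/
set_option maxRecDepth 1000000
set_option Elab.async false
set_option autoImplicit false
namespace H73.G24J
open H71 H49 Cfsg Cfsg.Lie
def W : List (List ℕ) := [[0],[1],[2],[3],[4],[5],[5],[5,1,2,3,2,1,5],[3],[1,0,1,2,1,3,2,4,3,2,3,2,3,4,1,0,1,2,3,2,1],[1],[1,0,1],[1,2,0,1],[1,2,3,2,1],[1,2,0,1,0,1],[3,2,1,0],[4,3,2,1,0,1,2,3,4],[0],[4]]
def i0 : List (ℕ × List ℕ × List ℕ) := [(6,[1,0,2,1,3,2,0,4,1,3,2,4,1,0,3,1,2,0,4,1,2],[0,2,1,3,2,4,3,0,5,2,4,1,0,3,2,0,4,5,1,3,2,4,3,2]),(7,[0,3,4,1,3,2,1,3,0,4,2,1],[0,1,4,5,0,2,4,3,1,2,5,4,0,1,5,2,0])]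
theorem m0 : maxOK (wA SuzL3.A W) [0,1,2,3,4,5] [0,1,2,3,4] 0 0xffffffffffffffffffffffffffffffffffffffffffffffffffffffffffffffffffffffffffffffffffffffffffffffffffffffff 6 i0 = true := by decide +kernel
def i1 : List (ℕ × List ℕ × List ℕ) := [(10,[1,1,0,1,0,1,1,0,1,0,1,1,0],[0,2,0,2,0,1,2,0,1,2,2,0,1,2,0,2,1,2]),(11,[1,1,0,1,0,1,1,0,1,0,1,1,0],[0,2,2,0,1,2,0,2,0,2,1,2,0,2,1,2,0,2,2,0,2,0]),(12,[0,1,1,0,1,0,1,0,1,1,0,1,1,0,1,1],[0,1,2,0,2,1,0,2,1,2,0,1,2,2,0,1,0,2]),(13,[0,1,0,1,0,1,0,1,1,0,1,1,0,1,0],[0,1,2,0,2,1,0,2,1,2,0,1,2,0,2,0,1,0]),(14,[0,1,0,1,0,1],[0,0,1,0,2,0,1,2,0,1,2,0,1,0,2,0,0])]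
theorem m1 : maxOK (wA SuzL3.A W) [0,1,2,3,4] [8,9] 1 0xfffffef27fefe53f3f1cf8ffffcf9ffc89f8fd19b3ffcf64fff70d9e9b7fb49ff4b6b7d4bfadafabfeb5f7ffadffffbffffffffe 10 i1 = true := by decide +kernel
def i2 : List (ℕ × List ℕ × List ℕ) := [(17,[0,0,1,0,0,1,0,1,0,1,0,0,1],[0,1,0,1,2,0,1,2,1,1,2,1,0,1]),(18,[0,1,0,0,1,0,0,0,1,0,0],[0,1,2,1,0,1,2,0,1,2,0,1])]
theorem m2 : maxOK (wA SuzL3.A W) [0,1,2,3,4] [15,16] 38 0x10d80101ac0c0e3070000306003760702e64c00309b0008f26164804b600b49482b40525054014a08005200004000000000 17 i2 = true := by decide +kernel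

noncomputable def vJ : ℕ → H4.M2.X := mkVal [] (UG.litL (([[7],[9,0,0,9,0,9,1,0,0,9,0],[2],[9],[4,0,6,0]] : List (List ℕ)).map (wd H4.M2.gens))
  [(2492831568084939695425028034511126014075635442490016497211638898071867946478663306699604215002492389145767304624770631884056907850731426570595863860096367789306525767561058059229955334857585406997200548835393664,2492831568084939695425028034511126014075635442490016497211638898071867946478663306699604215002492389145767304624770631884056907850731426570595863860096367789306525767561058059229955334857585406997200548835393664),(3154807488183513919321749856861805694685833495101740817879943174664351254986877670753581769873954295063150070952492771254339800969132447969226191633718594008424605248263491971589607341432884575064176366722648005,3154807488183513919321749856861805694685833495101740817879943174664351254986877670753581769873954295063150070952492771254339800969132447969226191633718594008424605248263491971589607341432884575064176366722648005),(35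21511720832409764526419691427612283875499184727783107222166804552438179464241369465042345027233078041423322196704479054417774320061625809897690148114691999060281593596845732358786034147732178115986891196104832,3521511720832409764526419691427612283875499184727783107222166804552438179464241369465042345027233078041423322196704479054417774320061625809897690148114691999060281593596845732358786034147732178115986891196104832),(3355503772626518451695902219155071995021472970832878799845178597920409416143351290050908328159872073235513670689401330024706841346038731742391920827538598214976942119663907991009043769063955083350710643905840132,3355503772626518451695902219155071995021472970832878799845178597920409416143351290050908328159872073235513670689401330024706841346038731742391920827538598214976942119663907991009043769063955083350710643905840132),(1370679735095352686105025179577659247808624482609819174839396108625030379787494628413451759495688993245912195057703124912206665817089285281622703245795560286566860765187652970849696552702820995271251081948233729,1370679735095352686105025179577659247808624482609819174839396108625030379787494628413451759495688993245912195057703124912206665817089285281622703245795560286566860765187652970849696552702820995271251081948233729)])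
theorem satJ : Sat 0 7 SuzL2.R vJ := by
  unfold vJ; exact ⟨mkVal_inv [] _ (by decide +kernel), by decide +kernel, by decide +kernel⟩
theorem topJ : gen vJ [0,1,2,3,4] = ⊤ :=
  H4.gen_top_of_words H4.M2.gens_top (W := [[3,2,3,1,2,3,2,1,0,1,2,3,1,2,1],[3,2,3,1,2,3,2,1,0,1,2,3,0,1,2,1,0,1,0],[2],[3,2,3],[1,2,3,4,2,3,1,2,3,4,1,2,3,2,3,1,0,1,2,3,4,2,3,2,1,0,1],[1,2,3,4,3,2,3,1,2,3,4,1,2,3,2,1,0,1,2,3,4,2,3,2,0,1,0,1],[4,3,2,3,4],[0],[3,2,3,1,2,3,0,1,0,1,2,3,4,3,2,3,1,0,1,2,3,0,1,2,3],[3]]) (by decide +kernel) (by decide +kernel)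

variable {G : Type*} [Group G] {val : ℕ → G}

theorem bdJ (h : Sat 0 7 SuzL2.R val) : Bd val [0, 1, 2, 3, 4] 604800 :=
  (SuzL2.done h.hv h.he (rels_of_subset h.hR (by decide +kernel)) fun _ h => mem_gen val h).step
    ((SuzL1.done h.hv h.he (rels_of_subset h.hR (by decide +kernel)) fun _ h => mem_gen val h).step
      ((SuzL0.done h.hv h.he (rels_of_subset h.hR (by decide +kernel))
        fun _ h => mem_gen val h).step (gen_nil_card val)))

theorem satπ : Sat 0 7 SuzL3.R SuzL3.π := ⟨SuzL3.pinv, rfl, SuzL3.relP⟩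

theorem main (h : Sat 0 7 SuzL3.R val) (ht : gen val [0, 1, 2, 3, 4, 5] = ⊤)
    (hc : Nat.card G = 251596800) : ∃ H : Subgroup G, IsCoatom H ∧ Spor.IsoJ2 H ∧ ∀ x ∉ H,
      IsCoatom ((H ⊓ H.map (MulAut.conj x).toMonoidHom).subgroupOf H) := by
  obtain ⟨φ, -, hφ⟩ := model_hom (H95.G24.bdH (satπ.pair h)) (by rw [ht, Subgroup.card_top, hc])
  let ρ : G →* Equiv.Perm ℕ := ((Subgroup.subtype _).comp φ).comp
    ((MonoidHom.id G).codRestrict _ fun g => ht ▸ Subgroup.mem_top g)
  have hρ : ∀ l ∈ [0, 1, 2, 3, 4, 5], ρ (val l) = SuzL3.π l := fun l hl =>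
    congrArg Subtype.val (hφ l hl)
  have hH : gen val [0, 1, 2, 3, 4] = stab ρ 0 := eq_stab_of_done (H95.G24.doneH h) ρ hρ ht
    (gen_le_stab SuzL3.env ρ (fun l hl => hρ l (by revert l; decide)) (by decide +kernel))
  have hw := wV_map hρ (W := W) (by decide +kernel)
  have e : ∀ l < 6, wV val W l = val l := fun l hl => by
    interval_cases l <;> exact mul_one _
  have g6 : ⊤ ≤ gen (wV val W) [0, 1, 2, 3, 4, 5] := ht ▸ gen_le fun l hl =>
    e l (by revert l; decide) ▸ mem_gen _ hl
  have g5 : stab ρ 0 ≤ gen (wV val W) [0, 1, 2, 3, 4] := hH ▸ gen_le fun l hl =>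
    e l (by revert l; decide) ▸ mem_gen _ hl
  have mm : ∀ i, (∀ l ∈ nth W [] i, l ∈ [0, 1, 2, 3, 4]) → wV val W i ∈ stab ρ 0 := fun i hi =>
    hH ▸ wV_mem (fun _ hl => mem_gen val hl) hi
  have E := env_words SuzL3.env W
  obtain ⟨a0, b0⟩ := maxOK_spec E ρ hw m0 g6 fun _ _ => Subgroup.mem_top _
  obtain ⟨a1, -⟩ := maxOK_spec E ρ hw m1 g5 fun l hl => mm l (by revert l; decide +kernel)
  obtain ⟨a2, -⟩ := maxOK_spec E ρ hw m2 g5 fun l hl => mm l (by revert l; decide +kernel)
  have p1 : ∀ i q, wA SuzL3.A W i 1 = 2 ^ q → wV SuzL3.π W i 0 = q := fun i q hq => by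
    have := E.app i 1 (wV SuzL3.π W i 0)
    rw [hq, Nat.testBit_two_pow] at this
    simpa [eq_comm] using this
  refine ⟨stab ρ 0, a0.isCoatom_top, ?_, fun x hx => ?_⟩
  · have h1 := ((H95.G24.doneH h).step ⟨(H95.G24.bdJ h).1, le_rfl⟩).2
    change Nat.card (gen val [0, 1, 2, 3, 4, 5]) ≤ _ at h1
    rw [ht, Subgroup.card_top, hc] at h1
    obtain ⟨ψ, -⟩ := model_equiv (bdJ (satJ.pair (h.mono (by decide +kernel))))
      (by rw [topJ, Subgroup.card_top, H4.M2.card]) (by omega)
    exact H4.Ico.isoJ2_of ((Subgroup.topEquiv.symm.trans (MulEquiv.subgroupCongr topJ.symm)).trans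
      (ψ.trans (MulEquiv.subgroupCongr hH)))
  · obtain ⟨it, hi, k, hk, e⟩ := b0 x trivial hx
    rw [stab_conj, e]
    simp only [i0, List.mem_cons, List.not_mem_nil, or_false] at hi
    rcases hi with rfl | rfl
    · rw [p1 6 1 (by decide +kernel)]; exact (a1.smul hk.2).isCoatom
    · rw [p1 7 38 (by decide +kernel)]; exact (a2.smul hk.2).isCoatom

end H73.G24J
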