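/- The action of `2³ · L₃(2)` on an abelian group `N ⟨o⟩` (jobs G3S-H4, G3S-MOD): linear part. -/
import Cfsg.Agent.Base

set_option autoImplicit false
set_option maxRecDepth 100000
set_option synthInstance.maxSize 2048

namespace H73.G3S

/-- Exponent vectors. -/
structure V where
  a : ℕ
  b : ℕ
  c : ℕ
  d : ℕ
  e : ℕ
  f : ℕ
  g : ℕ
  deriving DecidableEq

def V.add (v w : V) : V :=
  ⟨v.a + w.a, v.b + w.b, v.c + w.c, v.d + w.d, v.e + w.e, v.f + w.f, v.g + w.g⟩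

def V.smul (k : ℕ) (v : V) : V := ⟨v.a * k, v.b * k, v.c * k, v.d * k, v.e * k, v.f * k, v.g * k⟩

/-- Matrices. -/
structure Mx where
  a : V
  b : V
  c : V
  d : V
  e : V
  f : V
  g : V

def act (m : Mx) (v : V) : V :=
  (((((((m.a.smul v.a).add (m.b.smul v.b)).add (m.c.smul v.c)).add (m.d.smul v.d)).add
    (m.e.smul v.e)).add (m.f.smul v.f)).add (m.g.smul v.g))

def nf (ε δ : ℕ) (v : V) : V :=
  ⟨v.a % 2, v.b % 2, v.c % 2, (v.d + ε * (v.a / 2)) % 2, (v.e + ε * (v.b / 2)) % 2,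
    (v.f + ε * (v.c / 2)) % 2, δ * v.g % 2⟩

def e1 : V := ⟨1, 0, 0, 0, 0, 0, 0⟩
def e2 : V := ⟨0, 1, 0, 0, 0, 0, 0⟩
def e3 : V := ⟨0, 0, 1, 0, 0, 0, 0⟩
def e4 : V := ⟨0, 0, 0, 1, 0, 0, 0⟩
def e5 : V := ⟨0, 0, 0, 0, 1, 0, 0⟩
def e6 : V := ⟨0, 0, 0, 0, 0, 1, 0⟩
def e7 : V := ⟨0, 0, 0, 0, 0, 0, 1⟩

def mR (i j k : ℕ) : Mx := ⟨e1, e3, ⟨1, 1, 1, i, j, k, 0⟩, e4, e6, ⟨0, 0, 0, 1, 1, 1, 0⟩, e7⟩

def mG (i j k i' j' k' : ℕ) : Mx :=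
  ⟨e2, ⟨1, 1, 0, i, j, k, 0⟩, ⟨0, 0, 1, i', j', k', 0⟩, e5, ⟨0, 0, 0, 1, 1, 0, 0⟩, e6, e7⟩

def mS (ε δ i j k l i' j' k' l' : ℕ) : Mx :=
  ⟨⟨1, 0, 0, i, j, k, l⟩, ⟨0, 1, 0, i', j', k', l'⟩,
    act (mR 0 ε ε) (act (mR 0 ε ε) ⟨0, 1, 0, i', j', k', l'⟩), e4, e5, ⟨0, 0, 0, 1, 1, 1, 0⟩,
    ⟨0, 0, 0, δ, 0, 0, 1⟩⟩

/-- `r θ = θ² r` at `u`. -/
def P1 (ε δ : ℕ) (r g : Mx) (u : V) : Prop :=
  nf ε δ (act r (act r (act g u))) = nf ε δ (act r (act g (act r (act g (act r u)))))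

instance (ε δ : ℕ) (r g : Mx) (u : V) : Decidable (P1 ε δ r g u) := by unfold P1; infer_instance

theorem key1 : ∀ ε δ i j k i' j' k' i'' j'' k'' : Fin 2,
    P1 ε δ (mR i j k) (mG i' j' k' i'' j'' k'') e1 → P1 ε δ (mR i j k) (mG i' j' k' i'' j'' k'') e2 →
    P1 ε δ (mR i j k) (mG i' j' k' i'' j'' k'') e3 →
    i = 0 ∧ j = ε ∧ k = ε ∧ i' = ε ∧ j' = ε ∧ k' = ε ∧ i'' = 0 ∧ j'' = 0 ∧ k'' = 0 := by
  decide +kernel

/-- The relations for `s`. -/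
def P2 (ε δ : ℕ) (g s : Mx) : Prop :=
  nf ε δ (act s (act s e1)) = nf ε δ e1 ∧ nf ε δ (act s (act s e3)) = nf ε δ e3 ∧
    nf ε δ (act g (act g (act s (act g (act g e1))))) =
      nf ε δ (act g (act s (act g (act g (act s (act g e1))))))

/-- The action of `s`, `b`, `d`. -/
def P3 (ε δ : ℕ) (r g s : Mx) : Prop :=
  nf ε δ (act s e1) = nf ε δ ⟨1, 0, 0, ε, 0, 0, 0⟩ ∧ nf ε δ (act s e2) = nf ε δ ⟨0, 1, 0, 0, ε, 0, 0⟩ ∧
    nf ε δ (act s e3) = nf ε δ ⟨1, 1, 1, ε, 0, 0, 0⟩ ∧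
    nf ε δ (act g (act s (act g (act g e1)))) = nf ε δ e1 ∧
    nf ε δ (act r (act g (act s (act g (act g (act r (act r e2))))))) = nf ε δ ⟨1, 1, 0, ε, ε, ε, 0⟩

instance (ε δ : ℕ) (g s : Mx) : Decidable (P2 ε δ g s) := by unfold P2; infer_instance

instance (ε δ : ℕ) (r g s : Mx) : Decidable (P3 ε δ r g s) := by unfold P3; infer_instance

theorem key2 : ∀ ε δ i j k l i' j' k' l' : Fin 2,
    P2 ε δ (mG ε ε ε 0 0 0) (mS ε δ i j k l i' j' k' l') →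
    P3 ε δ (mR 0 ε ε) (mG ε ε ε 0 0 0) (mS ε δ i j k l i' j' k' l') := by
  decide +kernel

variable {A : Type*} [CommGroup A]

/-- Seven elements. -/
structure Gn (A : Type*) where
  n1 : A
  n2 : A
  n3 : A
  z : A
  a : A
  c : A
  o : A

def io (x : Gn A) (v : V) : A :=
  x.n1 ^ v.a * x.n2 ^ v.b * x.n3 ^ v.c * x.z ^ v.d * x.a ^ v.e * x.c ^ v.f * x.o ^ v.g

variable {x : Gn A} {ε δ : Fin 2} {τ : A →* A} {N : Subgroup A}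

theorem io_add (v w : V) : io x (v.add w) = io x v * io x w := by
  simp only [io, V.add, pow_add]; ac_rfl

theorem io_smul (k : ℕ) (v : V) : io x (v.smul k) = io x v ^ k := by
  simp only [io, V.smul, pow_mul, mul_pow]

/-- `φ` has the matrix `m`. -/
structure Has (x : Gn A) (φ : A →* A) (m : Mx) : Prop where
  h1 : φ x.n1 = io x m.a
  h2 : φ x.n2 = io x m.b
  h3 : φ x.n3 = io x m.c
  h4 : φ x.z = io x m.d
  h5 : φ x.a = io x m.e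
  h6 : φ x.c = io x m.f
  h7 : φ x.o = io x m.g

theorem Has.app {φ : A →* A} {m : Mx} (h : Has x φ m) (v : V) : φ (io x v) = io x (act m v) := by
  simp only [act, io_add, io_smul, ← h.h1, ← h.h2, ← h.h3, ← h.h4, ← h.h5, ← h.h6, ← h.h7]
  simp only [io, map_mul, map_pow]

theorem io1 : io x e1 = x.n1 := by simp [io, e1]
theorem io2 : io x e2 = x.n2 := by simp [io, e2]
theorem io3 : io x e3 = x.n3 := by simp [io, e3]
theorem io4 : io x e4 = x.z := by simp [io, e4]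
theorem io5 : io x e5 = x.a := by simp [io, e5]
theorem io6 : io x e6 = x.c := by simp [io, e6]
theorem io7 : io x e7 = x.o := by simp [io, e7]

/-- The frame. -/
structure Fr (x : Gn A) (ε δ : Fin 2) (τ : A →* A) (N : Subgroup A) : Prop where
  s1 : x.n1 ^ 2 = x.z ^ (ε : ℕ)
  s2 : x.n2 ^ 2 = x.a ^ (ε : ℕ)
  s3 : x.n3 ^ 2 = x.c ^ (ε : ℕ)
  zz : x.z ^ 2 = 1
  aa : x.a ^ 2 = 1
  cc : x.c ^ 2 = 1
  oo : x.o ^ 2 = 1
  od : x.o ^ (δ : ℕ) = x.o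
  t1 : τ x.n1 = x.z
  t2 : τ x.n2 = x.a
  t3 : τ x.n3 = x.c
  t4 : τ x.z = 1
  t5 : τ x.a = 1
  t6 : τ x.c = 1
  t7 : τ x.o = 1
  ind : ∀ i j k l : ℕ, x.z ^ i * x.a ^ j * x.c ^ k * x.o ^ l = 1 →
    i % 2 = 0 ∧ j % 2 = 0 ∧ k % 2 = 0 ∧ δ * l % 2 = 0
  m1 : x.n1 ∈ N
  m2 : x.n2 ∈ N
  m3 : x.n3 ∈ N
  kA : ∀ u, τ u = 1 → ∃ i j k l : Fin 2, u = io x ⟨0, 0, 0, i, j, k, l⟩
  kN : ∀ u ∈ N, τ u = 1 → ∃ i j k : Fin 2, u = io x ⟨0, 0, 0, i, j, k, 0⟩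

theorem pow_mod {y : A} (h : y ^ 2 = 1) (n : ℕ) : y ^ (n % 2) = y ^ n := by
  conv_rhs => rw [← Nat.mod_add_div n 2, pow_add, pow_mul, h, one_pow, mul_one]

theorem pow_split {y w : A} {k : ℕ} (h : y ^ 2 = w ^ k) (n : ℕ) :
    y ^ n = y ^ (n % 2) * w ^ (k * (n / 2)) := by
  conv_lhs => rw [← Nat.mod_add_div n 2, pow_add, pow_mul, h, ← pow_mul]

namespace Fr
variable (h : Fr x ε δ τ N)
include h

theorem io_nf (v : V) : io x (nf ε δ v) = io x v := by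
  simp only [io, nf, pow_mod h.zz, pow_mod h.aa, pow_mod h.cc, pow_mod h.oo, pow_add]
  rw [pow_split h.s1 v.a, pow_split h.s2 v.b, pow_split h.s3 v.c, pow_mul x.o, h.od]
  ac_rfl

theorem tau (v : V) : τ (io x v) = x.z ^ v.a * x.a ^ v.b * x.c ^ v.c := by
  simp [io, h.t1, h.t2, h.t3, h.t4, h.t5, h.t6, h.t7]

theorem ind' {i j k l i' j' k' l' : ℕ}
    (e : x.z ^ i * x.a ^ j * x.c ^ k * x.o ^ l = x.z ^ i' * x.a ^ j' * x.c ^ k' * x.o ^ l') :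
    (i + i') % 2 = 0 ∧ (j + j') % 2 = 0 ∧ (k + k') % 2 = 0 ∧ δ * (l + l') % 2 = 0 := by
  refine h.ind _ _ _ _ ?_
  calc _ = (x.z ^ i * x.a ^ j * x.c ^ k * x.o ^ l) * (x.z ^ i' * x.a ^ j' * x.c ^ k' * x.o ^ l') := by
        simp only [pow_add]; ac_rfl
    _ = (x.z ^ 2) ^ i' * (x.a ^ 2) ^ j' * (x.c ^ 2) ^ k' * (x.o ^ 2) ^ l' := by
        rw [e]; simp only [pow_two, mul_pow]; ac_rfl
    _ = 1 := by simp [h.zz, h.aa, h.cc, h.oo]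

theorem inj {v w : V} (e : io x v = io x w) : nf ε δ v = nf ε δ w := by
  have e1 := congrArg τ e
  rw [h.tau, h.tau] at e1
  obtain ⟨a1, a2, a3, -⟩ := h.ind' (l := 0) (l' := 0) (by simpa using e1)
  have b1 : v.a % 2 = w.a % 2 := by omega
  have b2 : v.b % 2 = w.b % 2 := by omega
  have b3 : v.c % 2 = w.c % 2 := by omega
  rw [← h.io_nf v, ← h.io_nf w] at e
  simp only [io, nf, b1, b2, b3, mul_assoc, mul_right_inj] at e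
  simp only [← mul_assoc] at e
  obtain ⟨c1, c2, c3, c4⟩ := h.ind' e
  simp only [nf, b1, b2, b3, V.mk.injEq, true_and]
  refine ⟨by omega, by omega, by omega, ?_⟩
  fin_cases δ
  · simp
  · simp only [Nat.one_mul] at c4 ⊢
    omega

theorem eq_of {v w : V} (e : nf ε δ v = nf ε δ w) : io x v = io x w := by
  rw [← h.io_nf v, e, h.io_nf]

theorem liftA {u : A} {i j k : ℕ} (e : τ u = x.z ^ i * x.a ^ j * x.c ^ k) :
    ∃ p q r s : Fin 2, u = io x ⟨i, j, k, p, q, r, s⟩ := by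
  obtain ⟨p, q, r, s, e1⟩ := h.kA (u * (io x ⟨i, j, k, 0, 0, 0, 0⟩)⁻¹)
    (by rw [map_mul, map_inv, h.tau, e, mul_inv_cancel])
  exact ⟨p, q, r, s, by rw [mul_inv_eq_iff_eq_mul.1 e1, ← io_add]; simp [V.add]⟩

theorem liftN {u : A} (hu : u ∈ N) {i j k : ℕ} (e : τ u = x.z ^ i * x.a ^ j * x.c ^ k) :
    ∃ p q r : Fin 2, u = io x ⟨i, j, k, p, q, r, 0⟩ := by
  obtain ⟨p, q, r, e1⟩ := h.kN (u * (io x ⟨i, j, k, 0, 0, 0, 0⟩)⁻¹) (mul_mem hu (inv_mem (by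
    simpa [io] using mul_mem (mul_mem (pow_mem h.m1 i) (pow_mem h.m2 j)) (pow_mem h.m3 k))))
    (by rw [map_mul, map_inv, h.tau, e, mul_inv_cancel])
  exact ⟨p, q, r, by rw [mul_inv_eq_iff_eq_mul.1 e1, ← io_add]; simp [V.add]⟩

end Fr

/-- The three automorphisms. -/
structure Ac (x : Gn A) (δ : Fin 2) (τ : A →* A) (N : Subgroup A) (R G S : A →* A) : Prop where
  tR : ∀ u, τ (R u) = R (τ u)
  tG : ∀ u, τ (G u) = G (τ u)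
  tS : ∀ u, τ (S u) = S (τ u)
  nR : ∀ u ∈ N, R u ∈ N
  nG : ∀ u ∈ N, G u ∈ N
  r1 : R x.n1 = x.n1
  r2 : R x.n2 = x.n3
  r4 : R x.z = x.z
  r5 : R x.a = x.c
  r6 : R x.c = x.z * x.a * x.c
  r7 : R x.o = x.o
  g1 : G x.n1 = x.n2
  g4 : G x.z = x.a
  g5 : G x.a = x.z * x.a
  g6 : G x.c = x.c
  g7 : G x.o = x.o
  s4 : S x.z = x.z
  s5 : S x.a = x.a
  s6 : S x.c = x.z * x.a * x.c
  s7 : S x.o = x.z ^ (δ : ℕ) * x.o
  rel : ∀ u ∈ N, R (R (G u)) = R (G (R (G (R u))))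
  ss : ∀ u, S (S u) = u
  sr : ∀ u, S (R u) = R (R (S u))
  gb : ∀ u, G (G (S (G (G u)))) = G (S (G (G (S (G u)))))

theorem main {R G S : A →* A} (h : Fr x ε δ τ N) (c : Ac x δ τ N R G S) :
    R x.n3 = x.n1 * x.n2 * x.n3 * (x.a * x.c) ^ (ε : ℕ) ∧
    G x.n2 = x.n1 * x.n2 * (x.z * x.a * x.c) ^ (ε : ℕ) ∧ G x.n3 = x.n3 ∧
    S x.n1 = x.n1 * x.z ^ (ε : ℕ) ∧ S x.n2 = x.n2 * x.a ^ (ε : ℕ) ∧
    S x.n3 = x.n1 * x.n2 * x.n3 * x.z ^ (ε : ℕ) ∧ G (S (G (G x.n1))) = x.n1 ∧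
    R (G (S (G (G (R (R x.n2)))))) = x.n1 * x.n2 * (x.z * x.a * x.c) ^ (ε : ℕ) := by
  obtain ⟨i, j, k, a1⟩ := h.liftN (c.nR _ h.m3) (i := 1) (j := 1) (k := 1)
    (by rw [c.tR, h.t3, c.r6]; simp)
  obtain ⟨i', j', k', a2⟩ := h.liftN (c.nG _ h.m2) (i := 1) (j := 1) (k := 0)
    (by rw [c.tG, h.t2, c.g5]; simp)
  obtain ⟨i'', j'', k'', a3⟩ := h.liftN (c.nG _ h.m3) (i := 0) (j := 0) (k := 1)
    (by rw [c.tG, h.t3, c.g6]; simp)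
  obtain ⟨p, q, r, s, a4⟩ := h.liftA (u := S x.n1) (i := 1) (j := 0) (k := 0)
    (by rw [c.tS, h.t1, c.s4]; simp)
  obtain ⟨p', q', r', s', a5⟩ := h.liftA (u := S x.n2) (i := 0) (j := 1) (k := 0)
    (by rw [c.tS, h.t2, c.s5]; simp)
  have hR : Has x R (mR i j k) := ⟨c.r1.trans io1.symm, c.r2.trans io3.symm, a1,
    c.r4.trans io4.symm, c.r5.trans io6.symm, c.r6.trans (by simp [io, mR]), c.r7.trans io7.symm⟩
  have hG : Has x G (mG i' j' k' i'' j'' k'') := ⟨c.g1.trans io2.symm, a2, a3,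
    c.g4.trans io5.symm, c.g5.trans (by simp [io, mG]), c.g6.trans io6.symm, c.g7.trans io7.symm⟩
  have p1 : ∀ u, io x u ∈ N → P1 ε δ (mR i j k) (mG i' j' k' i'' j'' k'') u := fun u hu =>
    h.inj (by simpa only [hR.app, hG.app] using c.rel _ hu)
  obtain ⟨rfl, rfl, rfl, rfl, rfl, rfl, rfl, rfl, rfl⟩ := key1 ε δ i j k i' j' k' i'' j'' k''
    (p1 _ (io1 (x := x) ▸ h.m1)) (p1 _ (io2 (x := x) ▸ h.m2)) (p1 _ (io3 (x := x) ▸ h.m3))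
  have hS : Has x S (mS _ δ p q r s p' q' r' s') := ⟨a4, a5,
    by rw [← c.r2, c.sr, a5, hR.app, hR.app]; rfl, c.s4.trans io4.symm, c.s5.trans io5.symm,
    c.s6.trans (by simp [io, mS]), c.s7.trans (by simp [io, mS])⟩
  have hR' : Has x R (mR 0 _ _) := hR
  have hG' : Has x G (mG _ _ _ 0 0 0) := hG
  obtain ⟨b1, b2, b3, b4, b5⟩ := key2 _ δ p q r s p' q' r' s'
    ⟨h.inj (by simpa only [hS.app] using c.ss (io x e1)),
      h.inj (by simpa only [hS.app] using c.ss (io x e3)),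
      h.inj (by simpa only [hS.app, hG'.app] using c.gb (io x e1))⟩
  have d1 := h.eq_of b1
  have d2 := h.eq_of b2
  have d3 := h.eq_of b3
  have d4 := h.eq_of b4
  have d5 := h.eq_of b5
  simp only [← hR'.app, ← hG'.app, ← hS.app, io1, io2, io3] at d1 d2 d3 d4 d5
  refine ⟨a1.trans ?_, a2.trans ?_, a3.trans ?_, d1.trans ?_, d2.trans ?_, d3.trans ?_, d4,
    d5.trans ?_⟩ <;> simp [io, mul_pow, mul_assoc]

end H73.G3S
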