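import Cfsg.Agent.H51.KLGeo
/-! Tower KL, job IC: two orbits on lines, one of them with a small group. -/
set_option autoImplicit false

namespace H73.KL
open Module Submodule H53.CK H51.KL
open scoped Pointwise
universe u v

variable {F : Type u} [Field F] {V : Type v} [AddCommGroup V] [Module F V]
  {K : Subgroup (V ≃ₗ[F] V)} {D : V → V → Prop}

theorem ind_of_dual {φ : Dual F V} {z y : V} (hz : z ≠ 0) (h0 : φ z = 0) (h1 : φ y ≠ 0) :
    Ind F z y := ⟨hz, fun h => by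
  obtain ⟨c, rfl⟩ := mem_span_singleton.1 h
  exact h1 (by rw [map_smul, h0, smul_zero])⟩

theorem ind_symm {x y : V} (h : Ind F x y) : Ind F y x :=
  ⟨fun e => h.2 (e ▸ zero_mem _), H62.notMem_span_symm h.1 h.2⟩

theorem mem_l (x y : V) : x ∈ span F {x, y} := subset_span (by simp)
theorem mem_r (x y : V) : y ∈ span F {x, y} := subset_span (by simp)

theorem apply_mem_Tl {φ : Dual F V} {x : V} (h : φ ∈ Tv K x) (y : V) : φ y ∈ Tl K x y := by
  obtain ⟨h0, g, hg, e⟩ := h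
  exact ⟨g, hg, by rw [e, h0, zero_smul, add_zero], e y⟩

/-- a line meets a hyperplane -/
theorem exists_ker (φ : Dual F V) {y w : V} (h : Ind F y w) (hy : φ y ≠ 0) :
    ∃ z ∈ span F {y, w}, z ≠ 0 ∧ φ z = 0 :=
  ⟨w - (φ w / φ y) • y, sub_mem (mem_r _ _) (smul_mem _ _ (mem_l _ _)),
    fun e => h.2 (sub_eq_zero.1 e ▸ smul_mem _ _ (mem_span_singleton_self y)),
    by rw [map_sub, map_smul, smul_eq_mul, div_mul_cancel₀ _ hy, sub_self]⟩

theorem D_symm (L : LC K D) {x y : V} (h : D x y) : D y x :=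
  L.congr x y y x h (ind_symm (L.ind x y h)) (mem_r _ _) (mem_l _ _)

theorem exists_D (L : LC K D) (hT : PT K) {x : V} (hx : x ≠ 0) : ∃ y, D x y := by
  obtain ⟨a, b, h⟩ := L.ex
  obtain ⟨g, hg, rfl⟩ := hT a x (L.ind a b h).1 hx
  exact ⟨_, L.map g hg a b h⟩

/-- a transvection moves a line through `y` to a line through the same point of the axis -/
theorem tv_step (L : LC K D) {φ : Dual F V} {x y w : V} (h : φ ∈ Tv K x) (hy : φ y ≠ 0)
    (d : D y w) : ∃ z ∈ span F {y, w}, D z y ∧ D z (y + φ y • x) := by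
  obtain ⟨z, hz, z0, e⟩ := exists_ker φ (L.ind y w d) hy
  have d1 := L.congr y w z y d (ind_of_dual z0 e hy) hz (mem_l _ _)
  obtain ⟨-, g, hg, k⟩ := h
  have := L.map g hg z y d1
  rw [k, k, e, zero_smul, add_zero] at this
  exact ⟨z, hz, d1, this⟩

theorem mem_of_add {U : Submodule F V} {c : F} {x y : V} (hc : c ≠ 0) (hy : y ∈ U)
    (h : y + c • x ∈ U) : x ∈ U := (smul_mem_iff U hc).1 ((U.add_mem_iff_right hy).1 h)

section first

/-- the span of the `D`-lines through `x` -/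
def UU (F : Type u) [Field F] {V : Type v} [AddCommGroup V] [Module F V] (D : V → V → Prop)
    (x : V) : Submodule F V := span F (insert x {y | D x y})

theorem self_mem (x : V) : x ∈ UU F D x := subset_span (Or.inl rfl)

theorem mem_of_D {x y : V} (h : D x y) : y ∈ UU F D x := subset_span (Or.inr h)

theorem UU_map (L : LC K D) {g : V ≃ₗ[F] V} (hg : g ∈ K) {x y : V} (h : y ∈ UU F D x) :
    g y ∈ UU F D (g x) := by
  have : UU F D x ≤ (UU F D (g x)).comap (g : V →ₗ[F] V) := span_le.2 <| by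
    rintro z (rfl | hz)
    exacts [self_mem _, mem_of_D (L.map g hg _ _ hz)]
  exact this h

theorem UU_le (L : LC K D) {x x' : V} (hx : x ≠ 0) (h : x' ∈ F ∙ x) (hx' : x' ≠ 0) :
    UU F D x' ≤ UU F D x := span_le.2 <| by
  obtain ⟨c, rfl⟩ := mem_span_singleton.1 h
  have hc : c ≠ 0 := fun e => hx' (by rw [e, zero_smul])
  rintro z (rfl | hz)
  · exact smul_mem _ _ (self_mem _)
  · exact mem_of_D (L.congr _ _ _ _ hz ⟨hx, by
      rw [← span_singleton_smul_eq (IsUnit.mk0 c hc)]; exact (L.ind _ _ hz).2⟩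
      ((smul_mem_iff _ hc).1 (mem_l _ _)) (mem_r _ _))

theorem UU_out (L : LC K D) {x y x' y' : V} (hx : x ≠ 0) (hx' : x' ≠ 0) (h1 : y ∉ F ∙ x)
    (h2 : ¬ D x y) (h' : y' ∉ UU F D x') : ∃ g ∈ K, UU F D (g x) ≤ UU F D x' ∧ g y ∈ F ∙ y' := by
  obtain ⟨g, hg, e1, e2⟩ := L.out x y x' y' ⟨hx, h1⟩ h2 ⟨hx', fun k => h'
    ((span_singleton_le_iff_mem _ _).2 (self_mem _) k)⟩ fun k => h' (mem_of_D k)
  exact ⟨g, hg, UU_le L hx' e1 (by simpa using hx), e2⟩

variable (L : LC K D) (h1 : ∀ x y, D x y → Tl K x y = ⊥) (h2 : ∀ x, x ≠ 0 → Tv K x ≠ ⊥)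
include L h1 h2

omit L in
theorem exists_tv {x : V} (hx : x ≠ 0) : ∃ φ ∈ Tv K x, ∃ y, φ y ≠ 0 ∧ y ∉ UU F D x := by
  obtain ⟨φ, hφ, n⟩ := (Tv K x).bot_or_exists_ne_zero.resolve_left (h2 x hx)
  obtain ⟨y, hy⟩ := DFunLike.ne_iff.1 n
  have : UU F D x ≤ LinearMap.ker φ := span_le.2 <| by
    rintro z (rfl | hz)
    exacts [hφ.1, AddSubgroup.mem_bot.1 (h1 _ _ hz ▸ apply_mem_Tl hφ z)]
  exact ⟨φ, hφ, y, hy, fun k => hy (this k)⟩

theorem D_of_mem {x y : V} (hx : x ≠ 0) (h : y ∈ UU F D x) (n : y ∉ F ∙ x) : D x y := by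
  by_contra d
  obtain ⟨-, -, y', -, hy'⟩ := exists_tv h1 h2 hx
  obtain ⟨g, hg, e1, e2⟩ := UU_out L hx hx n d hy'
  obtain ⟨c, hc⟩ := mem_span_singleton.1 e2
  refine hy' ((smul_mem_iff _ (fun e : c = 0 => n ?_)).1 (hc ▸ e1 (UU_map L hg h)))
  rw [e, zero_smul, eq_comm, g.map_eq_zero_iff] at hc
  exact hc ▸ zero_mem _

theorem UU_symm {x y : V} (hx : x ≠ 0) (hy : y ≠ 0) (h : y ∈ UU F D x) : x ∈ UU F D y := by
  by_cases n : y ∈ F ∙ x
  · exact (span_singleton_le_iff_mem _ _).2 (self_mem y)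
      (by_contra fun k => H62.notMem_span_symm hy k n)
  · exact mem_of_D (D_symm L (D_of_mem L h1 h2 hx h n))

theorem meet {a b v : V} (d : D a b) (hv : v ≠ 0) (n : a ∉ UU F D v) :
    ∃ c : F, b + c • a ∈ UU F D v := by
  obtain ⟨φ, hφ, y, hy, hy'⟩ := exists_tv h1 h2 hv
  obtain ⟨g, hg, e1, e2⟩ := L.out v y v a (ind_of_dual hv hφ.1 hy) (fun k => hy' (mem_of_D k))
    ⟨hv, fun k => n ((span_singleton_le_iff_mem _ _).2 (self_mem _) k)⟩ fun k => n (mem_of_D k)
  have y0 : g y ≠ 0 := by simpa using (ind_symm (ind_of_dual hv hφ.1 hy)).1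
  obtain ⟨c, hc⟩ := mem_span_singleton.1 e2
  have c0 : c ≠ 0 := fun e => y0 (by rw [← hc, e, zero_smul])
  have d1 : D (g y) b := L.congr a b _ _ d ⟨y0, by
    rw [← hc, span_singleton_smul_eq (IsUnit.mk0 c c0)]; exact (L.ind _ _ d).2⟩
    (hc ▸ smul_mem _ _ (mem_l _ _)) (mem_r _ _)
  have d2 := L.map _ (K.inv_mem hg) _ _ d1
  rw [show g⁻¹ (g y) = y from g.symm_apply_apply y] at d2
  obtain ⟨z, hz, z1, z2⟩ := tv_step L hφ hy d2
  have k := UU_le L hv e1 (by simpa using hv) (UU_map L hg (UU_symm L h1 h2 (L.ind _ _ z1).1 hv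
    (mem_of_add hy (mem_of_D z1) (mem_of_D z2))))
  obtain ⟨s, t, rfl⟩ := mem_span_pair.1 hz
  rw [map_add, map_smul, map_smul, show g (g⁻¹ b) = b from g.apply_symm_apply b, ← hc,
    smul_smul] at k
  have t0 : t ≠ 0 := fun e => by
    have := (L.ind _ _ (D_symm L z1)).2
    rw [e, zero_smul, add_zero] at this
    exact this (smul_mem _ _ (mem_span_singleton_self y))
  refine ⟨t⁻¹ * (s * c), ?_⟩
  have := smul_mem _ t⁻¹ k
  rwa [smul_add, smul_smul, inv_smul_smul₀ t0, add_comm] at this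

theorem first [Finite F] [FiniteDimensional F V] (hT : PT K) : NullPol K := by
  have := finV F V
  have := Fintype.ofFinite F
  refine ⟨UU F D, fun a ha => ?_, self_mem, fun x y => UU_symm L h1 h2,
    fun g hg x y _ => UU_map L hg⟩
  obtain ⟨b, d⟩ := exists_D L hT ha
  let f : Option F → V := fun o => o.elim a fun c => b + c • a
  have f0 : ∀ o, f o ≠ 0 := by
    rintro (_ | c)
    exacts [ha, fun e => (L.ind a b d).2 (eq_neg_of_add_eq_zero_left e ▸
      neg_mem (smul_mem _ _ (mem_span_singleton_self a)))]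
  obtain ⟨o, -, -, ho⟩ := AddSubgroup.exists_index_le_card_of_leftCoset_cover
    (s := (Finset.univ : Finset (Option F))) (H := fun o => (UU F D (f o)).toAddSubgroup)
    (g := fun _ => 0) (Set.eq_univ_of_forall fun v => by
      simp only [Finset.mem_univ, Set.iUnion_true, zero_vadd, Set.mem_iUnion]
      by_cases hv : v = 0
      · exact ⟨none, hv ▸ zero_mem _⟩
      by_cases n : a ∈ UU F D v
      · exact ⟨none, UU_symm L h1 h2 hv ha n⟩
      obtain ⟨c, hc⟩ := meet L h1 h2 d hv n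
      exact ⟨some c, UU_symm L h1 h2 hv (f0 (some c)) hc⟩)
  have e := (UU F D (f o)).toAddSubgroup.card_mul_index
  rw [Finset.card_univ, Fintype.card_option, ← Nat.card_eq_fintype_card] at ho
  obtain ⟨g, hg, k⟩ := hT (f o) a (f0 o) ha
  have r : finrank F (UU F D (f o)) ≤ finrank F (UU F D a) := by
    rw [← g.finrank_map_eq]
    refine finrank_mono ?_
    rintro _ ⟨y, hy, rfl⟩
    exact k ▸ UU_map L hg hy
  obtain ⟨-, -, y, -, hy⟩ := exists_tv h1 h2 ha
  have lt := finrank_lt (s := UU F D a) fun e => hy (e ▸ mem_top)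
  have q := Finite.one_lt_card (α := F)
  change Nat.card (UU F D (f o)) * _ = _ at e
  rw [natCard_eq_pow_finrank (K := F), natCard_eq_pow_finrank (K := F) (V := V)] at e
  by_contra ne
  have k1 := Nat.pow_le_pow_right q.le (show finrank F (UU F D (f o)) + 2 ≤ finrank F V by omega)
  rw [← e, pow_add] at k1
  have := Nat.le_of_mul_le_mul_left k1 (by positivity)
  nlinarith

end first

theorem second [Finite F] [FiniteDimensional F V] (L : LC K D) (hT : PT K) (h3 : 3 ≤ finrank F V)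
    (h4 : Nat.card F = 4) (h1 : ∀ x y, D x y → Nat.card (Tl K x y) ≤ 2)
    (h2 : ∀ x, x ≠ 0 → 4 ^ (finrank F V - 1) ≤ 2 * Nat.card (Tv K x)) : False := by
  have := finV F (Dual F V)
  have nt : ∀ {x y}, D x y → ∃ c, c ∉ Tl K x y := fun {x y} d => by
    by_contra! k
    have := h1 x y d
    rw [(AddSubgroup.eq_top_iff' _).2 k, AddSubgroup.card_top] at this
    omega
  have uq : ∀ {x y y'}, D x y → D x y' → y' ∈ span F {x, y} := fun {x y y'} d d' => by
    by_contra n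
    have i := L.ind x y d
    have n' : y ∉ span F {x, y'} := fun k =>
      n (span_eq_of_ind i (mem_l _ _) k ▸ mem_r x y')
    obtain ⟨c, hc⟩ := nt d
    obtain ⟨c', hc'⟩ := nt d'
    obtain ⟨α, a1, a0⟩ := H62.exists_dual_eq_one n'
    obtain ⟨β, b1, b0⟩ := H62.exists_dual_eq_one n
    obtain ⟨φ₀, h0⟩ := H62.exists_dual_of_ne_zero (F := F) i.1
    let δ : Fin 3 → Dual F V := ![0, c • α, c' • β]
    have d0 : ∀ j, δ j x = 0 := fun j => by
      fin_cases j <;> simp [δ, a0 x (mem_l _ _), b0 x (mem_l _ _)]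
    have di : ∀ i j, δ i - δ j ∈ Tv K x → i = j := fun i j k => by
      have k1 := apply_mem_Tl k y
      have k2 := apply_mem_Tl k y'
      fin_cases i <;> fin_cases j <;>
        simp_all [δ, a0 y' (mem_r _ _), b0 y (mem_r _ _)]
    have := Nat.card_le_card_of_injective
      (fun p : Tv K x × Fin 3 => (⟨φ₀ + p.1.1 + δ p.2, by simp [h0, d0, p.1.2.1]⟩ :
        {φ : Dual F V | φ x = 1})) fun p p' e => by
      have e1 : φ₀ + p.1.1 + δ p.2 = φ₀ + p'.1.1 + δ p'.2 := congrArg Subtype.val e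
      have e2 := di p.2 p'.2 (by
        rw [show δ p.2 - δ p'.2 = p'.1.1 - p.1.1 by linear_combination (norm := abel) e1]
        exact sub_mem p'.1.2 p.1.2)
      rw [e2, add_left_inj, add_right_inj] at e1
      exact Prod.ext (Subtype.ext e1) e2
    rw [Nat.card_coe_set_eq, card_dual_one i.1, h4, Nat.card_prod, Nat.card_eq_fintype_card (α := Fin 3),
      Fintype.card_fin] at this
    have := h2 x i.1
    have : 0 < Nat.card (Tv K x) := Nat.card_pos
    omega
  obtain ⟨x, w, d⟩ := L.ex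
  have hx := (L.ind x w d).1
  obtain ⟨φ, hφ, n⟩ := (Tv K x).bot_or_exists_ne_zero.resolve_left fun e => by
    have := h2 x hx
    rw [e, AddSubgroup.card_bot] at this
    have := Nat.pow_le_pow_right (show 0 < 4 by omega) (show 1 ≤ finrank F V - 1 by omega)
    omega
  have all : ∀ y, φ y ≠ 0 → D x y := fun y hy => by
    obtain ⟨y', d'⟩ := exists_D L hT (ind_symm (ind_of_dual hx hφ.1 hy)).1
    obtain ⟨z, -, z1, z2⟩ := tv_step L hφ hy d'
    exact L.congr z y x y z1 (ind_of_dual hx hφ.1 hy) (mem_of_add hy (mem_r _ _) (uq z1 z2))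
      (mem_r _ _)
  obtain ⟨y, hy⟩ := DFunLike.ne_iff.1 n
  obtain ⟨v, -, hv⟩ := exists_ind3 h3 (ind_of_dual hx hφ.1 hy)
  by_cases k : φ v = 0
  · exact hv ((Submodule.add_mem_iff_right _ (mem_r x y)).1
      (uq (all y hy) (all (y + v) (by rwa [map_add, k, add_zero]))))
  · exact hv (uq (all y hy) (all v k))

theorem jobIc : JobIc.{u, v} := fun _ _ _ _ _ _ _ _ _ _ hT h3 L h =>
  h.elim (fun h => first L h.1 h.2 hT) fun h => (second L hT h3 h.1 h.2.1 h.2.2).elim

end H73.KL
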