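import Cfsg.Agent.H51.KSSpec

/-! Tower KS, job `JobH`. -/

set_option autoImplicit false

namespace H73.KS

open Module Submodule H53.CK H51.KL H51.KS H54

universe u v

variable {F : Type u} [Field F] {V : Type v} [AddCommGroup V] [Module F V]
  {B : LinearMap.BilinForm F V} {K : Subgroup (V ≃ₗ[F] V)} {W : Submodule F V} {x y z e f w : V}
  {g h : V ≃ₗ[F] V}

/-- `W` is a hyperbolic line modulo its radical, which `z` spans -/
structure Pl (B : LinearMap.BilinForm F V) (W : Submodule F V) (z : V) : Prop where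
  perp : ∀ v ∈ W, B v z = 0
  two : ∀ w ∈ W, w ∉ F ∙ z → ∀ v ∈ W, B v w = 0 → v ∈ span F {w, z}

theorem pl3 (hA : B.IsAlt) (h : B x y ≠ 0) (h1 : B x z = 0) (h2 : B y z = 0) :
    Pl B (span F {x, y, z}) z := by
  refine ⟨fun v hv => ?_, fun w hw h3 v hv h4 => ?_⟩
  · obtain ⟨a, b, c, rfl⟩ := mem_span_triple.1 hv
    simp [h1, h2, hA.self_eq_zero]
  obtain ⟨a, b, c, rfl⟩ := mem_span_triple.1 hw
  obtain ⟨a', b', c', rfl⟩ := mem_span_triple.1 hv
  have h5 : a' * b = b' * a := by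
    simp only [map_add, map_smul, LinearMap.add_apply, LinearMap.smul_apply, smul_eq_mul, h1, h2,
      hA.self_eq_zero, ← hA.neg_eq x y, ← hA.neg_eq x z, ← hA.neg_eq y z] at h4
    exact mul_right_cancel₀ h (by linear_combination h4)
  by_cases ha : a = 0
  · have hb : b ≠ 0 := fun hb => h3 (by simp [ha, hb, smul_mem])
    obtain rfl : a' = 0 := by simpa [ha, hb] using h5
    exact mem_span_pair.2 ⟨b' / b, c' - b' / b * c, by
      rw [ha]; match_scalars <;> field_simp <;> ring⟩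
  · obtain rfl : b' = a' * b / a := by rw [h5]; field_simp
    exact mem_span_pair.2 ⟨a' / a, c' - a' / a * c, by match_scalars <;> field_simp <;> ring⟩

theorem sp0 : span F {x, y, 0} = span F {x, y} := by
  rw [H38.KL.span_triple]; simp

theorem pl2 (hA : B.IsAlt) (h : B x y ≠ 0) : Pl B (span F {x, y}) 0 :=
  sp0 (F := F) (x := x) (y := y) ▸ pl3 hA h (map_zero _) (map_zero _)

theorem rad0 (hA : B.IsAlt) (h : B x y ≠ 0) (hw : w ∈ span F {x, y}) (h1 : B x w = 0)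
    (h2 : B y w = 0) : w = 0 := by
  obtain ⟨a, b, rfl⟩ := mem_span_pair.1 hw
  simp only [map_add, map_smul, smul_eq_mul, hA.self_eq_zero, ← hA.neg_eq x y] at h1 h2
  rw [show a = 0 by simpa [h] using h2, show b = 0 by simpa [h] using h1]
  simp

theorem sm_mem (hg : Sm g W) (hw : w ∈ W) : g w ∈ W := by
  simpa using add_mem (hg w) hw

theorem Pl.fx (P : Pl B W z) (hK : K ≤ Isom B) (N : No2 B K) (hh : h ∈ smGrp K W) (hw : w ∈ W)
    (h1 : w ∉ F ∙ z) (h2 : h w = w) : h = 1 :=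
  N w z (P.perp w hw) h hh.1 fun v => P.two w hw h1 _ (hh.2 v) (perp_of_fix (hK hh.1) h2 v)

/-- independent modulo `z` -/
def Id2 (F : Type u) [Field F] {V : Type v} [AddCommGroup V] [Module F V] (z e f : V) : Prop :=
  ∀ α β : F, α • e + β • f ∈ F ∙ z → α = 0 ∧ β = 0

theorem Id2.symm (h : Id2 F z e f) : Id2 F z f e := fun a b k => (h b a (by rwa [add_comm])).symm

theorem Id2.left (h : Id2 F z e f) : e ∉ F ∙ z := fun k =>
  one_ne_zero (h 1 0 (by simpa using k)).1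

theorem Pl.k0 (P : Pl B W z) (hK : K ≤ Isom B) (N : No2 B K) (hh : h ∈ smGrp K W) (he : e ∈ W)
    (hf : f ∈ W) (hi : Id2 F z e f) (h1 : h e - e ∈ F ∙ z) (h2 : h f - f ∈ F ∙ z) : h = 1 := by
  obtain ⟨a, ha⟩ := mem_span_singleton.1 h1
  obtain ⟨b, hb⟩ := mem_span_singleton.1 h2
  by_cases a0 : a = 0
  · exact P.fx hK N hh he hi.left (sub_eq_zero.1 (by rw [← ha, a0, zero_smul]))
  · refine P.fx hK N hh (add_mem (smul_mem _ b he) (smul_mem _ (-a) hf))
      (fun h3 => a0 (neg_eq_zero.1 (hi _ _ h3).2)) ?_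
    rw [map_add, map_smul, map_smul]
    linear_combination (norm := module) (-b) • ha + a • hb

theorem Pl.ul (P : Pl B W z) (hK : K ≤ Isom B) (N : No2 B K) (hh : h ∈ smGrp K W) (h0 : h ≠ 1)
    (he : e ∈ W) (hf : f ∈ W) (hi : Id2 F z e f) (h1 : h e - e ∈ F ∙ z) :
    ∃ a : F, a ≠ 0 ∧ h f - f - a • e ∈ F ∙ z := by
  obtain ⟨c, hc⟩ := mem_span_singleton.1 h1
  have h2 : B (h f - f) e = 0 := by
    have h3 := hK hh.1 f e
    rw [← eq_add_of_sub_eq hc.symm |>.symm, map_add, map_smul, P.perp _ (sm_mem hh.2 hf)] at h3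
    simpa [sub_eq_zero] using h3
  obtain ⟨a, b, hab⟩ := mem_span_pair.1 (P.two e he hi.left _ (hh.2 f) h2)
  have : h f - f - a • e ∈ F ∙ z := by rw [← hab]; simp [smul_mem]
  exact ⟨a, fun a0 => h0 (P.k0 hK N hh he hf hi h1 (by simpa [a0] using this)), this⟩

theorem Pl.sp (P : Pl B W z) (he : e ∈ W) (hf : f ∈ W) (h : B e f ≠ 0) (hw : w ∈ W) :
    w ∈ span F {e, f, z} := by
  obtain ⟨a, b, hab⟩ := mem_span_pair.1 (P.two f hf (fun h1 => h (by
    obtain ⟨c, rfl⟩ := mem_span_singleton.1 h1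
    simp [P.perp e he])) (w - (B w f / B e f) • e) (sub_mem hw (smul_mem _ _ he)) (by simp [h]))
  exact mem_span_triple.2 ⟨B w f / B e f, a, b, by rw [add_assoc, hab]; simp⟩

theorem nf (hA : B.IsAlt) (hK : K ≤ Isom B) (N : No2 B K) (h : B x y ≠ 0)
    (hg : g ∈ smGrp K (span F {x, y})) (h1 : g ≠ 1) : ∀ v ∈ span F {x, y}, g v = v → v = 0 :=
  fun _ hv h2 => by_contra fun h3 => h1 ((pl2 hA h).fx hK N hg hv (by simpa using h3) h2)

theorem nil {u : Module.End F V} {Z : Submodule F V} (hu : ∀ v ∈ W, u v ∈ W) (n : ℕ) :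
    ∀ v ∈ W, v ∉ Z → (u ^ n) v ∈ Z → ∃ w ∈ W, w ∉ Z ∧ u w ∈ Z := by
  induction n with
  | zero => exact fun v _ h1 h2 => absurd h2 h1
  | succ n ih =>
    intro v h0 h1 h2
    by_cases h3 : u v ∈ Z
    exacts [⟨v, h0, h1, h3⟩, ih _ (hu v h0) h3 (by rwa [pow_succ] at h2)]

variable [Finite F] [FiniteDimensional F V]

theorem surj (hg : Sm g W) (h : ∀ v ∈ W, g v = v → v = 0) (hw : w ∈ W) : ∃ v ∈ W, g v - v = w := by
  have := finV F V
  obtain ⟨v, hv⟩ := Finite.surjective_of_injective (f := fun v : W => (⟨g v - v, hg v⟩ : W))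
    (fun a b e => Subtype.ext (sub_eq_zero.1 (h _ (sub_mem a.2 b.2) (by
      rw [map_sub]; linear_combination (norm := module) congrArg Subtype.val e)))) ⟨w, hw⟩
  exact ⟨v, v.2, congrArg Subtype.val hv⟩

/-- an invariant functional -/
theorem psi (E : JobE.{u, v}) (S : Sy B) (hK : K ≤ Isom B) (N : No2 B K) (P : Pl B W z)
    (hz : z ≠ 0) (hx : x ∈ W) (hx' : x ∉ F ∙ z) (hg : g ∈ smGrp K W)
    (hI : ∀ w ∈ W, w ∉ F ∙ z → Id2 F z w (g w)) :
    ∃ ψ : Dual F V, ψ z ≠ 0 ∧ ∀ k ∈ smGrp K W, ∀ v ∈ W, ψ (k v) = ψ v := by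
  have := finGL F V
  have fz : ∀ k ∈ smGrp K W, ∀ t ∈ F ∙ z, k t = t := fun k hk t ht => by
    obtain ⟨c, rfl⟩ := mem_span_singleton.1 ht
    rw [map_smul, hk.2.fix S (hK hk.1) P.perp]
  have mz := mem_span_singleton_self (R := F) z
  obtain ⟨φ, hφ⟩ := H62.exists_dual_of_ne_zero (F := F) hz
  by_cases h0 : (Nat.card (smGrp K W) : F) = 0
  swap
  · have := Fintype.ofFinite (smGrp K W)
    refine ⟨∑ k : smGrp K W, φ ∘ₗ (k.1 : V →ₗ[F] V), ?_, fun k hk v _ => ?_⟩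
    · have : ∀ k : smGrp K W, φ (k.1 z) = 1 := fun k => by rw [fz _ k.2 z mz, hφ]
      rw [Nat.card_eq_fintype_card] at h0
      simpa [this] using h0
    · simp only [LinearMap.sum_apply]
      exact Equiv.sum_comp (Equiv.mulRight (⟨k, hk⟩ : smGrp K W)) fun l : smGrp K W => φ (l.1 v)
  obtain ⟨p, hp⟩ := CharP.exists F
  have : Fact p.Prime := ⟨CharP.char_is_prime F p⟩
  obtain ⟨h, hh⟩ := exists_prime_orderOf_dvd_card' p ((CharP.cast_eq_zero_iff F p _).1 h0)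
  have h1 : h.1 ≠ 1 := fun e => by
    rw [show h = 1 from Subtype.ext e, orderOf_one] at hh
    exact (Fact.out : p.Prime).one_lt.ne hh
  have : Nontrivial V := ⟨_, _, hz⟩
  have : CharP (Module.End F V) p := charP_of_injective_algebraMap' F p
  have h2 : ((h.1 : Module.End F V) - 1) ^ p = 0 := by
    have e : (h.1 : Module.End F V) ^ p = 1 := by
      have := congrArg (fun k : smGrp K W => LinearEquiv.automorphismGroup.toLinearMapMonoidHom k.1)
        (pow_orderOf_eq_one h)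
      simp only [hh, Subgroup.coe_pow, map_pow, Subgroup.coe_one, map_one] at this
      exact this
    rw [sub_pow_char_of_commute _ (Commute.one_right _), e, one_pow, sub_self]
  obtain ⟨w, hw, w0, w1⟩ := nil (u := (h.1 : Module.End F V) - 1) (fun v _ => h.2.2 v) p x hx hx'
    (by simp [h2])
  replace w1 : h.1 w - w ∈ F ∙ z := w1
  have hi := hI w hw w0
  have hf := sm_mem hg.2 hw
  have hs := mul_mem (mul_mem hg h.2) (inv_mem hg)
  have w2 : (g * h.1 * g⁻¹) (g w) - g w ∈ F ∙ z := by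
    rw [LinearEquiv.mul_apply, H38.KL.inv_app, LinearEquiv.mul_apply, ← map_sub, fz g hg _ w1]
    exact w1
  obtain ⟨a, a0, ha⟩ := P.ul hK N h.2 h1 hw hf hi w1
  obtain ⟨b, b0, hb⟩ := P.ul hK N hs (fun e => h1 (by simpa using e)) hf hw hi.symm w2
  obtain ⟨j, hj, j1, j2⟩ := E F V (smGrp K W) (F ∙ z) w (g w) a b S.two a0 b0 hi
    (fun k hk t ht => (fz k hk t ht).symm ▸ ht) _ h.2 _ hs w1 ha w2 hb
  have j3 : ∀ v ∈ W, j v + v ∈ F ∙ z := fun v hv => by
    obtain ⟨α, β, γ, rfl⟩ := mem_span_triple.1 (P.sp hf hw (fun k => by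
      obtain ⟨c, d, hc⟩ := mem_span_pair.1 (P.two w hw w0 _ hf k)
      exact one_ne_zero (hi (-c) 1 (by rw [← hc]; simp [smul_mem])).2) hv)
    have := add_mem (add_mem (smul_mem _ α j2) (smul_mem _ β j1)) (smul_mem _ (2 * γ) mz)
    rw [map_add, map_add, map_smul, map_smul, map_smul, fz j hj z mz]
    convert this using 1
    module
  refine ⟨φ ∘ₗ ((j : V →ₗ[F] V) + 1), by simp [fz j hj z mz, hφ, one_add_one_eq_two, S.two],
    fun k hk v hv => ?_⟩
  have hc := inv_mem (mul_mem hk hj)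
  have j4 : ∀ v ∈ W, ((k * j)⁻¹ * (j * k)) v - v ∈ F ∙ z := fun v hv => by
    have h3 := sub_mem (j3 _ (sm_mem hk.2 hv)) (j3 v hv)
    have h4 := fz k hk _ (j3 v hv)
    rw [← fz _ hc _ h3, ← h4, map_add k, add_sub_add_right_eq_sub, map_sub,
      ← LinearEquiv.mul_apply k j, H38.KL.inv_app] at h3
    exact h3
  have j5 := inv_mul_eq_one.1 (P.k0 hK N (mul_mem hc (mul_mem hj hk)) hw hf hi (j4 w hw) (j4 _ hf))
  show φ (j (k v) + k v) = φ (j v + v)
  rw [← LinearEquiv.mul_apply j k, ← j5, LinearEquiv.mul_apply, ← map_add k, fz k hk _ (j3 v hv)]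

/-- a unique invariant family of hyperbolic lines -/
theorem hs_of (HS : JobHS.{u, v}) (S : Sy B) (hn : 5 ≤ finrank F V) (hK : K ≤ Isom B) (N : No2 B K)
    (hP : PP K) (Q : (V ≃ₗ[F] V) → V → Prop)
    (h2 : ∀ g k x, Q g x → Q (k * g * k⁻¹) (k x)) (h3 : ∀ g x (c : F), Q g x → Q g (c • x))
    (h4 : ∀ x y y' g g', B x y ≠ 0 → B x y' ≠ 0 → g ∈ smGrp K (span F {x, y}) →
      g' ∈ smGrp K (span F {x, y'}) → g ≠ 1 → g' ≠ 1 → Q g x → Q g' x → y' ∈ span F {x, y})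
    (a1 : B x y ≠ 0) (a2 : g ∈ smGrp K (span F {x, y})) (a3 : g ≠ 1) (a4 : Q g x) : False := by
  let R : V → V → Prop := fun x y => B x y ≠ 0 ∧ ∃ g ∈ smGrp K (span F {x, y}), g ≠ 1 ∧ Q g x
  have r1 : ∀ k ∈ K, ∀ x y, R x y → R (k x) (k y) := fun k hk x y ⟨b1, g, b2, b3, b4⟩ =>
    ⟨by rwa [hK hk], k * g * k⁻¹, ⟨mul_mem (mul_mem hk b2.1) (inv_mem hk), by
      simpa [map_span, Set.image_pair] using b2.2.conj k⟩, by simpa using b3, h2 _ _ _ b4⟩
  have r2 : ∀ x', x' ≠ 0 → ∃ y', R x' y' := fun x' hx => by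
    have x0 : x ≠ 0 := fun e => a1 (by simp [e])
    obtain ⟨k, hk, e⟩ := hP x x' x0 hx
    obtain ⟨c, c0, e⟩ := exists_coef x0 e
    obtain ⟨b1, g, b2, b3, b4⟩ := r1 k hk x y ⟨a1, g, a2, a3, a4⟩
    rw [e] at b1 b2 b4
    refine ⟨k y, fun e => b1 (by simp [e]), g, ⟨b2.1, b2.2.mono (span_le.2 ?_)⟩, b3, by
      simpa [c0] using h3 _ _ c⁻¹ b4⟩
    rintro _ (rfl | rfl)
    exacts [smul_mem _ _ (subset_span (by simp)), subset_span (by simp)]
  choose! f hf using r2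
  refine HS F V B S hn (fun x => span F {x, f x}) fun x hx => ?_
  obtain ⟨b1, g, b2, b3, -⟩ := hf x hx
  refine ⟨subset_span (by simp), H38.KL.rk2 ⟨hx, fun e => b1 ?_⟩, ⟨f x, subset_span (by simp), b1⟩,
    g, hK b2.1, b2.2, nf S.alt hK N b1 b2 b3, fun y hy e v hv => ?_⟩
  · obtain ⟨c, e⟩ := mem_span_singleton.1 e
    simp [← e, S.alt.self_eq_zero]
  obtain ⟨c1, k, c2, c3, c4⟩ := hf y hy
  obtain ⟨d1, l, d2, d3, d4⟩ := r1 g b2.1 y _ (hf y hy)
  rw [e] at d1 d2 d4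
  obtain ⟨a, b, rfl⟩ := mem_span_pair.1 hv
  rw [map_add, map_smul, map_smul, e]
  exact add_mem (smul_mem _ _ (subset_span (by simp)))
    (smul_mem _ _ (h4 _ _ _ _ _ c1 d1 c2 d2 c3 d3 c4 d4))

omit [Finite F] [FiniteDimensional F V] in
theorem join (hA : B.IsAlt) (h : B x y ≠ 0) (y' : V) : ∃ z, B x z = 0 ∧ B y z = 0 ∧
    span F {x, y} ≤ span F {x, y, z} ∧ span F {x, y'} ≤ span F {x, y, z} ∧
    ∃ a ∈ span F {x, y}, ∃ b ∈ span F {x, y'}, z = a + b := by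
  refine ⟨B x y' • y + B y' y • x - B x y • y', ?_, ?_, span_mono (by simp [Set.insert_subset_iff]),
    span_le.2 ?_, B x y' • y + B y' y • x, mem_span_pair.2 ⟨_, _, add_comm _ _⟩, -(B x y • y'),
    mem_span_pair.2 ⟨0, -B x y, by simp⟩, sub_eq_add_neg _ _⟩
  · simp [hA.self_eq_zero, mul_comm]
  · simp only [map_add, map_sub, map_smul, smul_eq_mul, hA.self_eq_zero, ← hA.neg_eq x y,
      ← hA.neg_eq y y']
    ring
  · exact Set.pair_subset (subset_span (by simp)) (mem_span_triple.2 ⟨B y' y / B x y, B x y' / B x y,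
      -(B x y)⁻¹, by match_scalars <;> field_simp <;> ring⟩)

theorem jobH : JobH.{u, v} := by
  intro E HS F _ _ V _ _ _ B K S hn hK N hP x y g hg hs
  by_contra h1
  have h2 : B x y ≠ 0 := fun e => h1 (N x y e g hg hs)
  have m1 : ∀ a b : V, a ∈ span F {a, b} := fun a b => subset_span (by simp)
  have m2 : ∀ a b : V, b ∈ span F {a, b} := fun a b => subset_span (by simp)
  have m3 : ∀ {x y z : V}, B x y ≠ 0 → B y z = 0 → x ∉ F ∙ z := fun {x y z} a b e => by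
    obtain ⟨c, rfl⟩ := mem_span_singleton.1 e
    exact a (by simp [← S.alt.neg_eq y z, b])
  by_cases hA : ∃ (x y : V) (g : V ≃ₗ[F] V) (l : F), B x y ≠ 0 ∧ g ∈ smGrp K (span F {x, y}) ∧
      g ≠ 1 ∧ g x = l • x
  · obtain ⟨x, y, g, l, a1, a2, a3, a4⟩ := hA
    refine hs_of HS S hn hK N hP (fun g x => g x = l • x) (fun g k x e => by simp [e])
      (fun g x c e => by rw [map_smul, e, smul_comm]) (fun x y y' g g' b1 b2 b3 b4 _ b6 b7 b8 => ?_)
      a1 a2 a3 a4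
    obtain ⟨z, z1, z2, z3, z4, -⟩ := join S.alt b1 y'
    obtain rfl := inv_mul_eq_one.1 ((pl3 S.alt b1 z1 z2).fx hK N (mul_mem (inv_mem ⟨b3.1, b3.2.mono z3⟩)
      ⟨b4.1, b4.2.mono z4⟩) (z3 (m1 x y)) (m3 b1 z2) (H38.KL.inv_eq (b7.trans b8.symm)))
    obtain ⟨v, -, e⟩ := surj b4.2 (nf S.alt hK N b2 b4 b6) (m2 x y')
    exact e ▸ b3.2 v
  refine hs_of HS S hn hK N hP (fun _ _ => True) (fun _ _ _ => id) (fun _ _ _ => id)
    (fun x y y' g g' b1 b2 b3 b4 b5 b6 _ _ => ?_) h2 ⟨hg, hs⟩ h1 trivial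
  obtain ⟨z, z1, z2, z3, z4, a, ha, b, hb, z5⟩ := join S.alt b1 y'
  by_cases hz : z = 0
  · rw [hz, sp0] at z4
    exact z4 (m2 x y')
  have P := pl3 S.alt b1 z1 z2
  have hg : g ∈ smGrp K (span F {x, y, z}) := ⟨b3.1, b3.2.mono z3⟩
  obtain ⟨ψ, p1, p2⟩ := psi E S hK N P hz (z3 (m1 x y)) (m3 b1 z2) hg fun w hw' w0 α β e => by
    rw [H38.KL.span_triple] at hw'
    obtain ⟨w, hw, t, ht, rfl⟩ := mem_sup.1 hw'
    replace w0 : w ≠ 0 := fun e => w0 (by simpa [e] using ht)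
    have e1 : α • w + β • g w = 0 := by
      obtain ⟨c, rfl⟩ := mem_span_singleton.1 ht
      have := sub_mem e (smul_mem _ (α + β) ht)
      rw [map_add, map_smul, hg.2.fix S (hK hg.1) P.perp] at this
      obtain ⟨d, e⟩ := mem_span_singleton.1 this
      have e2 : α • w + β • g w = d • z := by linear_combination (norm := module) -e
      exact rad0 S.alt b1 (add_mem (smul_mem _ _ hw) (smul_mem _ _ (sm_mem b3.2 hw)))
        (by simp [e2, z1]) (by simp [e2, z2])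
    have e2 : β = 0 := by_contra fun b0 => by
      obtain ⟨v, hv, v0⟩ : ∃ v ∈ span F {x, y}, B w v ≠ 0 := by
        by_contra! k
        exact w0 (rad0 S.alt b1 hw (S.alt.isRefl _ _ (k x (m1 x y))) (S.alt.isRefl _ _ (k y (m2 x y))))
      refine hA ⟨w, v, g, -(α / β), v0, ⟨b3.1, b3.2.mono fun t ht => ?_⟩, b5, ?_⟩
      · exact sp0 (F := F) (x := w) (y := v) ▸ (pl2 S.alt b1).sp hw hv v0 ht
      · rw [← inv_smul_smul₀ b0 (g w), eq_neg_of_add_eq_zero_right e1]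
        match_scalars
        field_simp
    exact ⟨by simpa [e2, w0] using e1, e2⟩
  obtain ⟨v, hv, rfl⟩ := surj b3.2 (nf S.alt hK N b1 b3 b5) ha
  obtain ⟨v', hv', rfl⟩ := surj b4.2 (nf S.alt hK N b2 b4 b6) hb
  exact absurd (by rw [z5, map_add, map_sub, map_sub, p2 g hg v (z3 hv),
    p2 g' ⟨b4.1, b4.2.mono z4⟩ v' (z4 hv')]; simp) p1

end H73.KS
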