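/- PN tower, slot NS: normal subgroups of a 4-transitive constituent. -/
import Cfsg.Agent.H42.PnSpec

set_option autoImplicit false
set_option linter.unusedSectionVars false

namespace H73.PnNS
open Equiv MulAction Pointwise H2.Ln H42.PN

variable {α : Type} [Fintype α] [DecidableEq α] {M V : Subgroup (Perm α)} {U : Finset α}

/-- A conjugate of `t` that agrees with `t` at `a`, `b` (as far as `t` keeps `{a, b}`), not at `c`. -/
theorem twist (h5 : 5 ≤ U.card) (t4 : T4 M U) {t : Perm α} {a b c : α} (ha : a ∈ U) (hb : b ∈ U)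
    (hc : c ∈ U) (he : t c ∈ U) (nd : [a, b, c, t c].Nodup) :
    ∃ h ∈ M, h a = a ∧ h b = b ∧ (h * t * h⁻¹) c ≠ t c := by
  obtain ⟨e, he', h1⟩ := ex_out U [a, b, c, t c] h5
  obtain ⟨h, hh, k1, k2, k3, k4⟩ := t4 a ha b hb c hc _ he a ha b hb c hc e he' nd
    (by simp at nd h1 ⊢; grind)
  refine ⟨h, hh, k1, k2, fun k => h1 ?_⟩
  rw [Perm.mul_apply, Perm.mul_apply, Perm.inv_eq_iff_eq.2 k3.symm, k4] at k
  simp [k]

theorem cfix {g t : Perm α} {a : α} (h1 : g a = a) (h2 : g (t a) = t a) :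
    (t⁻¹ * (g * t * g⁻¹)) a = a := by
  rw [Perm.mul_apply, Perm.mul_apply, Perm.mul_apply, Perm.inv_eq_iff_eq.2 h1.symm, h2]
  simp

theorem jobNS : NS := by
  intro α _ _ M U V h5 hU t4 hV hn ⟨x, hx, a, ha, hxa⟩
  have inv : ∀ g ∈ V, ∀ a ∈ U, g a ∈ U := fun g hg => sm_eq_iff.1 (hU g (hV hg))
  have t3 := t4.t3 (by omega)
  have t2 := t3.t2 (by omega)
  by_cases h : ∃ y ∈ V, ∃ p ∈ U, ∃ u ∈ U, y p = p ∧ y u ≠ u
  · obtain ⟨y, hy, p, hp, u, hu, h1, h2⟩ := h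
    have nd : [p, u, y u].Nodup := by
      have : p ≠ u := fun k => h2 (k ▸ h1)
      have : p ≠ y u := fun k => this (y.injective (h1.trans k))
      simp [*, h2.symm]
    intro b hb c hc b' hb' c' hc' e e'
    obtain ⟨v, hv, rfl⟩ : ∃ v ∈ V, v b = b' := by
      by_cases k : b = b'
      · exact ⟨1, one_mem _, k⟩
      · obtain ⟨g, hg, rfl, rfl⟩ := t2 a ha _ (inv x hx a ha) b hb b' hb' hxa.symm k
        exact ⟨_, hn g hg x hx, by simp⟩
    by_cases k : v c = c'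
    · exact ⟨v, hv, rfl, k⟩
    · obtain ⟨g, hg, k1, k2, k3⟩ := t3 p hp u hu _ (inv y hy u hu) _ hb' _ (inv v hv c hc) c' hc' nd
        (by simp [e, e', k])
      exact ⟨_, mul_mem (hn g hg y hy) hv, by simp [← k1, h1], by simp [← k2, k3]⟩
  · push Not at h
    obtain ⟨c, hc, h1⟩ := ex_out U [a, x a, x⁻¹ a] (by simp; omega)
    simp only [List.mem_cons, List.not_mem_nil, or_false, not_or] at h1
    have h2 : x c ≠ c := fun k => hxa (h x hx c hc a ha k)
    have h3 : a ≠ x c := fun k => h1.2.2 (by simp [k])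
    obtain ⟨g, hg, k1, k2, k3⟩ := twist h5 t4 ha (inv x hx a ha) hc (inv x hx c hc)
      (by simp [hxa.symm, h2.symm, h3, Ne.symm h1.1, Ne.symm h1.2.1])
    exact (k3 (Perm.inv_eq_iff_eq.1
      (h _ (mul_mem (inv_mem hx) (hn g hg x hx)) a ha c hc (cfix k1 k2)))).elim

theorem jobFai : NS → Fai := by
  intro ns α _ _ G K h6 t4 hs x hx h0
  generalize fp K = F at *
  by_contra hne
  have mem : ∀ y, y ∈ fx G Fᶜ ↔ y ∈ G ∧ ∀ s ∉ F, y s = s := fun y => by simp [mem_fx]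
  have inv : ∀ y ∈ fx G Fᶜ, ∀ a ∈ F, y a ∈ F := fun y hy a ha => by
    by_contra k
    exact k ((y.injective (((mem y).1 hy).2 _ k)).symm ▸ ha)
  have nm : ∀ g ∈ sw G F, ∀ y ∈ fx G Fᶜ, g * y * g⁻¹ ∈ fx G Fᶜ := fun g hg y hy => by
    refine (mem _).2 ⟨mul_mem (mul_mem hg.1 hy.1) (inv_mem hg.1), fun s hs => ?_⟩
    rw [Perm.mul_apply, Perm.mul_apply, ((mem y).1 hy).2 _ fun k => hs ?_]
    · simp
    · simpa using sm_eq_iff.1 (mem_sw.1 hg).2 _ k
  have one : ∀ y ∈ fx G Fᶜ, ∀ a ∈ F, ∀ b ∈ F, a ≠ b → y a = a → y b = b → y = 1 := by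
    intro y hy a ha b hb e k1 k2
    by_contra k
    have h1 := hs y hy.1 k
    have h2 : y.support ⊆ (F.erase a).erase b := fun s hs => by
      rw [Perm.mem_support] at hs
      refine Finset.mem_erase.2 ⟨fun k => hs (k ▸ k2), Finset.mem_erase.2 ⟨fun k => hs (k ▸ k1), ?_⟩⟩
      by_contra k
      exact hs (((mem y).1 hy).2 s k)
    have := Finset.card_le_card h2
    rw [Finset.card_erase_of_mem (Finset.mem_erase.2 ⟨e.symm, hb⟩), Finset.card_erase_of_mem ha] at this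
    omega
  obtain ⟨a, hxa⟩ : ∃ a, x a ≠ a := by
    by_contra k
    push Not at k
    exact hne (Equiv.ext k)
  have ha : a ∈ F := by
    by_contra k
    exact hxa (h0 a k)
  have t2 := ns α (sw G F) F (fx G Fᶜ) (by omega) (fun y hy => (mem_sw.1 hy).2) t4
    (fun y hy => mem_sw.2 ⟨hy.1, sm_eq_iff.2 (inv y hy)⟩) nm ⟨x, (mem x).2 ⟨hx, h0⟩, a, ha, hxa⟩
  obtain ⟨b, hb, e⟩ := ex_out F [a] (by simp; omega)
  rw [List.mem_singleton] at e
  obtain ⟨t, ht, t1, t2⟩ := t2 a ha b hb b hb a ha (Ne.symm e) e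
  obtain ⟨c, hc, h1, h2⟩ : ∃ c ∈ F, c ∉ [a, b] ∧ t c ≠ c := by
    by_contra k
    push Not at k
    obtain ⟨c, hc, h1⟩ := ex_out F [a, b] (by simp; omega)
    obtain ⟨d, hd, h2⟩ := ex_out F [c, a, b] (by simp; omega)
    rw [List.mem_cons, not_or] at h2
    rw [one t ht d hd c hc h2.1 (k d hd h2.2) (k c hc h1)] at t1
    exact e t1.symm
  simp only [List.mem_cons, List.not_mem_nil, or_false, not_or] at h1
  have h3 : a ≠ t c := fun k => h1.2 (t.injective (t2.trans k)).symm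
  have h4 : b ≠ t c := fun k => h1.1 (t.injective (t1.trans k)).symm
  obtain ⟨g, hg, k1, k2, k3⟩ := twist (by omega) t4 ha hb hc (inv t ht c hc)
    (by simp [Ne.symm e, h2.symm, h3, h4, Ne.symm h1.1, Ne.symm h1.2])
  have := one _ (mul_mem (inv_mem ht) (nm g hg t ht)) a ha b hb (Ne.symm e)
    (cfix k1 (t1 ▸ k2)) (cfix k2 (t2 ▸ k1))
  exact k3 (by rw [← inv_mul_eq_one.1 this])

end H73.PnNS
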