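import Cfsg.Agent.H30.Vanish
import Cfsg.Agent.H30.ClassSum
import Cfsg.Agent.H28.Degree
import Cfsg.Agent.H46.Prod
import Cfsg.Agent.H2.Core
import Cfsg.Agent.H1.Coprime
import Cfsg.Agent.H5.FrobCompl

/-! Groups whose irreducible characters are multiplicative on coprime prime power elements. -/

set_option autoImplicit false
set_option maxHeartbeats 400000

namespace H73.REE
open Cfsg H28 Subgroup H46
open scoped commutatorElement

variable {G : Type*} [Group G] [Finite G]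

theorem card_cent_of_vanish {y : G}
    (h : ∀ χ : G → ℂ, IsIrrCharacter G χ → χ 1 ≠ 1 → χ y = 0) :
    Nat.card (Cent1 y) = (commutator G).index := by
  classical
  have h1 := column_orthogonality_of_isConj (IsConj.refl y)
  rw [← card_linear_irr, Nat.card_eq_fintype_card (α := {χ : IrrCharacter G // (χ : G → ℂ) 1 = 1}),
    Fintype.card_subtype]
  refine Nat.cast_injective (R := ℂ) ?_
  rw [← h1, Finset.card_filter, Nat.cast_sum]
  refine Finset.sum_congr rfl fun χ _ => ?_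
  split_ifs with e
  · rw [← χ.2.isCharacter.apply_inv, ← χ.2.isCharacter.map_mul_of_degree_one e, mul_inv_cancel, e,
      Nat.cast_one]
  · rw [h χ χ.2 e, zero_mul, Nat.cast_zero]

theorem degree_sq_lt {χ : G → ℂ} (hχ : IsIrrCharacter G χ) (h1 : χ 1 ≠ 1) :
    charDegree χ ^ 2 < Nat.card G := by
  classical
  rw [← sum_charDegree_sq]
  have hne : (⟨χ, hχ⟩ : IrrCharacter G) ≠ ⟨fun _ => 1, isIrrCharacter_one⟩ := fun e =>
    h1 (congrFun (congrArg Subtype.val e) 1)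
  refine lt_of_lt_of_le ?_ (Finset.sum_le_sum_of_subset
    (Finset.subset_univ {⟨χ, hχ⟩, ⟨fun _ => 1, isIrrCharacter_one⟩}))
  rw [Finset.sum_pair hne]
  simp [charDegree_one]

/-- `χ` vanishes on the nontrivial `r`-elements. -/
def Van (χ : G → ℂ) (r : ℕ) : Prop := ∀ x : G, x ≠ 1 → (∃ a, orderOf x = r ^ a) → χ x = 0

theorem Van.dvd {χ : G → ℂ} (hχ : IsIrrCharacter G χ) {r : ℕ} (hr : r.Prime) (h : Van χ r) :
    r ^ (Nat.card G).factorization r ∣ charDegree χ := by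
  haveI := Fact.mk hr
  obtain ⟨R⟩ : Nonempty (Sylow r G) := inferInstance
  rw [← R.card_eq_multiplicity]
  refine H30.card_dvd_degree_of_vanishing hχ.isCharacter R (fun x hx h1 => h x h1 ?_)
    hχ.cast_charDegree.symm
  obtain ⟨k, hk⟩ := IsPGroup.iff_orderOf.1 R.isPGroup' ⟨x, hx⟩
  exact ⟨k, by rw [← hk, orderOf_mk]⟩

theorem not_cover {χ ψ : G → ℂ} (hχ : IsIrrCharacter G χ) (hψ : IsIrrCharacter G ψ)
    (h1 : χ 1 ≠ 1) (h2 : ψ 1 ≠ 1) (h : ∀ s : ℕ, s.Prime → Van χ s ∨ Van ψ s) : False := by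
  have hpos := Nat.mul_pos hχ.charDegree_pos hψ.charDegree_pos
  have hd : Nat.card G ∣ charDegree χ * charDegree ψ := by
    rw [← Nat.factorization_prime_le_iff_dvd Nat.card_pos.ne' hpos.ne']
    intro s hs
    rw [← hs.pow_dvd_iff_le_factorization hpos.ne']
    rcases h s hs with h | h
    · exact (h.dvd hχ hs).mul_right _
    · exact (h.dvd hψ hs).mul_left _
  have h3 := Nat.le_of_dvd hpos hd
  have h4 := degree_sq_lt hχ h1
  have h5 := degree_sq_lt hψ h2
  nlinarith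

omit [Finite G] in
theorem exists_prime_pow {a : G} (ha : a ≠ 1) (hfin : orderOf a ≠ 0) :
    ∃ q : ℕ, q.Prime ∧ q ∣ orderOf a ∧ orderOf (a ^ (orderOf a / q)) = q := by
  obtain ⟨q, hq, hd⟩ := Nat.exists_prime_and_dvd (fun e => ha (orderOf_eq_one_iff.1 e))
  exact ⟨q, hq, hd, orderOf_pow_orderOf_div hfin hd⟩

theorem forward (h : ∀ (x y : G) (χ : IrrCharacter G), x ≠ 1 → y ≠ 1 →
      (∃ p q a b : ℕ, p.Prime ∧ q.Prime ∧ p ≠ q ∧ orderOf x = p ^ a ∧ orderOf y = q ^ b) →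
      (χ : G → ℂ) (x * y) = (χ : G → ℂ) x * (χ : G → ℂ) y) (hna : ¬ IsMulCommutative G) :
    ∃ p : ℕ, p.Prime ∧ ∀ q : ℕ, q.Prime → q ≠ p → ∀ y : G, y ≠ 1 → (∃ a, orderOf y = q ^ a) →
      Nat.card (Cent1 y) = (commutator G).index := by
  have := Fintype.ofFinite G
  have hv : ∀ χ : G → ℂ, IsIrrCharacter G χ → χ 1 ≠ 1 → ∀ r s : ℕ, r.Prime → s.Prime → r ≠ s →
      ¬ Van χ r → Van χ s := fun χ hχ h1 r s hr hs hrs hn y hy ⟨b, hb⟩ => by
    simp only [Van, not_forall] at hn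
    obtain ⟨x, hx, ⟨a, ha⟩, hx0⟩ := hn
    have e := H30.sum_conj_mul_irr hχ x y
    have e2 : ∀ g : G, χ (g * x * g⁻¹ * y) = χ x * χ y := fun g => by
      rw [← hχ.isClassFunction x g]
      refine h _ y ⟨χ, hχ⟩ (fun e => hx (by simpa using e)) hy ⟨r, s, a, b, hr, hs, hrs, ?_, hb⟩
      rw [← ha]; exact (MulAut.conj g).orderOf_eq x
    simp only [e2, Finset.sum_const, Finset.card_univ, nsmul_eq_mul, ← Nat.card_eq_fintype_card] at e
    have e3 : (Nat.card G : ℂ) * χ x * (χ 1 - 1) * χ y = 0 := by linear_combination e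
    have hG : (Nat.card G : ℂ) ≠ 0 := Nat.cast_ne_zero.2 Nat.card_pos.ne'
    exact (mul_eq_zero.1 e3).resolve_left
      (mul_ne_zero (mul_ne_zero hG hx0) (sub_ne_zero.2 h1))
  obtain ⟨χ, h1⟩ : ∃ χ : IrrCharacter G, (χ : G → ℂ) 1 ≠ 1 := by
    by_contra! hc
    exact hna ⟨⟨comm_iff_forall_irr_degree_one.2 hc⟩⟩
  obtain ⟨p, hp, hn⟩ : ∃ p : ℕ, p.Prime ∧ ¬ Van (χ : G → ℂ) p := by
    by_contra! hc
    exact not_cover χ.2 χ.2 h1 h1 fun s hs => Or.inl (hc s hs)
  refine ⟨p, hp, fun q hq hqp y hy hy' => card_cent_of_vanish fun ψ hψ h2 => ?_⟩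
  by_contra h0
  have hn' : ¬ Van ψ q := fun hc => h0 (hc y hy hy')
  refine not_cover χ.2 hψ h1 h2 fun s hs => ?_
  by_cases e : s = p
  · exact Or.inr (hv ψ hψ h2 q s hq hs (e ▸ hqp) hn')
  · exact Or.inl (hv χ χ.2 h1 p s hp hs (Ne.symm e) hn)

theorem isPGroup_comm {p : ℕ} (hp : p.Prime)
    (h : ∀ q : ℕ, q.Prime → q ≠ p → ∀ y : G, y ≠ 1 → (∃ a, orderOf y = q ^ a) →
      Nat.card (Cent1 y) = (commutator G).index) : IsPGroup p (commutator G) := by
  haveI := Fact.mk hp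
  refine IsPGroup.iff_card.2 ⟨_, Nat.eq_prime_pow_of_unique_prime_dvd Nat.card_pos.ne' ?_⟩
  intro q hq hd
  by_contra hqp
  haveI := Fact.mk hq
  obtain ⟨Q⟩ : Nonempty (Sylow q G) := inferInstance
  haveI : Nontrivial ↥(Q : Subgroup G) := (nontrivial_iff_ne_bot _).2
    (Q.ne_bot_of_dvd_card (hd.trans (card_subgroup_dvd_card _)))
  haveI := Q.isPGroup'.center_nontrivial
  obtain ⟨⟨y, hy⟩, hy1⟩ := exists_ne (1 : center ↥(Q : Subgroup G))
  have hy0 : (y : G) ≠ 1 := fun e => hy1 (Subtype.ext (Subtype.ext e))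
  obtain ⟨k, hk⟩ := IsPGroup.iff_orderOf.1 Q.isPGroup' y
  have h1 := h q hq hqp y hy0 ⟨k, by rw [← hk, orderOf_coe]⟩
  have h2 : (Q : Subgroup G) ≤ Cent1 (y : G) := fun g hg =>
    mem_cent1.2 (congrArg Subtype.val (mem_center_iff.1 hy ⟨g, hg⟩))
  have h3 : Nat.card Q * q ∣ Nat.card Q * (Q : Subgroup G).index := by
    rw [card_mul_index, ← (commutator G).index_mul_card]
    exact Nat.mul_dvd_mul (h1 ▸ card_dvd_of_le h2) hd
  exact Q.not_dvd_index (Nat.dvd_of_mul_dvd_mul_left Nat.card_pos h3)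

theorem structure_of {p : ℕ} [hp : Fact p.Prime] (hna : ¬ IsMulCommutative G) (hG : ¬ IsPGroup p G)
    (h : ∀ q : ℕ, q.Prime → q ≠ p → ∀ y : G, y ≠ 1 → (∃ a, orderOf y = q ^ a) →
      Nat.card (Cent1 y) = (commutator G).index) :
    ∃ (P : Sylow p G) (A : Subgroup G), (P : Subgroup G).Normal ∧ IsCyclic ↥A ∧ A ≠ ⊥ ∧
      (Nat.card ↥A).Coprime p ∧ A ⊔ (P : Subgroup G) = ⊤ ∧
      IsMulCommutative ↥((P : Subgroup G) ⊓ Subgroup.centralizer (A : Set G)) ∧
      (⁅A, (P : Subgroup G)⁆).Normal ∧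
      ((P : Subgroup G) ⊓ Subgroup.centralizer (A : Set G)) ⊔ ⁅A, (P : Subgroup G)⁆ = (P : Subgroup G) ∧
      ((P : Subgroup G) ⊓ Subgroup.centralizer (A : Set G)) ⊓ ⁅A, (P : Subgroup G)⁆ = ⊥ ∧
      ∀ a ∈ A, a ≠ 1 → ∀ d ∈ ⁅A, (P : Subgroup G)⁆, a * d = d * a → d = 1 := by
  obtain ⟨P⟩ : Nonempty (Sylow p G) := inferInstance
  have hD : commutator G ≤ P := (H2.le_pCore (isPGroup_comm hp.out h)).trans (H2.pCore_le_sylow P)
  haveI hPn : (P : Subgroup G).Normal := ⟨fun n hn g => by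
    have := mul_mem (hD (commutator_mem_commutator (mem_top g) (mem_top n))) hn
    simpa [commutatorElement_def] using this⟩
  obtain ⟨A, hA⟩ := exists_right_complement'_of_coprime P.card_coprime_index
  have hcA : Nat.card A = (P : Subgroup G).index := hA.symm.index_eq_card.symm
  have hcop : (Nat.card A).Coprime (Nat.card (P : Subgroup G)) := hcA ▸ P.card_coprime_index.symm
  have hcp : (Nat.card A).Coprime p :=
    ((Nat.Prime.coprime_iff_not_dvd hp.out).2 (hcA ▸ P.not_dvd_index)).symm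
  have hsup : A ⊔ (P : Subgroup G) = ⊤ := by rw [sup_comm]; exact hA.sup_eq_top
  have hNP : ∀ X : Subgroup G, X ≤ Nrm (P : Subgroup G) := fun X => by
    rw [H46.Nrm, normalizer_eq_top]; exact le_top
  have hND : ∀ X : Subgroup G, X ≤ Nrm (commutator G) := fun X => by
    rw [H46.Nrm, normalizer_eq_top]; exact le_top
  have hcm : ∀ X Y : Subgroup G, ⁅X, Y⁆ ≤ commutator G := fun X Y => commutator_mono le_top le_top
  haveI hAc : IsMulCommutative A := by
    rw [comm_iff_le_cent, ← H46.commutator_eq_bot_iff, eq_bot_iff, ← hA.disjoint.eq_bot]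
    exact le_inf ((hcm _ _).trans hD) (commutator_le_left' le_nrm_self)
  have hA1 : A ≠ ⊥ := fun e => by
    rw [e, bot_sup_eq] at hsup
    exact hG ((hsup ▸ P.isPGroup').of_equiv topEquiv)
  haveI := P.isPGroup'.isNilpotent
  have hfpf : ∀ a ∈ A, a ≠ 1 → commutator G ⊓ Cent1 a = ⊥ := fun a ha h1 => by
    obtain ⟨q, hq, hd, hy⟩ := exists_prime_pow h1 (orderOf_pos a).ne'
    set y := a ^ (orderOf a / q)
    have hyA : y ∈ A := pow_mem ha _
    have hqp : q ≠ p := fun e => (Nat.Prime.coprime_iff_not_dvd hp.out).1 hcp.symm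
      (e ▸ hd.trans (orderOf_dvd_card ha))
    have h2 := h q hq hqp y (fun e => hq.ne_one (by rw [← hy, e, orderOf_one])) ⟨1, by rw [hy, pow_one]⟩
    have h3 : commutator G ⊔ Cent1 y = ⊤ := by
      rw [eq_top_iff, ← hsup]
      refine sup_le (((comm_iff_le_cent.1 hAc).trans (cent_le_cent1 hyA)).trans le_sup_right) ?_
      rw [← H1.commutator_sup_centralizer (hNP (zpowers y))
        (hcop.coprime_dvd_left (card_dvd_of_le (zpowers_le.2 hyA))) (Or.inr inferInstance)]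
      exact sup_le_sup (hcm _ _) (inf_le_right.trans (cent_zpowers y).le)
    have h4 := card_sup_mul_card_inf (hND (Cent1 y))
    rw [h3, h2, card_mul_index, card_top] at h4
    have h5 : commutator G ⊓ Cent1 y = ⊥ :=
      card_eq_one.1 (Nat.eq_of_mul_eq_mul_left Nat.card_pos (h4.trans (mul_one _).symm))
    rw [eq_bot_iff, ← h5]
    exact inf_le_inf_left _ fun g hg => mem_cent1.2 ((show Commute g a from mem_cent1.1 hg).pow_right _)
  obtain ⟨a, ha, ha1⟩ := exists_ne_one_of_ne_bot hA1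
  refine ⟨P, A, hPn, H5.isCyclic_of_fpf_of_comm (K := commutator G)
    (fun e => hna ((commutator_eq_bot_iff G).1 e)) (hND A) hfpf, hA1, hcp, hsup, ?_, ?_, ?_, ?_, ?_⟩
  · rw [comm_iff_le_cent, ← H46.commutator_eq_bot_iff, eq_bot_iff, ← hfpf a ha ha1]
    exact le_inf (hcm _ _) ((commutator_le_left' le_nrm_self).trans
      (inf_le_right.trans (cent_le_cent1 ha)))
  · rw [← normalizer_eq_top_iff, eq_top_iff, ← hsup]
    exact (normalIn_commutator_sup A P).2
  · rw [sup_comm, commutator_comm]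
    exact H1.commutator_sup_centralizer (hNP A) hcop (Or.inr inferInstance)
  · rw [eq_bot_iff, ← hfpf a ha ha1]
    exact le_inf (inf_le_right.trans (hcm _ _))
      (inf_le_left.trans (inf_le_right.trans (cent_le_cent1 ha)))
  · intro b hb hb1 d hd e
    have : d ∈ commutator G ⊓ Cent1 b := ⟨hcm _ _ hd, mem_cent1.2 e.symm⟩
    rwa [hfpf b hb hb1] at this

omit [Finite G] in
theorem eq_of_pelt {p r a : ℕ} (hp : p.Prime) (hr : r.Prime) {x : G} (hx : x ≠ 1)
    (h : ∃ k, x ^ p ^ k = 1) (ha : orderOf x = r ^ a) : r = p := by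
  obtain ⟨k, hk⟩ := h
  have h1 := orderOf_dvd_of_pow_eq_one hk
  have ha0 : a ≠ 0 := by
    rintro rfl; exact hx (orderOf_eq_one_iff.1 (by simpa using ha))
  exact (Nat.prime_dvd_prime_iff_eq hr hp).1
    (hr.dvd_of_dvd_pow ((dvd_pow_self r ha0).trans (ha ▸ h1)))

theorem backward {p : ℕ} [hp : Fact p.Prime] (P : Sylow p G) (A : Subgroup G)
    (hP : (P : Subgroup G).Normal) (hA : IsCyclic A) (hsup : A ⊔ (P : Subgroup G) = ⊤)
    (hC : IsMulCommutative ↥((P : Subgroup G) ⊓ Subgroup.centralizer (A : Set G)))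
    (hD : (⁅A, (P : Subgroup G)⁆).Normal)
    (hCD : ((P : Subgroup G) ⊓ Subgroup.centralizer (A : Set G)) ⊔ ⁅A, (P : Subgroup G)⁆ = P)
    (hf : ∀ a ∈ A, a ≠ 1 → ∀ d ∈ ⁅A, (P : Subgroup G)⁆, a * d = d * a → d = 1)
    {χ : G → ℂ} (hχ : IsIrrCharacter G χ) (h1 : χ 1 ≠ 1) {g : G} (hg : g ∉ (P : Subgroup G)) :
    χ g = 0 := by
  have hcom : commutator G ≤ ⁅A, (P : Subgroup G)⁆ := by
    refine Normal.commutator_le_of_self_sup_commutative_eq_top
      (H := A ⊔ ((P : Subgroup G) ⊓ Subgroup.centralizer (A : Set G))) ?_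
      (comm_sup hA.isMulCommutative hC inf_le_right)
    rw [sup_comm, sup_assoc, hCD, hsup]
  refine H30.irr_eq_zero_of_fpf hχ ⁅A, (P : Subgroup G)⁆
    (fun hk => h1 (hχ.degree_one_iff.2 (hcom.trans hk))) fun d hd e => ?_
  obtain ⟨r, hr, hrd, hrp⟩ : ∃ r : ℕ, r.Prime ∧ r ∣ orderOf g ∧ r ≠ p := by
    by_contra! hc
    have h2 := Nat.eq_prime_pow_of_unique_prime_dvd (orderOf_pos g).ne' (fun hr hd => hc _ hr hd)
    have h3 : IsPGroup p (zpowers g) := isPGroup_zpowers_of_pow (h2 ▸ pow_orderOf_eq_one g)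
    obtain ⟨R, hR⟩ := h3.exists_le_sylow
    haveI := Sylow.unique_of_normal P hP
    exact hg (Subsingleton.elim R P ▸ hR (mem_zpowers g))
  haveI := Fact.mk hr
  have hy := orderOf_pow_orderOf_div (orderOf_pos g).ne' hrd
  set y := g ^ (orderOf g / r)
  have hidx : ¬ r ∣ A.relIndex ⊤ := fun hd => by
    rw [← hsup, sup_comm, relIndex_sup_right_of_nrm (by
      rw [H46.Nrm, normalizer_eq_top]; exact le_top)] at hd
    have := hd.trans (relIndex_dvd_card _ _)
    rw [P.card_eq_multiplicity] at this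
    exact hrp ((Nat.prime_dvd_prime_iff_eq hr hp.out).1 (hr.dvd_of_dvd_pow this))
  obtain ⟨c, -, hc⟩ := exists_conj_mem_of_not_dvd_relIndex hidx (mem_top y) (k := 1)
    (by rw [pow_one, ← hy, pow_orderOf_eq_one])
  have hy1 : y ≠ 1 := fun e => hr.ne_one (by rw [← hy, e, orderOf_one])
  have e2 : d * y = y * d := (show Commute d g from e).pow_right _
  have := hf _ hc (fun e => hy1 (by simpa using e)) _ (hD.conj_mem d hd c) (by
    calc c * y * c⁻¹ * (c * d * c⁻¹) = c * (y * d) * c⁻¹ := by group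
      _ = c * d * c⁻¹ * (c * y * c⁻¹) := by rw [← e2]; group)
  simpa using this

end H73.REE
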