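import Cfsg.Agent.H73.PMax
import Cfsg.Agent.S0144

/-! Stabilisers of sets of transpositions: maximality, absence of elements of prime order `≥ 5`,
derived series. -/

namespace H73

open H71

variable {G : Type*} [Group G] {val : ℕ → G} {N : ℕ} {π : ℕ → Equiv.Perm ℕ} {A : ℕ → ℕ → ℕ}

/-- The stabiliser of a bit set. -/
def setStab (ρ : G →* Equiv.Perm ℕ) (D : ℕ) : Subgroup G where
  carrier := {g | ∀ i, D.testBit (ρ g i) = D.testBit i}
  one_mem' := by simp
  mul_mem' := fun {x y} hx hy i => by rw [map_mul, Equiv.Perm.mul_apply, hx, hy]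
  inv_mem' := fun {x} hx i => by rw [← hx]; simp

theorem mem_setStab {ρ : G →* Equiv.Perm ℕ} {D : ℕ} {g : G} :
    g ∈ setStab ρ D ↔ ∀ i, D.testBit (ρ g i) = D.testBit i := Iff.rfl

/-- `g` is the conjugate of `z` attached to the point `x`. -/
def Tr (ρ : G →* Equiv.Perm ℕ) (b : ℕ) (z : G) (x : ℕ) (g : G) : Prop :=
  ∃ u, ρ u b = x ∧ g = u * z * u⁻¹

variable {ρ : G →* Equiv.Perm ℕ} {b : ℕ} {z : G}

theorem Tr.conj {x : ℕ} {g : G} (h : Tr ρ b z x g) (k : G) : Tr ρ b z (ρ k x) (k * g * k⁻¹) := by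
  obtain ⟨u, rfl, rfl⟩ := h
  exact ⟨k * u, by simp, by group⟩

theorem Tr.uniq (hz : ∀ h ∈ stab ρ b, h * z = z * h) {x : ℕ} {g g' : G} (h : Tr ρ b z x g)
    (h' : Tr ρ b z x g') : g = g' := by
  obtain ⟨u, rfl, rfl⟩ := h
  obtain ⟨v, e, rfl⟩ := h'
  have := hz (u⁻¹ * v) (mem_stab.2 (by rw [map_mul, Equiv.Perm.mul_apply, e]; simp))
  calc u * z * u⁻¹ = u * (z * (u⁻¹ * v)) * v⁻¹ := by group
    _ = _ := by rw [← this]; group

theorem Tr.comm (hz : ∀ h ∈ stab ρ b, h * z = z * h) {x : ℕ} {g k : G} (h : Tr ρ b z x g)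
    (hk : ρ k x = x) : k * g = g * k := by
  have := h.conj k
  rw [hk] at this
  rw [← mul_inv_eq_iff_eq_mul]
  exact Tr.uniq hz this h

theorem coatom_setStab {D : ℕ} (hD : ∀ x, D.testBit x = true → ∃ g ∈ setStab ρ D, Tr ρ b z x g)
    (hne : setStab ρ D ≠ ⊤)
    (hmax : ∀ M, setStab ρ D ≤ M → ∀ x g, D.testBit x = false → Tr ρ b z x g → g ∈ M → M = ⊤) :
    IsCoatom (setStab ρ D) := by
  refine ⟨hne, fun M hM => ?_⟩
  by_contra hM'
  have key : ∀ m ∈ M, ∀ x, D.testBit x = true → D.testBit (ρ m x) = true := by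
    intro m hm x hx
    obtain ⟨g, hg, t⟩ := hD x hx
    by_contra hc
    exact hM' (hmax M hM.le _ _ (by simpa using hc) (t.conj m)
      (mul_mem (mul_mem hm (hM.le hg)) (inv_mem hm)))
  refine hM.not_ge fun m hm i => ?_
  rw [Bool.eq_iff_iff]
  exact ⟨fun h => by simpa using key _ (inv_mem hm) _ h, key m hm i⟩

theorem shl_bit {p i : ℕ} (h : (Nat.shiftLeft 1 p).testBit i = true) : p = i := by
  rw [show Nat.shiftLeft 1 p = 2 ^ p from Nat.one_shiftLeft _, Nat.testBit_two_pow] at h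
  simpa using h

theorem testBit_maskL {L : List ℕ} {l : ℕ} : (maskL L).testBit l = true ↔ l ∈ L := by
  refine ⟨mem_of_maskL, fun h => ?_⟩
  induction L with
  | nil => simp at h
  | cons a L ih =>
    show ((1 <<< a) ||| maskL L).testBit l = true
    rw [Nat.testBit_or, Nat.one_shiftLeft, Nat.testBit_two_pow, Bool.or_eq_true]
    rcases List.mem_cons.1 h with rfl | h
    exacts [Or.inl (by simp), Or.inr (ih h)]

theorem hD_of (E : Env N π A) (hρ : ∀ l, ρ (val l) = π l) {S : List ℕ} {D x0 l0 : ℕ} {s : List ℕ}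
    (h1 : invChk A (l0 :: S) D = true) (h2 : orbChk A S s x0 D = true) (t : Tr ρ b z x0 (val l0)) :
    gen val (l0 :: S) ≤ setStab ρ D ∧
      ∀ x, D.testBit x = true → ∃ g ∈ setStab ρ D, Tr ρ b z x g := by
  have hS : gen val (l0 :: S) ≤ setStab ρ D := invChk_sound E ρ (fun l _ => hρ l) h1
  refine ⟨hS, fun x hx => ?_⟩
  obtain ⟨k, hk, rfl⟩ := orbChk_sound E ρ (B := setStab ρ D)
    (fun l hl => ⟨hS (mem_gen val (List.mem_cons_of_mem _ hl)), hρ l⟩) h2 x hx
  exact ⟨_, mul_mem (mul_mem hk (hS (mem_gen val List.mem_cons_self))) (inv_mem hk), t.conj k⟩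

/-- From one more letter everything is generated. -/
theorem top_of_letter (E : Env N π A) (hρ : ∀ l, ρ (val l) = π l)
    (hz : ∀ h ∈ stab ρ b, h * z = z * h) {S : List ℕ} {D l1 : ℕ} {s : List ℕ} {P : List (ℕ × ℕ)}
    (hD : ∀ x, D.testBit x = true → ∃ g ∈ setStab ρ D, Tr ρ b z x g)
    (hS : ∀ l ∈ S, val l ∈ setStab ρ D) (hP : ∀ p ∈ P, Tr ρ b z p.1 (val p.2))
    (htop : gen val (P.map Prod.snd) = ⊤)
    (h : grow A (l1 :: S) s (subB (maskL (P.map Prod.fst))) D = true) {M : Subgroup G}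
    (hM : setStab ρ D ≤ M) (h1 : val l1 ∈ M) : M = ⊤ := by
  obtain ⟨O, h2, h3⟩ := grow_sound E ρ (B := M) (fun l hl => ⟨by
      rcases List.mem_cons.1 hl with rfl | hl
      exacts [h1, hM (hS l hl)], hρ l⟩) (fun i => ∃ g ∈ M, Tr ρ b z i g)
    (fun k hk i ⟨g, hg, t⟩ => ⟨_, mul_mem (mul_mem hk hg) (inv_mem hk), t.conj k⟩)
    (fun i hi => (hD i hi).imp fun g hg => ⟨hM hg.1, hg.2⟩) h
  rw [eq_top_iff, ← htop]
  refine gen_le fun l hl => ?_
  obtain ⟨p, hp, rfl⟩ := List.mem_map.1 hl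
  obtain ⟨g, hg, t⟩ := h2 p.1 (of_subB h3 (testBit_maskL.2 (List.mem_map_of_mem hp)))
  exact Tr.uniq hz t (hP p hp) ▸ hg

/-- Two orbits cover the complement. -/
theorem cover_two (E : Env N π A) (hρ : ∀ l, ρ (val l) = π l) {S : List ℕ} {D n d1 d2 : ℕ}
    {s1 s2 : List ℕ} (h : grow A S s1 (fun O1 => grow A S s2
      (fun O2 => subB (ival 0 n) (Nat.lor D (Nat.lor O1 O2))) (Nat.shiftLeft 1 d2))
      (Nat.shiftLeft 1 d1) = true) {x : ℕ} (hx : x < n) (hD : D.testBit x = false) :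
    ∃ k ∈ gen val S, ρ k d1 = x ∨ ρ k d2 = x := by
  have c : ∀ d, ∀ g ∈ gen val S, ∀ i, (∃ k ∈ gen val S, ρ k d = i) → ∃ k ∈ gen val S, ρ k d = ρ g i :=
    fun d g hg i ⟨k, hk, e⟩ => ⟨g * k, mul_mem hg hk, by rw [map_mul, Equiv.Perm.mul_apply, e]⟩
  obtain ⟨O1, a1, h⟩ := grow_sound E ρ (B := gen val S) (fun l hl => ⟨mem_gen val hl, hρ l⟩) _ (c d1)
    (fun i hi => ⟨1, one_mem _, by simpa using shl_bit hi⟩) h
  obtain ⟨O2, a2, h⟩ := grow_sound E ρ (B := gen val S) (fun l hl => ⟨mem_gen val hl, hρ l⟩) _ (c d2)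
    (fun i hi => ⟨1, one_mem _, by simpa using shl_bit hi⟩) h
  have := of_subB h ((testBit_ival 0 n x).2 ⟨Nat.zero_le _, hx⟩)
  rw [show Nat.lor D (Nat.lor O1 O2) = D ||| (O1 ||| O2) from rfl, Nat.testBit_or, Nat.testBit_or, hD,
    Bool.false_or, Bool.or_eq_true] at this
  rcases this with t | t
  · exact (a1 x t).imp fun k hk => ⟨hk.1, Or.inl hk.2⟩
  · exact (a2 x t).imp fun k hk => ⟨hk.1, Or.inr hk.2⟩

/-! ### Elements of prime order -/

theorem fixed_of_mask {p : ℕ} (hp : p.Prime) {σ : Equiv.Perm ℕ} (hσ : σ ^ p = 1) {L : List ℕ}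
    (hL : L.Nodup) (hi : ∀ i, σ i ∈ L ↔ i ∈ L) :
    (¬ p ∣ L.length → ∃ i ∈ L, σ i = i) ∧ (L.length < p → ∀ i ∈ L, σ i = i) := by
  classical
  have hi' : ∀ i, σ i ∈ L.toFinset ↔ i ∈ L.toFinset := by simpa using hi
  have hc : Fintype.card {i // i ∈ L.toFinset} = L.length := by
    rw [Fintype.card_coe, List.toFinset_card_of_nodup hL]
  have hτ : (σ.subtypePerm hi') ^ p = 1 := by
    rw [Equiv.Perm.subtypePerm_pow]
    ext i
    simp [hσ]
  haveI := Fact.mk hp
  refine ⟨fun h => ?_, fun h i hi => ?_⟩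
  · obtain ⟨a, ha⟩ := Equiv.Perm.exists_fixed_point_of_prime (n := 1) (hc ▸ h)
      (σ := σ.subtypePerm hi') (by rwa [pow_one])
    exact ⟨a.1, List.mem_toFinset.1 a.2, congrArg Subtype.val ha⟩
  · have h1 : σ.subtypePerm hi' = 1 := by
      by_contra hne
      have h2 := orderOf_dvd_card (x := σ.subtypePerm hi')
      rw [orderOf_eq_prime hτ hne, Fintype.card_perm, hc, hp.dvd_factorial] at h2
      omega
    exact congrArg Subtype.val (Equiv.ext_iff.1 h1 ⟨i, by simpa using hi⟩)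

/-- Intersect with invariant sets or their complements. -/
noncomputable def cut (F : List ℕ) (ops : List (ℕ × Bool)) (S : ℕ) : ℕ :=
  List.rec (motive := fun _ => ℕ) S
    (fun o _ ih => (fun T => Bool.rec (motive := fun _ => ℕ) T (Nat.xor ih T) o.2)
      (Nat.land ih (nth F 0 o.1))) ops

theorem cut_mem {g : G} {F : List ℕ} (hF : ∀ m ∈ F, g ∈ setStab ρ m) {S : ℕ} (hS : g ∈ setStab ρ S)
    (ops : List (ℕ × Bool)) : g ∈ setStab ρ (cut F ops S) := by
  induction ops with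
  | nil => exact hS
  | cons o ops ih =>
    have h1 : g ∈ setStab ρ (nth F 0 o.1) :=
      nth_prop (P := fun m => g ∈ setStab ρ m) hF (fun i => by simp) _
    have h2 : g ∈ setStab ρ (cut F ops S &&& nth F 0 o.1) := fun i => by
      rw [Nat.testBit_and, Nat.testBit_and, ih i, h1 i]
    obtain ⟨j, _ | _⟩ := o
    · exact h2
    · intro i
      show (cut F ops S ^^^ (cut F ops S &&& nth F 0 j)).testBit _ =
        (cut F ops S ^^^ (cut F ops S &&& nth F 0 j)).testBit _
      rw [Nat.testBit_xor, Nat.testBit_xor, ih i, h2 i]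

/-- A step: new point, its word, first set, cuts, the points of the cut set, words and schedule. -/
structure Stp where
  y : ℕ
  u : List ℕ
  i0 : ℕ
  ops : List (ℕ × Bool)
  pts : List ℕ
  hs : List (List ℕ)
  sch : List ℕ

/-- The test common to both kinds of steps. -/
noncomputable def Stp.base (s : Stp) (A : ℕ → ℕ → ℕ) (b : ℕ) (F : List ℕ) : Bool :=
  maps A s.u b s.y && Nat.beq (maskL s.pts) (cut F s.ops (nth F 0 s.i0)) && decide s.pts.Nodup &&
    decide (s.y ∈ s.pts)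

/-- The test of a transitive step. -/
noncomputable def Stp.tr (s : Stp) (A : ℕ → ℕ → ℕ) (S B : List ℕ) : Bool :=
  Nat.beq (6 ^ 20 % s.pts.length) 0 && allL (fun w => allL (fun l => (maskL S).testBit l) w &&
    allL (fun x => maps A w x x) B) s.hs &&
    orbChk (wA A s.hs) (List.range s.hs.length) s.sch s.y (maskL s.pts)

/-- The chain. -/
noncomputable def chn (A : ℕ → ℕ → ℕ) (b C : ℕ) (S : List ℕ) (P : List (ℕ × ℕ)) (st : List Stp) :
    List ℕ → List ℕ → Bool :=
  List.rec (motive := fun _ => List ℕ → List ℕ → Bool)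
    (fun _ F => allL (fun p => Nat.beq (nth F 0 p.2) (Nat.shiftLeft 1 p.1)) P)
    (fun s _ ih B F => s.base A b F && (fun m => Bool.rec (motive := fun _ => Bool)
      (s.tr A S B && ih (s.y :: B) (Nat.shiftLeft 1 s.y :: m :: F))
      (ih B (Nat.shiftLeft 1 s.y :: m :: F)) (Nat.ble s.pts.length 4)) (wapp A s.u C)) st

theorem chn_sound (E : Env N π A) (hρ : ∀ l, ρ (val l) = π l) {C : ℕ}
    (hC : stab ρ b ≤ setStab ρ C) {S : List ℕ} {H : Subgroup G} (hS : ∀ l ∈ S, val l ∈ H)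
    {P : List (ℕ × ℕ)} (hP : ∀ g, (∀ x ∈ P, ρ g x.1 = x.1) → g = 1) {p : ℕ} (hp : p.Prime)
    (h5 : 5 ≤ p) (st : List Stp) : ∀ {B F : List ℕ}, chn A b C S P st B F = true →
    (∀ g ∈ H, g ^ p = 1 → (∀ x ∈ B, ρ g x = x) → ∀ m ∈ F, g ∈ setStab ρ m) →
    ∀ g ∈ H, g ^ p = 1 → (∀ x ∈ B, ρ g x = x) → g = 1 := by
  have ev : ∀ w, ρ (evw val w) = evw π w := fun w => by rw [map_evw]; simp only [hρ]
  induction st with
  | nil =>
    intro B F h hQ g hg h1 h2
    refine hP g fun x hx => ?_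
    have h3 : nth F 0 x.2 = Nat.shiftLeft 1 x.1 := Nat.eq_of_beq_eq_true (of_allL h x hx)
    have h4 : g ∈ setStab ρ (nth F 0 x.2) :=
      nth_prop (P := fun m => g ∈ setStab ρ m) (hQ g hg h1 h2) (fun i => by simp) _
    have h5 := h4 x.1
    rw [h3, show Nat.shiftLeft 1 x.1 = 2 ^ x.1 from Nat.one_shiftLeft _, Nat.testBit_two_pow_self,
      Nat.testBit_two_pow] at h5
    exact (by simpa using h5 : x.1 = ρ g x.1).symm
  | cons s st ih =>
    intro B F h hQ
    have h' : (s.base A b F && Bool.rec (motive := fun _ => Bool)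
      (s.tr A S B && chn A b C S P st (s.y :: B) (Nat.shiftLeft 1 s.y :: wapp A s.u C :: F))
      (chn A b C S P st B (Nat.shiftLeft 1 s.y :: wapp A s.u C :: F))
      (Nat.ble s.pts.length 4)) = true := h
    rw [Bool.and_eq_true] at h'
    obtain ⟨hb, h'⟩ := h'
    simp only [Stp.base, Bool.and_eq_true, decide_eq_true_eq] at hb
    obtain ⟨⟨⟨b1, b2⟩, b3⟩, b4⟩ := hb
    have b1' := E.of_maps b1
    have b2' := Nat.eq_of_beq_eq_true b2
    have new : ∀ g, ρ g s.y = s.y → (∀ m ∈ F, g ∈ setStab ρ m) →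
        ∀ m ∈ Nat.shiftLeft 1 s.y :: wapp A s.u C :: F, g ∈ setStab ρ m := by
      intro g hy hF m hm
      rcases List.mem_cons.1 hm with rfl | hm
      · intro i
        rw [show Nat.shiftLeft 1 s.y = 2 ^ s.y from Nat.one_shiftLeft _, Nat.testBit_two_pow,
          Nat.testBit_two_pow]
        conv_lhs => rw [← hy]
        simp
      rcases List.mem_cons.1 hm with rfl | hm
      · intro i
        have := hC (x := (evw val s.u)⁻¹ * g * evw val s.u) (mem_stab.2 (by
          rw [map_mul, map_mul, map_inv, ev, Equiv.Perm.mul_apply, Equiv.Perm.mul_apply, b1', hy,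
            ← b1']; simp)) ((evw π s.u)⁻¹ i)
        rw [E.testBit_wapp, E.testBit_wapp, ← this, map_mul, map_mul, map_inv, ev]
        simp
      · exact hF m hm
    have fx : ∀ g ∈ H, g ^ p = 1 → (∀ x ∈ B, ρ g x = x) →
        (¬ p ∣ s.pts.length → ∃ i ∈ s.pts, ρ g i = i) ∧ (s.pts.length < p → ∀ i ∈ s.pts, ρ g i = i) := by
      intro g hg h1 h2
      refine fixed_of_mask hp (by rw [← map_pow, h1, map_one]) b3 fun i => ?_
      have := cut_mem (hQ g hg h1 h2) (nth_prop (P := fun m => g ∈ setStab ρ m) (hQ g hg h1 h2)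
        (d := 0) (fun i => by simp) s.i0) s.ops i
      rw [← testBit_maskL, ← testBit_maskL, b2', this]
    cases hl : Nat.ble s.pts.length 4 <;> rw [hl] at h'
    · simp only [Stp.tr, Bool.and_eq_true] at h'
      obtain ⟨⟨⟨t1, t2⟩, t3⟩, t4⟩ := h'
      intro g hg h1 h2
      obtain ⟨i, hi, e⟩ := (fx g hg h1 h2).1 fun hd => by
        have h6 : p ∣ 6 := hp.dvd_of_dvd_pow
          (hd.trans (Nat.dvd_of_mod_eq_zero (Nat.eq_of_beq_eq_true t1)))
        have := Nat.le_of_dvd (by norm_num) h6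
        interval_cases p <;> first | omega | exact absurd hp (by decide)
      let K : Subgroup G := H ⊓ ⨅ x ∈ B, stab ρ x
      obtain ⟨k, hk, ek⟩ := orbChk_sound (val := wV val s.hs) (env_words E s.hs) ρ (B := K)
        (fun l _ => ⟨nth_prop (P := fun w => evw val w ∈ K) (fun w hw => by
          have := of_allL t2 w hw
          rw [Bool.and_eq_true] at this
          refine Subgroup.mem_inf.2 ⟨evw_mem fun l hl => hS l (mem_of_maskL (of_allL this.1 l hl)), ?_⟩
          simp only [Subgroup.mem_iInf, mem_stab, ev]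
          exact fun x hx => E.of_maps (of_allL this.2 x hx)) (one_mem _) l, ev _⟩) t3 i
        (testBit_maskL.2 hi)
      have hk2 : ∀ x ∈ B, ρ k x = x := by
        simpa only [Subgroup.mem_iInf, mem_stab] using (Subgroup.mem_inf.1 hk).2
      have := ih t4 (fun g hg h1 h2 => new g (h2 _ List.mem_cons_self)
        (hQ g hg h1 fun x hx => h2 x (List.mem_cons_of_mem _ hx))) (k⁻¹ * g * k)
        (mul_mem (mul_mem (inv_mem hk.1) hg) hk.1)
        (by rw [show k⁻¹ * g * k = k⁻¹ * g * k⁻¹⁻¹ by group, conj_pow, h1]; group) (by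
          intro x hx
          rw [map_mul, map_mul, map_inv, Equiv.Perm.mul_apply, Equiv.Perm.mul_apply,
            Equiv.Perm.inv_eq_iff_eq]
          rcases List.mem_cons.1 hx with rfl | hx
          · rw [ek, e]
          · rw [hk2 x hx, h2 x hx])
      calc g = k * (k⁻¹ * g * k) * k⁻¹ := by group
        _ = 1 := by rw [this]; group
    · refine ih h' fun g hg h1 h2 => new g ((fx g hg h1 h2).2 ?_ _ b4) (hQ g hg h1 h2)
      have := Nat.le_of_ble_eq_true hl
      omega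

theorem solvable_of_no_prime [Finite G] (h : ∀ p : ℕ, p.Prime → 5 ≤ p → ∀ g : G, g ^ p = 1 → g = 1) :
    Group.IsSolvable G := by
  have h0 : Nat.card G ≠ 0 := Nat.card_pos.ne'
  obtain ⟨a, m, hm, e1⟩ := Nat.exists_eq_pow_mul_and_not_dvd h0 2 (by norm_num)
  obtain ⟨c, k, hk, e2⟩ := Nat.exists_eq_pow_mul_and_not_dvd (n := m) (by rintro rfl; simp at hm) 3
    (by norm_num)
  have : k = 1 := by
    rw [Nat.eq_one_iff_not_exists_prime_dvd]
    intro p hp hd
    haveI := Fact.mk hp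
    have hd' : p ∣ Nat.card G := by rw [e1, e2]; exact (hd.mul_left _).mul_left _
    obtain ⟨g, hg⟩ := exists_prime_orderOf_dvd_card' p hd'
    have h5 : 5 ≤ p := by
      by_contra hc
      have := hp.two_le
      have h4 : p ≠ 4 := by rintro rfl; exact absurd hp (by decide)
      have h2 : p ≠ 2 := by rintro rfl; exact hm (e2 ▸ hd.mul_left _)
      have h3 : p ≠ 3 := by rintro rfl; exact hk hd
      omega
    have := h p hp h5 g (hg ▸ pow_orderOf_eq_one g)
    rw [this, orderOf_one] at hg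
    omega
  exact Cfsg.Agent.S0144.result 2 3 a c Nat.prime_two Nat.prime_three (by rw [e1, e2, this, mul_one])

theorem der_step {H : Subgroup G} {k : ℕ} {u h : G} (hu : u ∈ (derivedSeries H k).map H.subtype)
    (hh : h ∈ H) : u * (h * u * h⁻¹) * u⁻¹ * (h * u * h⁻¹)⁻¹ ∈
      (derivedSeries H (k + 1)).map H.subtype := by
  obtain ⟨u', hu', rfl⟩ := hu
  exact ⟨_, Subgroup.commutator_mem_commutator hu'
    ((derivedSeries_normal H k).conj_mem u' hu' ⟨h, hh⟩), by simp [commutatorElement_def]⟩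

/-- The word of `v⁻¹ [u, u ^ h]`. -/
noncomputable def derW (t : ℕ) (u h v : List ℕ) : List ℕ :=
  winv t v ++ (u ++ (h ++ (u ++ (winv t h ++ (winv t u ++ (h ++ (winv t u ++ winv t h)))))))

theorem der_word {t : ℕ} (hv : ∀ l, val (linv t l) = (val l)⁻¹) {H : Subgroup G} {k : ℕ}
    {u h v S : List ℕ} (hS : ∀ l ∈ S, val l ∈ H) (hh : ∀ l ∈ h, l ∈ S)
    (e : evw val (derW t u h v) = 1) (hu : evw val u ∈ (derivedSeries H k).map H.subtype) :
    evw val v ∈ (derivedSeries H (k + 1)).map H.subtype := by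
  have := der_step hu (evw_mem fun l hl => hS l (hh l hl))
  simp only [derW, evw_append, evw_winv hv, inv_mul_eq_one] at e
  rw [e]
  convert this using 1
  group

theorem der_ne {H : Type*} [Group H] [Group.IsSolvable H] {k : ℕ} (h : derivedSeries H k ≠ ⊥) :
    derivedSeries H (k + 1) ≠ derivedSeries H k := by
  intro e
  have key : ∀ j, derivedSeries H (k + j) = derivedSeries H k := by
    intro j
    induction j with
    | zero => rfl
    | succ j ih => rw [← add_assoc, derivedSeries_succ, ih, ← derivedSeries_succ, e]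
  obtain ⟨n, hn⟩ := Group.IsSolvable.solvable (G := H)
  refine h (le_bot_iff.1 ?_)
  rw [← key n, ← hn]
  exact derivedSeries_antitone H (by omega)

end H73
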