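import Cfsg.Agent.H91.VCSpec

/-! Arithmetic of the derived length table. -/

set_option autoImplicit false

namespace H73.VCA
open H91.VC

theorem mono (a b : ℕ) (h : a ≤ b) : FF a ≤ FF b := by
  unfold FF
  split_ifs <;> omega

theorem bnd {b k : ℕ} (hb : 2 ≤ b) (hk : 2 ≤ k) (h : b ^ k < 65536) : b < 256 ∧ k < 16 := by
  constructor
  · by_contra hn
    have := (Nat.pow_le_pow_left (not_lt.1 hn) 2).trans (Nat.pow_le_pow_right (by omega) hk)
    omega
  · by_contra hn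
    have := (Nat.pow_le_pow_right (n := 2) (by omega) (not_lt.1 hn)).trans (Nat.pow_le_pow_left hb k)
    omega

theorem c2 : ∀ b < 256, ∀ k < 16, 2 ≤ b → 2 ≤ k → b ^ k < 65536 →
    FF k + 1 + FF b ≤ FF (b ^ k) := by decide +kernel

set_option synthInstance.maxSize 2048 in
theorem c3 : ∀ q < 256, ∀ e < 16, 3 ≤ q → 2 ≤ e → (e = 3 → 4 ≤ q) → q ^ e < 65536 →
    e * e < q ^ e ∧ FF (e * e) + 2 ≤ FF (q ^ e) := by decide +kernel

theorem jobARF : JobARF := by
  refine ⟨mono, fun b k m hb hk h hm => ?_, fun q e n hq he hn hr h => ?_⟩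
  · obtain ⟨h1, h2⟩ := bnd hb hk (h.trans_lt hm)
    exact (c2 b h1 k h2 hb hk (h.trans_lt hm)).trans (mono _ _ h)
  · have hp : q ^ e ≤ q ^ n := Nat.pow_le_pow_right (by omega) hn
    obtain ⟨h1, h2⟩ := bnd hq he (hp.trans_lt h)
    have h3 : 3 ≤ q := by
      by_contra hl
      obtain rfl : q = 2 := by omega
      have e1 : e ≠ 1 := by omega
      exact (Nat.minFac_prime e1).one_lt.ne'
        (Nat.dvd_one.1 (hr _ (Nat.minFac_prime e1) (Nat.minFac_dvd e)))
    have h4 : e = 3 → 4 ≤ q := fun e3 => by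
      have := hr 3 Nat.prime_three (e3 ▸ dvd_rfl)
      omega
    obtain ⟨k1, k2⟩ := c3 q h1 e h2 h3 he h4 (hp.trans_lt h)
    exact ⟨k1.trans_le hp, k2.trans (mono _ _ hp)⟩

end H73.VCA
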