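import Cfsg.Agent.H91.VCSpec
import Cfsg.Agent.H4.CLHB
import Cfsg.Agent.H18.CLEig

/-! Points with stabilisers of three different sizes. -/

set_option autoImplicit false

namespace H73.VCS
open H12.CL H91.VC

theorem ker_ne {M X : Type} [AddCommGroup M] [AddCommGroup X] [Finite X] (f : M →+ X)
    (h : Nat.card X < Nat.card M) : ∃ m, m ≠ 0 ∧ f m = 0 := by
  by_contra hn
  push Not at hn
  have := Nat.card_le_card_of_injective f ((injective_iff_map_eq_zero f).2 fun m hm =>
    by_contra fun k => hn m k hm)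
  omega

theorem three {V W : Type} [Zero V] [Finite W] (P : V → W → Prop) {v0 v1 v2 : V} (h0 : v0 ≠ 0)
    (h1 : v1 ≠ 0) (h2 : v2 ≠ 0) (l1 : ∀ a, P v1 a → P v0 a) (l2 : ∀ a, P v2 a → P v1 a) {m m' : W}
    (k0 : P v0 m) (k1 : ¬ P v1 m) (k2 : P v1 m') (k3 : ¬ P v2 m') :
    ∃ u : Fin 3 → V, (∀ i, u i ≠ 0) ∧ Function.Injective fun i => {a | P (u i) a}.ncard := by
  have e1 : {a | P v1 a}.ncard < {a | P v0 a}.ncard :=
    Set.ncard_lt_ncard ⟨l1, fun h => k1 (h k0)⟩ (Set.toFinite _)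
  have e2 : {a | P v2 a}.ncard < {a | P v1 a}.ncard :=
    Set.ncard_lt_ncard ⟨l2, fun h => k3 (h k2)⟩ (Set.toFinite _)
  refine ⟨![v0, v1, v2], fun i => by fin_cases i <;> assumption, fun i j h => ?_⟩
  fin_cases i <;> fin_cases j <;> simp at h ⊢ <;> omega

theorem jobST3 : JobST3 := by
  intro hX r _ K V W _ _ _ _ _ _ _ _ _ _ S ty h64 h3
  classical
  obtain ⟨M, N, D, fr, -⟩ := H4.CLHB.jobHB r W S.B S.Gd S.sp ty 0 S.gd_zero
  obtain ⟨v₀, Pj, pt⟩ := H18.CLE.jobEIG r K V W S ty M N D fr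
  have st := hX r K V W S ty M N D v₀ Pj fr pt
  have hc := fr.card S.sp
  have hMN := fr.card_eq S.sp
  rw [← hMN] at hc
  have hD : Nat.card D ≤ 4 ∧ (r ≠ 2 → Nat.card D = 1) := by
    by_cases hb : D = ⊥
    · rw [hb]; simp
    · obtain ⟨d, hd, d0⟩ := (Submodule.ne_bot_iff D).1 hb
      obtain ⟨r2, d', -, -, h⟩ := fr.four S.sp ty hd d0
      refine ⟨?_, fun k => (k r2).elim⟩
      have := Set.ncard_le_ncard (s := (D : Set W)) (t := (({0, d, d', d + d'} : Finset W) : Set W))
        (fun e he => by simpa using h e he) (Set.toFinite _)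
      rw [Set.ncard_coe_finset] at this
      exact (Nat.card_coe_set_eq (D : Set W)).le.trans (this.trans Finset.card_le_four)
  have h4 : 4 ≤ Nat.card M := by
    by_contra hl
    have : Nat.card M * Nat.card M * Nat.card D ≤ 3 * 3 * 4 :=
      Nat.mul_le_mul (Nat.mul_le_mul (by omega) (by omega)) hD.1
    omega
  have pair : ∀ m : M, m ≠ 0 → ∃ n ∈ N, S.B m n ≠ 0 := fun m hm => by
    by_contra hn
    push Not at hn
    exact hm (Subtype.ext (fr.eq_zero S.sp m.2 hn))
  let f : W → M →+ ZMod r := fun a => ((S.B.flip a).comp M.subtype).toAddMonoidHom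
  obtain ⟨m0, m00, -⟩ := ker_ne (f 0) (by rw [Nat.card_zmod]; omega)
  obtain ⟨a, aN, ha⟩ := pair m0 m00
  obtain ⟨m1, m10, (h1a : S.B m1 a = 0)⟩ := ker_ne (f a) (by rw [Nat.card_zmod]; omega)
  obtain ⟨b, bN, hb⟩ := pair m1 m10
  have a0 : a ≠ 0 := fun e => ha (by rw [e, map_zero])
  have b0 : b ≠ 0 := fun e => hb (by rw [e, map_zero])
  have ab : a ≠ b := fun e => hb (e ▸ h1a)
  have s0 : a + b ≠ 0 := fun e => hb (by
    have := congrArg (S.B m1) e
    rwa [map_add, h1a, zero_add, map_zero] at this)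
  have c4 : ({0, a, b, a + b} : Finset W).card = 4 := by
    rw [Finset.card_insert_of_notMem (by simp [a0.symm, b0.symm, s0.symm]),
      Finset.card_insert_of_notMem (by simp [ab, b0]), Finset.card_pair (by simp [a0])]
  have c5 : ∀ (m : W) c, S.B m a = 0 → S.B m b = 0 → S.B m c ≠ 0 →
      ({c, 0, a, b, a + b} : Finset W).card = 5 := fun m c e1 e2 e3 => by
    rw [Finset.card_insert_of_notMem, c4]
    simp only [Finset.mem_insert, Finset.mem_singleton]
    rintro (rfl | rfl | rfl | rfl)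
    · exact e3 (map_zero _)
    · exact e3 e1
    · exact e3 e2
    · exact e3 (by rw [map_add, e1, e2, add_zero])
  have rp : r.Prime := Fact.out
  obtain ⟨v0, n0, s0'⟩ := st {0} (by simp) (by simp) (by simpa using rp.ne_one)
  have r2 := rp.two_le
  obtain rfl | rfl : r = 2 ∨ r = 3 := by omega
  · have c3 : ({0, a, b} : Finset W).card = 3 := by
      rw [Finset.card_insert_of_notMem (by simp [a0.symm, b0.symm]), Finset.card_pair ab]
    obtain ⟨v1, n1, s1⟩ := st {0, a, b} (by simp) (by simp [aN, bN]) (by rw [c3]; decide)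
    by_cases h8 : 4 < Nat.card M
    · obtain ⟨m2, m20, h2⟩ := ker_ne ((f a).prod (f b)) (by rw [Nat.card_prod, Nat.card_zmod]; omega)
      have h2a : S.B m2 a = 0 := congrArg Prod.fst h2
      have h2b : S.B m2 b = 0 := congrArg Prod.snd h2
      obtain ⟨c, cN, hc'⟩ := pair m2 m20
      obtain ⟨v2, n2, s2⟩ := st {c, 0, a, b, a + b} (by simp) (by simp [aN, bN, cN, N.add_mem aN bN])
        (by rw [c5 _ c h2a h2b hc']; decide)
      refine .inl (three S.St n0 n1 n2 (m := m0) (m' := m2) (fun x hx => ?_) (fun x hx => ?_) ?_ ?_ ?_ ?_)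
      · exact (s0' x).2 ⟨((s1 x).1 hx).1, by simp⟩
      · exact (s1 x).2 ⟨((s2 x).1 hx).1, fun y hy => ((s2 x).1 hx).2 y (by
          simp only [Finset.mem_insert, Finset.mem_singleton] at hy ⊢; tauto)⟩
      · exact (s0' _).2 ⟨m0.2, by simp⟩
      · exact fun h => ha (((s1 _).1 h).2 a (by simp))
      · exact (s1 _).2 ⟨m2.2, by simp [h2a, h2b]⟩
      · exact fun h => hc' (((s2 _).1 h).2 c (by simp))
    · have e4 : Nat.card M = 4 := by omega
      refine .inr ⟨by have := hD.1; rw [e4] at hc; omega, v0, v1, n0, ?_, n1, ?_⟩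
      · rw [← e4, show {a | S.St v0 a} = (M : Set W) from Set.ext fun x => by simp [s0' x]]
        exact (Nat.card_coe_set_eq (M : Set W)).symm
      · rw [Set.ncard_eq_one]
        refine ⟨0, Set.eq_singleton_iff_unique_mem.2 ⟨Ex.St.zero v1, fun x hx => ?_⟩⟩
        obtain ⟨xM, hx'⟩ := (s1 x).1 hx
        by_contra x0
        obtain ⟨c, cN, hc'⟩ := pair ⟨x, xM⟩ fun e => x0 (congrArg Subtype.val e)
        have := Set.ncard_le_ncard (s := (({c, 0, a, b, a + b} : Finset W) : Set W)) (t := (N : Set W))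
          (by simp [Set.insert_subset_iff, aN, bN, cN, N.add_mem aN bN]) (Set.toFinite _)
        rw [Set.ncard_coe_finset, c5 x c (hx' a (by simp)) (hx' b (by simp)) hc',
          ← Nat.card_coe_set_eq] at this
        exact absurd (this.trans (hMN.symm.trans e4).le) (by norm_num)
  · obtain ⟨v1, n1, s1⟩ := st {0, a} (by simp) (by simp [aN])
      (by rw [Finset.card_pair a0.symm]; decide)
    obtain ⟨v2, n2, s2⟩ := st {0, a, b, a + b} (by simp) (by simp [aN, bN, N.add_mem aN bN])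
      (by rw [c4]; decide)
    refine .inl (three S.St n0 n1 n2 (m := m0) (m' := m1) (fun x hx => ?_) (fun x hx => ?_) ?_ ?_ ?_ ?_)
    · exact (s0' x).2 ⟨((s1 x).1 hx).1, by simp⟩
    · exact (s1 x).2 ⟨((s2 x).1 hx).1, fun y hy => ((s2 x).1 hx).2 y (by
        simp only [Finset.mem_insert, Finset.mem_singleton] at hy ⊢; tauto)⟩
    · exact (s0' _).2 ⟨m0.2, by simp⟩
    · exact fun h => ha (((s1 _).1 h).2 a (by simp))
    · exact (s1 _).2 ⟨m1.2, by simp [h1a]⟩
    · exact fun h => hb (((s2 _).1 h).2 b (by simp))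

end H73.VCS
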