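/- X3 tower, step Cc: the rank of the principal block of a central extension by `3`. -/
import Cfsg.Agent.H34.X3Spec

namespace H73.X3Cc

open Subgroup Cfsg H28 H35 H36 H41 Module H34.X3

universe u

variable {H Q : Type*} [Group H] [Fintype H] [Group Q] {z : H} {π : H →* Q} {M : Ideal AlgInt}
  {ω : ℂ}

theorem ev_of_inB {f : H → ℂ} (hf : InB (Iz M z ω) f) : Ev z ω f := fun x => by
  rw [hf.apply_eq_sum, hf.apply_eq_sum x, Finset.mul_sum]
  refine Finset.sum_congr rfl fun χ hχ => ?_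
  rw [(mem_bF.1 hχ).2 x]
  ring

theorem zero_of_inB (hV : HV M π z) (h1 : ω ≠ 1) {f : H → ℂ} (hf : InB (Iz M z ω) f) {y : H}
    (hy : 3 ∣ orderOf (π y)) : f y = 0 := by
  rw [hf.apply_eq_sum]
  exact Finset.sum_eq_zero fun χ hχ => by rw [hV.zero h1 (mem_bF.1 hχ) hy, mul_zero]

theorem eq_zero_of_pReg (h : CE π z) (hV : HV M π z) (h1 : ω ≠ 1) {f : H → ℂ}
    (hf : InB (Iz M z ω) f) (h0 : pRegularPart 3 f = 0) : f = 0 := by
  funext y
  by_cases hy : 3 ∣ orderOf (π y)
  · exact zero_of_inB hV h1 hf hy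
  · obtain ⟨r, hr, -, k⟩ := h.cases hy
    have h2 : f r = 0 := by rw [← pReg_of_reg f hr, h0]; rfl
    have h3 := ev_of_inB hf
    rcases k with rfl | rfl | rfl
    · exact h2
    · rw [h3, h2, mul_zero]; rfl
    · rw [h3, h3, h2, mul_zero, mul_zero]; rfl

theorem map_eq [M.IsMaximal] (hM : IsPModular 3 M) (h : CE π z) (hω : ω ^ 2 + ω + 1 = 0) :
    (spanB (principalBlock M H)).map (pRegL 3 H) = (spanB (Iz M z ω)).map (pRegL 3 H) := by
  classical
  haveI : Finite Q := Finite.of_surjective π h.surj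
  obtain ⟨-, h3, -⟩ := om_norm hω
  refine le_antisymm ?_ (Submodule.map_mono fun f hf => ⟨hf.1, fun ψ hψ => hf.2 ψ fun k => hψ k.1⟩)
  rintro _ ⟨f, hf, rfl⟩
  have hF : InB (principalBlock M H) (pRegularPart 3 f) :=
    InB.pReg hM H34.isPBlock_principalBlock hf
  refine ⟨∑ χ ∈ bF (Iz M z ω), (3 * classInner (pRegularPart 3 f) χ) • (χ : H → ℂ),
    inB_sum_bF _, funext fun y => ?_⟩
  simp only [pRegL_apply]
  by_cases hy : 3 ∣ orderOf y
  · rw [pReg_of_sing _ hy, pReg_of_sing _ hy]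
  obtain ⟨s1, s2⟩ := h.sing hy
  have e : pRegularPart 3 f y = pRegularPart 3 f y + ω ^ 2 * pRegularPart 3 f (z * y) +
      ω * pRegularPart 3 f (z * (z * y)) := by
    rw [pReg_of_sing _ s1, pReg_of_sing _ s2]; ring
  rw [pReg_of_reg _ hy, e, hF.apply_eq_sum y, hF.apply_eq_sum (z * y),
    hF.apply_eq_sum (z * (z * y)), Finset.mul_sum, Finset.mul_sum, ← Finset.sum_add_distrib,
    ← Finset.sum_add_distrib, Finset.sum_apply]
  have hs : bF (Iz M z ω) ⊆ bF (principalBlock M H) := fun χ hχ => mem_bF.2 (mem_bF.1 hχ).1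
  rw [← Finset.sum_subset hs]
  · refine Finset.sum_congr rfl fun χ hχ => ?_
    have k := (mem_bF.1 hχ).2
    rw [k (z * y), k y, Pi.smul_apply, smul_eq_mul]
    linear_combination (-2 * classInner (pRegularPart 3 f) χ * χ.1 y) * h3
  · intro χ hχ hn
    rcases h.tri hM hω (mem_bF.1 hχ) with ⟨ξ, -, rfl⟩ | k | k
    · have k : ∀ x, (infl h.surj ξ).1 (z * x) = (infl h.surj ξ).1 x := fun x => by
        change ξ.1 (π (z * x)) = ξ.1 (π x)
        rw [map_mul, h.map, one_mul]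
      rw [k (z * y), k y]
      linear_combination (classInner (pRegularPart 3 f) (infl h.surj ξ).1 *
        (infl h.surj ξ).1 y) * hω
    · exact absurd (mem_bF.2 k) hn
    · rw [k.2 (z * y), k.2 y]
      linear_combination (classInner (pRegularPart 3 f) χ * χ.1 y) * hω +
        (classInner (pRegularPart 3 f) χ * χ.1 y) * (ω + ω ^ 2) * h3

theorem jobCc : JobCc.{u} := by
  intro H Q _ _ _ z π M _ ω hM h hV hω
  obtain ⟨h1, -, -⟩ := om_norm hω
  rw [blockRank_eq_finrank_map, map_eq hM h hω, ← finrank_spanB, ← LinearMap.range_domRestrict]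
  refine LinearMap.finrank_range_of_inj ?_
  rw [← LinearMap.ker_eq_bot, eq_bot_iff]
  rintro ⟨f, hf⟩ h0
  exact Subtype.ext (eq_zero_of_pReg h hV h1 hf h0)

end H73.X3Cc
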